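import Cfsg.Agent.Lib.Wall2.Transl
import Cfsg.Agent.Lib.MatConj.WallOrth

/-!
# Types of isometries of quadratic forms in characteristic two
-/

set_option autoImplicit false

namespace CfsgLib.Wall2

open Matrix Polynomial QuadraticMap Module CfsgLib.MatConj Finset

variable {F : Type*} [Field F] [CharP F 2] {n : Type*} [Fintype n] [DecidableEq n]

theorem pal_of_sr {f : F[X]} (h : SR f) (h1 : ¬ pm F true ∣ f) : Pal f := by
  refine ⟨not_not.1 fun h2 => h1 ?_, h.coeff_zero_eq_one h1, h.2⟩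
  rw [pm_dvd_iff, eval_eq_sum_range]
  refine sum_involution (fun i _ => f.natDegree - i) (fun i hi => ?_) (fun i hi _ => ?_)
    (fun i hi => by simp) fun i hi => by simp at hi; omega
  · have := coeff_tilde (RingHom.id F) f i
    rw [h.2, h.coeff_zero_eq_one h1, revAt_le (Nat.lt_succ_iff.1 (mem_range.1 hi))] at this
    simp [this, CharTwo.add_self_eq_zero]
  · rw [Nat.not_even_iff_odd, Nat.odd_iff] at h2
    have := mem_range.1 hi
    omega

/-- The Gram matrix. -/
noncomputable abbrev gr (Q : QuadraticForm F (n → F)) : Matrix n n F := Orth.gram Q (Pi.basisFun F n)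

omit [CharP F 2] in
theorem gr_inv {m : Type*} [Fintype m] [DecidableEq m] {Q : QuadraticForm F (n → F)}
    {Q' : QuadraticForm F (m → F)} {A : Matrix n m F} :
    Aᵀ * gr Q * A = gr Q' ↔ ∀ v w, polar Q (A *ᵥ v) (A *ᵥ w) = polar Q' v w := by
  rw [← toBilin'.injective.eq_iff, ← toBilin'_comp, LinearMap.ext_iff₂]
  simp [polar_eq_toBilin']

omit [CharP F 2] in
theorem det_gr_ne_zero {Q : QuadraticForm F (n → F)} :
    (gr Q).det ≠ 0 ↔ ∀ v, (∀ w, polar Q v w = 0) → v = 0 := by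
  refine ⟨fun h v hv => (nondeg_toBilin' _ h).1 v fun w => (polar_eq_toBilin' Q v w).symm.trans (hv w),
    fun h => Orth.det_gram_ne_zero ⟨h, fun v hv => h v fun w => (polar_comm _ _ _).trans (hv w)⟩ _⟩

omit [CharP F 2] [DecidableEq n] in
theorem gr_transpose (Q : QuadraticForm F (n → F)) : (gr Q)ᵀ = (1 : F) • gr Q := by
  ext i j
  simp [Orth.gram, polar_comm]

omit [CharP F 2] in
theorem polar_inv {V : Type*} [AddCommGroup V] [Module F V] {Q : QuadraticForm F V} {g : End F V}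
    (h : ∀ v, Q (g v) = Q v) (v w : V) : polar Q (g v) (g w) = polar Q v w := by
  simp [polar, ← map_add, h]

theorem exists_equiv_of_isUnit [Finite F] {A A' : Matrix n n F} {Q Q' : QuadraticForm F (n → F)}
    (h : IsConj A A') (h1 : IsUnit (A - 1)) (hQ : (gr Q).det ≠ 0) (hQ' : (gr Q').det ≠ 0)
    (hA : ∀ v, Q (A *ᵥ v) = Q v) (hA' : ∀ v, Q' (A' *ᵥ v) = Q' v) :
    ∃ e : (n → F) ≃ₗ[F] (n → F), (∀ v, e (A *ᵥ v) = A' *ᵥ e v) ∧ ∀ v, Q' (e v) = Q v := by
  have h2 : A + 1 = A - 1 := by ext; simp [CharTwo.sub_eq_add]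
  obtain ⟨H, hH⟩ := exists_transp (isConj_iff_edM.1 h).symm (gr Q')
  obtain ⟨x, h3, h4⟩ := cong_of_isUnit h1 (h2 ▸ h1)
    (hH.inv (gr_inv.2 (polar_inv (g := toLin' A') hA'))) (gr_inv.2 (polar_inv (g := toLin' A) hA))
    one_ne_zero (hH.transpose (gr_transpose _)) (gr_transpose _) (hH.det_ne_zero hQ') hQ
  obtain ⟨P, P', -, -, h5, rfl⟩ := hH
  rw [cong_cong] at h4
  have h6 : P * x * A = A' * (P * x) := by rw [mul_assoc, h3.eq, ← mul_assoc, ← h5, mul_assoc]
  generalize P * x = T at h4 h6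
  have h7 : ∀ v, T *ᵥ A *ᵥ v = A' *ᵥ T *ᵥ v := fun v => by rw [mulVec_mulVec, h6, mulVec_mulVec]
  have h8 : IsUnit T.det := by
    have := det_cong (gr Q') T
    rw [h4] at this
    exact (left_ne_zero_of_mul (left_ne_zero_of_mul (this ▸ hQ))).isUnit
  refine ⟨toLin'OfInv (nonsing_inv_mul _ h8) (mul_nonsing_inv _ h8), h7, fun v => ?_⟩
  obtain ⟨w, rfl⟩ := mulVec_surjective_iff_isUnit.2 (h2 ▸ h1) v
  change Q' (T *ᵥ _) = _
  simp only [add_mulVec, one_mulVec, mulVec_add, QuadraticMap.map_add Q, QuadraticMap.map_add Q',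
    h7, hA, hA', CharTwo.add_self_eq_zero]
  rw [← h7, gr_inv.1 h4]

omit [CharP F 2] in
theorem orth_of_nil {V W : Type*} [AddCommGroup V] [Module F V] [AddCommGroup W] [Module F W]
    (B : V →ₗ[F] W →ₗ[F] F) {a : End F V} {u : End F W} (h : ∀ v w, B (a v) (u w) = B v w)
    (ha : Function.Surjective (a - 1 : End F V)) (k : ℕ) : ∀ w, ((u - 1) ^ k) w = 0 → ∀ v, B v w = 0 := by
  induction k with
  | zero => simp +contextual
  | succ k ih =>
    intro w hw v
    obtain ⟨v, rfl⟩ := ha v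
    have h1 := ih _ (by rwa [pow_succ] at hw)
    have h2 := h1 (a v)
    simp only [LinearMap.sub_apply, map_sub, End.one_apply, h] at h2 ⊢
    linear_combination -h2

/-- The isometry `g` of `Q` has invariant factors `x` away from `1` and unipotent type `s`. -/
def Typ (K : ℕ) (Q : QuadraticForm F (n → F)) (g : Matrix n n F) (x : Fin K → F[X])
    (s : Multiset (Blk F)) : Prop :=
  ∃ (k l : ℕ) (A : Matrix (Fin k) (Fin k) F) (Q₁ : QuadraticForm F (Fin k → F))
    (u : End F (Fin l → F)) (Q₂ : QuadraticForm F (Fin l → F))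
    (e : ((Fin k → F) × (Fin l → F)) ≃ₗ[F] (n → F)), IsUnit (A - 1) ∧ k ≤ K ∧ (gr Q₁).det ≠ 0 ∧
    (∀ v, Q₁ (A *ᵥ v) = Q₁ v) ∧ (∀ v, g *ᵥ e v = e (A *ᵥ v.1, u v.2)) ∧
    (∀ v, Q (e v) = Q₁ v.1 + Q₂ v.2) ∧ matD K A = x ∧ HasType K Q₂ u s

variable [Finite F] {K : ℕ} {Q Q' : QuadraticForm F (n → F)} {g g' : Matrix n n F}
  {x : Fin K → F[X]} {s s' : Multiset (Blk F)}

theorem exists_typ (hK : Fintype.card n ≤ K) (hQ : (gr Q).det ≠ 0) (hg : ∀ v, Q (g *ᵥ v) = Q v) :
    ∃ x L E, L.length = K + 1 ∧ E ⊆ pos false L ∧ Typ K Q g x (blocks F L E) := by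
  classical
  have h0 : ∀ p [DecidablePred p], ∃ (k : ℕ) (B : Matrix (Fin k) (Fin k) F),
      edM B = (edM g).filter p := fun p _ => ⟨_, exists_edM_eq
    (fun x hx => edM_valid g x (Multiset.mem_of_mem_filter hx)) (Fintype.card_fin _)⟩
  obtain ⟨k, A, hA⟩ := h0 fun x => ¬ x.1 = pm F true
  obtain ⟨l, U, hU⟩ := h0 fun x => x.1 = pm F true
  obtain ⟨e, he⟩ : Sim ((toLin' A).prodMap (toLin' U)) (toLin' g) := sim_of_ed_eq (by
    rw [ed_prodMap, ← edM, ← edM, ← edM, hA, hU, add_comm, Multiset.filter_add_not])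
  have h1 : IsUnit (A - 1) := by
    simpa [pm] using (isUnit_aeval_iff_edM A (pm_facts' true).1 (pm_facts' true).2.1).2 fun x hx =>
      (Multiset.mem_filter.1 (Multiset.mem_of_le hA.le hx)).2
  have h2 : (toLin' U - 1) ^ K = 0 := by
    have := (aeval_eq_zero_iff_ed (toLin' U) (pm F true ^ K)).2 fun x hx => by
      obtain ⟨h2, h3⟩ := Multiset.mem_filter.1 (Multiset.mem_of_le hU.le hx)
      exact h3 ▸ pow_dvd_pow _ ((exp_le_card h2).trans hK)
    simpa [pm] using this
  have h3 : ∀ v, g *ᵥ e v = e (A *ᵥ v.1, U *ᵥ v.2) := fun v => (he v).symm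
  have h4 := orth_of_nil ((polarBilin Q).compl₁₂ (e.toLinearMap ∘ₗ .inl F _ _)
    (e.toLinearMap ∘ₗ .inr F _ _)) (a := toLin' A) (u := toLin' U) (fun v w => by
      simpa [h3] using polar_inv (g := toLin' g) hg (e (v, 0)) (e (0, w)))
    (fun v => by simpa [sub_mulVec] using mulVec_surjective_iff_isUnit.2 h1 v) K
  replace h4 : ∀ v w, polar Q (e (v, 0)) (e (0, w)) = 0 := fun v w => h4 w (by simp [h2]) v
  have h5 : ∀ v, e v = e (v.1, 0) + e (0, v.2) := fun v => by simp [← map_add]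
  rw [det_gr_ne_zero] at hQ
  obtain ⟨L, E, h6, h7, h8⟩ := exists_hasType (Q := Q.comp (e.toLinearMap ∘ₗ .inr F _ _))
    (fun v hv => by
      simpa using hQ (e (0, v)) (e.surjective.forall.2 fun w => by
        rw [h5 w, polar_add_right, polar_comm, h4, zero_add]
        simpa [polar, ← map_add] using hv w.2))
    (fun v => by simpa [h3] using hg (e (0, v))) h2
  refine ⟨_, L, E, h6, h7, k, l, A, Q.comp (e.toLinearMap ∘ₗ .inl F _ _), _, _, e, h1, ?_,
    det_gr_ne_zero.2 fun v hv => ?_, fun v => by simpa [h3] using hg (e (v, 0)), h3, fun v => ?_,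
    rfl, h8⟩
  · have := e.finrank_eq
    simp at this
    omega
  · simpa using hQ (e (v, 0)) (e.surjective.forall.2 fun w => by
      rw [h5 w, polar_add_right, h4, add_zero]
      simpa [polar, ← map_add] using hv w.1)
  · rw [h5, QuadraticMap.map_add Q, h4, add_zero]
    rfl

omit [DecidableEq n] in
theorem Typ.mem (h : Typ K Q g x s) : ∃ i, 2 * (i + (s.map Blk.wt).sum) = Fintype.card n ∧
    x ∈ famD K (fun _ => monS (fun f => Pal f ∧ ¬ pm F true ∣ f) (2 * i)) (2 * i) := by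
  obtain ⟨k, l, A, Q₁, u, Q₂, e, h1, h2, h3, h4, -, -, rfl, h5⟩ := h
  have h6 := gr_inv.2 (polar_inv (g := toLin' A) h4)
  have h7 := e.finrank_eq
  have h8 := h5.card_gauss.1
  have h9 := matD_mem_famD (K := K) (by simpa using h2) (A := A)
    (P := fun _ f => Pal f ∧ ¬ pm F true ∣ f) fun i => by
      have h9 : ¬ pm F true ∣ matD K A i := fun h => (isUnit_aeval_iff_edM A (pm_facts' true).1
        (pm_facts' true).2.1).1 (by simpa [pm] using h1) _ ((dvd_toData_iff (edM_valid _) i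
          (pm_facts' true).1 (pm_facts' true).2.1).1 h) rfl
      exact ⟨pal_of_sr ⟨matD_coeff_zero_ne_zero K ((isUnit_iff_isUnit_det _).2
        (det_ne_zero_of_inv h6 h3).isUnit) i, matD_tilde K (edM_recip_of_gram h3 h6) i⟩ h9, h9⟩
  obtain ⟨i, hi⟩ : Even k := by
    have := wtD_matD (K := K) (by simpa using h2) A
    rw [Fintype.card_fin] at this
    exact this ▸ even_sum _ fun i _ => ((mem_monS.1 ((mem_famD.1 h9).1 i)).2.2.1.1).mul_left _
  rw [Nat.card_fun, Nat.card_eq_fintype_card (α := Fin l), Fintype.card_fin] at h8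
  have := Nat.pow_right_injective (Finite.one_lt_card (α := F)) h8
  simp only [finrank_prod, finrank_fintype_fun_eq_card, Fintype.card_fin] at h7
  exact ⟨i, by omega, by simpa [hi, two_mul] using h9⟩

omit [DecidableEq n] in
theorem Typ.exists_equiv (h : Typ K Q g x s) (h' : Typ K Q' g' x s') :
    (gauss Q = gauss Q' → psi F (s.map fun b => b.2.2).sum = psi F (s'.map fun b => b.2.2).sum) ∧
    ∀ {full : Prop}, Multiset.Rel (HM.BR full) s s' → ∃ T : (n → F) ≃ₗ[F] (n → F),
      (∀ v, T (g *ᵥ v) = g' *ᵥ T v) ∧ (∀ v w, polar Q' (T v) (T w) = polar Q v w) ∧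
        (full → ∀ v, Q' (T v) = Q v) := by
  obtain ⟨k, l, A, Q₁, u, Q₂, e, h1, h2, h3, h4, h5, h6, rfl, h7⟩ := h
  obtain ⟨k', l', A', Q₁', u', Q₂', e', -, h2', h3', h4', h5', h6', hx, h7'⟩ := h'
  obtain rfl : k = k' := by
    have := congrArg wtD hx
    rwa [wtD_matD (by simpa), wtD_matD (by simpa), Fintype.card_fin, Fintype.card_fin, eq_comm] at this
  obtain ⟨f, h8, h9⟩ := exists_equiv_of_isUnit ((matD_eq_iff (by simpa)).1 hx.symm) h1 h3 h3' h4 h4'
  refine ⟨fun h => ?_, fun hs => ?_⟩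
  · rw [← gauss_congr e.toEquiv h6, ← gauss_congr e'.toEquiv h6', gauss_prod, gauss_prod,
      ← gauss_congr f.toEquiv h9] at h
    have h10 := gauss_mul_self (Q := Q₁) (B := fun v => (polarBilin Q₁ v).toAddMonoidHom)
      (QuadraticMap.map_add Q₁) (polar_comm Q₁) (map_zero _) fun v hv => det_gr_ne_zero.1 h3 v
        fun w => eq_zero_of_as fun d => by simpa using hv (d • w)
    have h11 := h7.card_gauss.2
    have h12 := h7'.card_gauss.2
    rw [← mul_left_cancel₀ (left_ne_zero_of_mul (h10 ▸ Nat.cast_ne_zero.2 Nat.card_pos.ne')) h] at h12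
    generalize (s.map fun b => b.2.2).sum = c at *
    generalize (s'.map fun b => b.2.2).sum = c' at *
    by_cases h13 : AS c <;> by_cases h14 : AS c' <;>
      simp only [psi_eq_one.2, psi_of_not, h13, h14, not_false_eq_true] at * <;> omega
  · obtain ⟨f', h10, h11, h12⟩ := h7.exists_equiv h7' hs
    have h13 : ∀ {k l} {Q : QuadraticForm F (n → F)} {Q₁ : QuadraticForm F (Fin k → F)}
        {Q₂ : QuadraticForm F (Fin l → F)} {e : ((Fin k → F) × (Fin l → F)) ≃ₗ[F] (n → F)},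
        (∀ v, Q (e v) = Q₁ v.1 + Q₂ v.2) → ∀ v w,
        polar Q (e v) (e w) = polar Q₁ v.1 w.1 + polar Q₂ v.2 w.2 := fun h v w => by
      simp only [polar, ← map_add, h, Prod.fst_add, Prod.snd_add]
      ring
    refine ⟨e.symm.trans ((f.prodCongr f').trans e'), e.surjective.forall.2 fun v => ?_,
      e.surjective.forall₂.2 fun v w => ?_, fun hf => e.surjective.forall.2 fun v => ?_⟩
    · simp [h5, h5', h8, h10]
    · simpa [h13 h6, h13 h6', h11] using Orth.polar_map_of_map_Q f.toLinearMap h9 _ _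
    · simp [h6, h6', h9, h12 hf]

omit [Fintype n] [DecidableEq n] in
theorem exists_inv_quad {V : Type*} [AddCommGroup V] [Module F V] (Q : QuadraticForm F V)
    {g : End F V} (h : ∀ v w, polar Q (g v) (g w) = polar Q v w) : ∃ Q' : QuadraticForm F V,
      (∀ v w, polar Q' v w = polar Q v w) ∧ ∀ v, Q' (g v) = Q' v := by
  choose l hl using fun v => exists_sq (Q (g v) + Q v)
  have h1 : ∀ {a b : F}, a * a = b * b → a = b := fun h => by grind
  let l' : Dual F V := ⟨⟨l, fun v w => h1 (by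
      have := hl v; have := hl w
      rw [hl, map_add, QuadraticMap.map_add Q, QuadraticMap.map_add Q, h]; grind)⟩,
    fun c v => h1 (by
      have := hl v
      simp only [hl, map_smul, QuadraticMap.map_smul, smul_eq_mul, RingHom.id_apply]; grind)⟩
  obtain ⟨μ, hμ⟩ : l' ∈ LinearMap.range (g - 1).dualMap := by
    rw [LinearMap.range_dualMap_eq_dualAnnihilator_ker, Submodule.mem_dualAnnihilator]
    intro v hv
    have := hl v
    rw [show g v = v from sub_eq_zero.1 hv, CharTwo.add_self_eq_zero] at this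
    exact mul_self_eq_zero.1 this
  refine ⟨Q + linMulLin μ μ, fun v w => by simp [polar]; grind, fun v => ?_⟩
  have h2 : μ (g v) - μ v = l v := (map_sub μ _ _).symm.trans (LinearMap.congr_fun hμ v)
  have := hl v
  simp only [_root_.add_apply, linMulLin_apply]
  grind

end CfsgLib.Wall2
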