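import Cfsg.Agent.Lib.Wall2.Ring

/-!
# Hermitian modules over the ramified quadratic extension of a truncated polynomial ring
-/

set_option autoImplicit false

namespace CfsgLib.Wall2

open QuadraticAlgebra Submodule

/-- A truncated polynomial ring `F[S] / S ^ m` with its residue map and top coefficient. -/
structure Base (F P : Type*) [Field F] [CommRing P] [Algebra F P] where
  /-- the uniformiser -/
  S : P
  /-- the length -/
  m : ℕ
  /-- the residue map -/
  ρ : P →ₐ[F] F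
  /-- the top coefficient -/
  l : P →ₗ[F] F
  uni : Uni F S m
  l_pow : ∀ i, l (S ^ i) = if i + 1 = m then 1 else 0

variable {F P : Type*} [Field F] [CommRing P] [Algebra F P] (β : Base F P)

/-- The extension `P[t]` with `t ^ 2 = S + S t`. -/
abbrev Base.O : Type _ := QuadraticAlgebra P β.S β.S

instance [CharP P 2] : CharP β.O 2 :=
  have := CharP.nontrivial_of_char_ne_one (R := P) (v := 2) (by norm_num)
  charP_of_injective_algebraMap (R := P) algebraMap_injective 2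

namespace Base

@[simp] theorem ρ_S : β.ρ β.S = 0 := by
  simpa using ((β.uni.nil 1).map β.ρ).eq_zero

theorem dec (p : P) : ∃ r, p = algebraMap F P (β.ρ p) + β.S * r := by
  obtain ⟨c, r, rfl⟩ := β.uni.dec p
  exact ⟨r, by simp⟩

variable {β}

theorem isUnit_iff {p : P} : IsUnit p ↔ β.ρ p ≠ 0 := by
  refine ⟨fun h => (h.map β.ρ).ne_zero, fun h => ?_⟩
  obtain ⟨r, hr⟩ := β.dec p
  exact hr ▸ β.uni.isUnit_add ((IsUnit.mk0 _ h).map _) r

theorem exists_inv {w : P} (hw : β.ρ w = 1) : ∃ v, w * v = 1 ∧ β.ρ v = 1 := by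
  obtain ⟨v, hv⟩ := (isUnit_iff.2 (hw ▸ one_ne_zero : β.ρ w ≠ 0)).exists_right_inv
  exact ⟨v, hv, by simpa [hw] using congrArg β.ρ hv⟩

theorem isUnit_O {w : β.O} (hw : β.ρ (norm w) = 1) : IsUnit w :=
  isUnit_iff_norm_isUnit.2 (isUnit_iff.2 (hw ▸ one_ne_zero))

theorem exists_as [Finite P] [CharP P 2] {g : P} (h : AS (β.ρ g)) : ∃ q, q * q + q = g := by
  obtain ⟨r, hr⟩ := β.dec g
  obtain ⟨d, hd⟩ := h
  obtain ⟨q, hq⟩ := β.uni.exists_quad r 1
  refine ⟨algebraMap F P d + β.S * q, ?_⟩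
  rw [hr, ← hd, map_add, map_mul, ← hq]
  grind

theorem omega_pow_two_mul [CharP P 2] (j : ℕ) :
    (ω : β.O) ^ (2 * j) = ⟨β.S ^ j, 0⟩ * (1 + ω) ^ j := by
  have h1 : (ω : β.O) ^ 2 = algebraMap P _ β.S * (1 + ω) := by ext <;> simp [sq]
  rw [pow_mul, h1, mul_pow, ← map_pow]; rfl

theorem isUnit_one_add [CharP P 2] (j : ℕ) : IsUnit ((1 + ω : β.O) ^ j) :=
  (isUnit_O (by simp [norm_def])).pow j

theorem uniO [CharP P 2] : Uni F (ω : β.O) (2 * β.m) where
  pow := by rw [omega_pow_two_mul, β.uni.pow]; exact zero_mul _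
  ne i hi h := by
    have : (ω : β.O) ^ (2 * (β.m - 1)) * ω = 0 := by
      rw [← pow_succ, pow_eq_zero_of_le (by omega) h]
    rw [omega_pow_two_mul, mul_right_comm, (isUnit_one_add _).mul_left_eq_zero] at this
    exact β.uni.ne (β.m - 1) (by omega) (by simpa using congrArg im this)
  dec a := by
    obtain ⟨c, r, h⟩ := β.uni.dec a.re
    refine ⟨c, ⟨β.S * r + a.im, r⟩, ?_⟩
    change _ = (⟨algebraMap F P c, 0⟩ : β.O) + _
    ext
    · simp [h]
    · simp; grind

end Base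

/-- A Hermitian form with a quadratic refinement. -/
structure HM (V : Type*) [AddCommGroup V] [Module β.O V] where
  /-- the Hermitian form -/
  h : V → V → β.O
  /-- the norm -/
  n : V → P
  add_left : ∀ x y z, h (x + y) z = h x z + h y z
  smul_left : ∀ (a : β.O) x y, h (a • x) y = a * h x y
  symm : ∀ x y, h y x = star (h x y)
  self : ∀ x, h x x = ⟨β.S * n x, 0⟩
  n_add : ∀ x y, n (x + y) = n x + n y + (h x y).im
  n_smul : ∀ (a : β.O) x, n (a • x) = norm a * n x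

/-- The three kinds of indecomposable blocks. -/
inductive Kind
  | V
  | E
  | D
  deriving DecidableEq

/-- A block: kind, level and sign. -/
abbrev Blk (F : Type*) : Type _ := Kind × ℕ × F

section Span

variable {R V : Type*} [CommRing R] [AddCommGroup V] [Module R V] {x y : V}

theorem span_smul_left {u : R} (hu : IsUnit u) : span R {u • x, y} = span R {x, y} := by
  rw [span_insert, span_insert, span_singleton_smul_eq hu]

theorem span_add_left (a : R) : span R {x + a • y, y} = span R {x, y} := by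
  ext v
  simp only [mem_span_pair]
  exact ⟨fun ⟨b, c, h⟩ => ⟨b, b * a + c, by rw [← h]; module⟩,
    fun ⟨b, c, h⟩ => ⟨b, c - b * a, by rw [← h]; module⟩⟩

theorem span_add_right (a : R) : span R {x, y + a • x} = span R {x, y} := by
  rw [Set.pair_comm, span_add_left, Set.pair_comm]

end Span

namespace HM

variable {β} {V : Type*} [AddCommGroup V] [Module β.O V] (H : HM β V)

attribute [simp] add_left smul_left self n_add n_smul

@[simp] theorem add_right (x y z : V) : H.h x (y + z) = H.h x y + H.h x z := by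
  rw [H.symm, H.add_left, star_add, ← H.symm, ← H.symm]

@[simp] theorem smul_right (a : β.O) (x y : V) : H.h x (a • y) = star a * H.h x y := by
  rw [H.symm, H.smul_left, star_mul, ← H.symm, mul_comm]

@[simp] theorem zero_left (x : V) : H.h 0 x = 0 := by simpa using H.smul_left 0 0 x

@[simp] theorem zero_right (x : V) : H.h x 0 = 0 := by rw [H.symm]; simp

@[simp] theorem n_zero : H.n 0 = 0 := by simpa using H.n_smul 0 0

theorem symm_zero {x y : V} (h : H.h x y = 0) : H.h y x = 0 := by rw [H.symm, h, star_zero]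

/-- The submodule `U` is a block of the given type. -/
def Rep : Blk F → Submodule β.O V → Prop
  | (.V, i, e), U => ∃ j z, i + j + 2 = β.m ∧ U = span β.O {z} ∧
      H.n z = β.S ^ j * (1 + β.S * algebraMap F P e)
  | (.E, i, e), U => e = 0 ∧ ∃ j x y, i + j + 1 = β.m ∧ U = span β.O {x, y} ∧
      H.n x = 0 ∧ H.n y = 0 ∧ H.h x y = ⟨β.S ^ j, 0⟩
  | (.D, i, e), U => ∃ j x y, i + j + 1 = β.m ∧ U = span β.O {x, y} ∧
      H.n x = β.S ^ j * algebraMap F P e ∧ H.n y = β.S ^ j ∧ H.h x y = ⟨0, β.S ^ j⟩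

variable {H} [Finite P] [CharP P 2] {i j : ℕ} {x y z : V} {e : F}

theorem rep_V (hm : i + j + 2 = β.m) {b : P} (h : H.n z = β.S ^ j * (1 + β.S * b))
    (he : AS (β.ρ b + e)) : H.Rep (.V, i, e) (span β.O {z}) := by
  obtain ⟨v, hv, hv'⟩ := Base.exists_inv (β := β) (w := 1 + β.S * b) (by simp)
  obtain ⟨q, hq⟩ := Base.exists_as (β := β) (g := (b + algebraMap F P e) * v) (by simpa [hv'])
  refine ⟨j, (⟨1, q⟩ : β.O) • z, hm, (span_singleton_smul_eq (Base.isUnit_O ?_) _).symm, ?_⟩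
  · simp [norm_def]
  · simp only [n_smul, norm_def, h]
    grind

omit [Finite P] [CharP P 2] in
theorem exists_scale {k w : β.O} (h : H.h x y = k * w) (hw : IsUnit w) :
    ∃ x' c, span β.O {x', y} = span β.O {x, y} ∧ H.h x' y = k ∧ H.n x' = c * H.n x ∧
      norm w * c = 1 := by
  obtain ⟨v, hv⟩ := hw.exists_right_inv
  exact ⟨v • x, norm v, span_smul_left (IsUnit.of_mul_eq_one_right _ hv), by
    rw [smul_left, h, mul_left_comm, mul_comm v, hv, mul_one], H.n_smul _ _, by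
    rw [← map_mul, hv, map_one]⟩

theorem rep_E (hm : i + j + 1 = β.m) {a c : P} {w : β.O} (hx : H.n x = β.S ^ j * a)
    (hy : H.n y = β.S ^ j * c) (h : H.h x y = ⟨β.S ^ j, 0⟩ * w) (hw : IsUnit w) :
    H.Rep (.E, i, 0) (span β.O {x, y}) := by
  obtain ⟨x₁, d, h1, h2, h3, -⟩ := exists_scale h hw
  obtain ⟨q, hq⟩ := β.uni.exists_quad (d * a) c
  obtain ⟨x₂, d', h4, h5, h6, -⟩ := exists_scale (H := H) (x := x₁ + (⟨0, q⟩ : β.O) • y) (y := y)
    (k := ⟨β.S ^ j, 0⟩) (w := ⟨1, q * β.S * c⟩) (by ext <;> simp [h2, hy]; grind)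
    (Base.isUnit_O (by simp [norm_def]))
  have h7 : H.n x₂ = 0 := by simp [h6, h2, h3, hx, hy, norm_def]; grind
  refine ⟨rfl, j, x₂, y + (⟨0, c⟩ : β.O) • x₂, hm, by rw [span_add_right, h4, span_add_left, h1],
    h7, ?_, ?_⟩
  · simp [h7, hy, H.symm x₂ y, h5]; grind
  · ext <;> simp [h5, h7]

theorem rep_D₃ (hm : i + j + 1 = β.m) {a : P} (hx : H.n x = β.S ^ j * a)
    (hy : H.n y = β.S ^ j) (h : H.h x y = ⟨0, β.S ^ j⟩) (he : AS (β.ρ a + e)) :
    H.Rep (.D, i, e) (span β.O {x, y}) := by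
  obtain ⟨v, hv, hv'⟩ := Base.exists_inv (β := β) (w := 1 + β.S * a) (by simp)
  obtain ⟨q, hq⟩ := Base.exists_as (β := β) (g := (a + algebraMap F P e) * v) (by simpa [hv'])
  refine ⟨j, (⟨1 + q * β.S, q⟩ : β.O) • x + (⟨q, 0⟩ : β.O) • y, y, hm, ?_, ?_, hy, ?_⟩
  · rw [span_add_left, span_smul_left (Base.isUnit_O (by simp [norm_def]))]
  · simp [hx, hy, h, norm_def]; grind
  · ext <;> simp [hy, h] <;> grind

variable [Finite F] [CharP F 2]

theorem rep_D₂ (hm : i + j + 1 = β.m) {a c : P} (hx : H.n x = β.S ^ j * a)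
    (hy : H.n y = β.S ^ j * c) (h : H.h x y = ⟨0, β.S ^ j⟩) (hc : β.ρ c ≠ 0)
    (he : AS (β.ρ a * β.ρ c + e)) : H.Rep (.D, i, e) (span β.O {x, y}) := by
  obtain ⟨d, hd⟩ := exists_sq (β.ρ c)
  have hd0 : d ≠ 0 := by rintro rfl; exact hc (by simp [← hd])
  have h0 : algebraMap F P d * algebraMap F P d⁻¹ = 1 := by rw [← map_mul, mul_inv_cancel₀ hd0, map_one]
  obtain ⟨r, hr⟩ := β.dec c
  rw [← hd, map_mul] at hr
  generalize algebraMap F P d⁻¹ = d' at h0
  obtain ⟨q, hq⟩ := β.uni.exists_quad (d' * d' * r) (algebraMap F P d * algebraMap F P d * a)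
  have h1 : IsUnit (⟨algebraMap F P d, 0⟩ : β.O) :=
    IsUnit.of_mul_eq_one ⟨d', 0⟩ (by ext <;> simp [h0])
  have h2 : IsUnit (⟨d', 0⟩ : β.O) :=
    IsUnit.of_mul_eq_one_right ⟨algebraMap F P d, 0⟩ (by ext <;> simp [h0])
  obtain ⟨x₂, g, h4, h5, h6, h7⟩ := exists_scale (H := H) (x := (⟨algebraMap F P d, 0⟩ : β.O) • x)
    (y := (⟨d', 0⟩ : β.O) • y + (⟨β.S * q, 0⟩ : β.O) • (⟨algebraMap F P d, 0⟩ : β.O) • x)
    (k := ⟨0, β.S ^ j⟩) (w := 1 + ⟨β.S, 1⟩ * ⟨β.S * q * algebraMap F P d * algebraMap F P d * a, 0⟩)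
    (by ext <;> simp [h, hx, norm_def] <;> grind) (Base.isUnit_O (by simp [norm_def]))
  have h8 := rep_D₃ (e := e) hm (a := g * (algebraMap F P d * algebraMap F P d * a))
    (by simp [h6, hx, norm_def]; ring) (by simp [hx, hy, H.symm x y, h, norm_def]; grind) h5 (by
      have := congrArg β.ρ h7
      simp [norm_def] at this
      simpa [this, hd, mul_comm] using he)
  rwa [h4, span_add_right, span_smul_left h1, Set.pair_comm, span_smul_left h2, Set.pair_comm] at h8

theorem rep_D (hm : i + j + 1 = β.m) {a c : P} {w : β.O} (hx : H.n x = β.S ^ j * a)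
    (hy : H.n y = β.S ^ j * c) (h : H.h x y = ⟨0, β.S ^ j⟩ * w) (hw : β.ρ (norm w) = 1)
    (he : AS (β.ρ a * β.ρ c + e)) : H.Rep (.D, i, e) (span β.O {x, y}) := by
  have key : ∀ {x y : V} {a c : P} {w : β.O}, H.n x = β.S ^ j * a → H.n y = β.S ^ j * c →
      H.h x y = ⟨0, β.S ^ j⟩ * w → β.ρ (norm w) = 1 → β.ρ c ≠ 0 → AS (β.ρ a * β.ρ c + e) →
      H.Rep (.D, i, e) (span β.O {x, y}) := fun {x y a c w} hx hy h hw hc he => by
    obtain ⟨x₁, d, h1, h2, h3, h4⟩ := exists_scale h (Base.isUnit_O hw)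
    have := congrArg β.ρ h4
    rw [map_mul, hw, one_mul, map_one] at this
    exact h1 ▸ rep_D₂ hm (a := d * a) (by rw [h3, hx]; ring) hy h2 hc (by simpa [this])
  by_cases hc : β.ρ c = 0
  · by_cases ha : β.ρ a = 0
    · obtain ⟨x₁, d, h1, h2, h3, -⟩ := exists_scale h (Base.isUnit_O hw)
      rw [← h1, ← span_add_right 1]
      exact key (a := d * a) (c := c + d * a + 1) (w := 1 + ⟨β.S, 1⟩ * ⟨d * a, 0⟩)
        (by rw [h3, hx]; ring) (by simp [H.symm x₁ y, h2, h3, hx, hy]; grind)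
        (by ext <;> simp [h2, h3, hx] <;> grind) (by simp [norm_def]) (by simp [ha, hc])
        (by simpa [ha] using he)
    · rw [Set.pair_comm]
      exact key hy hx (w := ⟨1 + β.S, 1⟩ * star w) (by rw [H.symm, h]; ext <;> simp <;> grind)
        (by rw [map_mul, QuadraticAlgebra.norm_star, map_mul, hw]; simp [norm_def]) ha (by rwa [mul_comm])
  · exact key hx hy h hw hc he

theorem Rep.sign {b : Kind × ℕ} {U : Submodule β.O V} (h : H.Rep (b.1, b.2, e) U) :
    H.Rep (b.1, b.2, 0) U ∨ H.Rep (b.1, b.2, del F) U := by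
  obtain ⟨_ | _ | _, i⟩ := b
  · obtain ⟨j, z, h1, rfl, h2⟩ := h
    exact (as_or e).imp (fun h => rep_V h1 h2 (by simpa))
      fun h => rep_V h1 h2 (by simpa [add_comm] using h)
  · exact Or.inl (h.1 ▸ h)
  · obtain ⟨j, x, y, h1, rfl, h2, h3, h4⟩ := h
    exact (as_or e).imp (fun h => rep_D₃ h1 h2 h3 h4 (by simpa))
      fun h => rep_D₃ h1 h2 h3 h4 (by simpa [add_comm] using h)

end HM

end CfsgLib.Wall2
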