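import Cfsg.Agent.Lib.Wall2.Asm

/-!
# Upper bounds for the class numbers of symplectic and orthogonal groups in characteristic two
-/

set_option autoImplicit false

namespace CfsgLib.Wall2

open Finset CfsgLib.MatConj

theorem sum_le_of_pot {α : Type*} {W : List α → ℝ} (h0 : ∀ L, 0 ≤ W L)
    (h : ∀ L (T : Finset α), ∑ l ∈ T, W (l :: L) ≤ W L) (K : ℕ) :
    ∀ T : Finset (List α), (∀ L ∈ T, L.length = K) → ∑ L ∈ T, W L ≤ W [] := by
  classical
  induction K with
  | zero =>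
    intro T hT
    simpa using sum_le_sum_of_subset_of_nonneg (t := {[]}) (f := W)
      (fun L hL => mem_singleton.2 (List.length_eq_zero_iff.1 (hT L hL))) fun _ _ _ => h0 _
  | succ K ih =>
    intro T hT
    refine le_trans ?_ (ih (T.image List.tail) (by simp +contextual [hT]))
    refine (sum_le_sum_of_subset_of_nonneg (t := ((T.biUnion List.toFinset) ×ˢ T.image List.tail).image
      fun x => x.1 :: x.2) (fun L hL => ?_) fun _ _ _ => h0 _).trans
      ((sum_image_le_of_nonneg fun _ _ => h0 _).trans ?_)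
    · obtain _ | ⟨l, L⟩ := L
      · simpa using hT _ hL
      · exact mem_image.2 ⟨(l, L), mem_product.2 ⟨mem_biUnion.2 ⟨_, hL, by simp⟩,
          mem_image_of_mem _ hL⟩, rfl⟩
    · rw [sum_product_right]
      exact sum_le_sum fun L _ => h L _

theorem sum_lev_le {u v : Bool → ℕ → ℝ} {U V : Bool → ℝ} (hu : ∀ f, HasSum (u f) (U f))
    (hv : ∀ f, HasSum (v f) (V f)) (hu0 : ∀ f a, 0 ≤ u f a) (hv0 : ∀ f a, 0 ≤ v f a)
    (T : Finset Lev) : ∑ l ∈ T, u l.2.1 l.1 * v l.2.1 l.2.2 ≤ U true * V true + U false * V false := by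
  refine (sum_le_sum_of_subset_of_nonneg (t := T.image (·.1) ×ˢ univ ×ˢ T.image (·.2.2))
    (fun l hl => mem_product.2 ⟨mem_image_of_mem _ hl, mem_product.2 ⟨mem_univ _,
      mem_image_of_mem _ hl⟩⟩) fun _ _ _ => mul_nonneg (hu0 _ _) (hv0 _ _)).trans ?_
  simp only [sum_product, Fintype.sum_bool, sum_add_distrib, ← sum_mul_sum]
  gcongr
  exacts [sum_nonneg fun _ _ => hv0 _ _, (hu _).nonneg (hu0 _),
    sum_le_hasSum _ (fun _ _ => hu0 _ _) (hu _), sum_le_hasSum _ (fun _ _ => hv0 _ _) (hv _),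
    sum_nonneg fun _ _ => hv0 _ _, (hu _).nonneg (hu0 _),
    sum_le_hasSum _ (fun _ _ => hu0 _ _) (hu _), sum_le_hasSum _ (fun _ _ => hv0 _ _) (hv _)]

theorem sum_wt_le (K : ℕ) {c₀ c₁ : Bool → ℝ} (h0 : ∀ f, 0 ≤ c₀ f) (h1 : ∀ f, 0 ≤ c₁ f) {y b : ℝ}
    (hy : y = (1 / 2) ^ (K + 1)) (h : (c₀ true * (1 - 2 * y ^ 2) + c₁ true * (2 * y ^ 2)) * (y * (1 + y)) +
      (c₀ false * (1 - 2 * y ^ 2) + c₁ false * (2 * y ^ 2)) ≤ b * ((1 - 2 * y ^ 2) * (1 - y ^ 2)))
    (T : Finset Lev) :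
    ∑ l ∈ T, (if l.1 = 0 then c₀ l.2.1 else c₁ l.2.1) * (1 / 2 : ℝ) ^ l.wt K ≤ b := by
  have h2 : 0 < y := by rw [hy]; positivity
  have h3 : y ≤ 1 / 2 := hy ▸ pow_le_of_le_one (by norm_num) (by norm_num) (by omega)
  have h4 : 2 * y ^ 2 < 1 := by nlinarith
  have h5 : 0 < 1 - y := by linarith
  have h6 : 0 < 1 - y ^ 2 := by nlinarith
  have h7 : (1 / 2 : ℝ) ^ (2 * K + 1) = 2 * y ^ 2 := by rw [hy]; ring
  have := sum_lev_le (u := fun f a => (if a = 0 then c₀ f else c₁ f) * (2 * y ^ 2) ^ a)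
    (v := fun f b => if f then y * y ^ b else (y ^ 2) ^ b)
    (U := fun f => c₁ f * (1 - 2 * y ^ 2)⁻¹ + (c₀ f - c₁ f))
    (V := fun f => if f then y * (1 - y)⁻¹ else (1 - y ^ 2)⁻¹) (fun f => by
      refine (congrArg (HasSum · _) (funext fun a => ?_)).mpr (((hasSum_geometric_of_lt_one
        (by positivity) h4).mul_left (c₁ f)).add (hasSum_ite_eq 0 (c₀ f - c₁ f)))
      split_ifs with h <;> simp [h])
    (fun f => by
      cases f
      exacts [hasSum_geometric_of_lt_one (by positivity) (by linarith),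
        (hasSum_geometric_of_lt_one h2.le (by linarith)).mul_left y])
    (fun f a => by have := h0 f; have := h1 f; positivity) (fun f a => by positivity) T
  refine (sum_congr rfl fun l _ => ?_).trans_le (this.trans ?_)
  · rw [Lev.wt, pow_add, mul_comm l.1, pow_mul, h7, mul_assoc]
    cases l.2.1 <;> simp only [hy, ← pow_mul, ← pow_add, if_true, Bool.false_eq_true, if_false] <;>
      ring_nf
  · have h8 : 0 < 1 - 2 * y ^ 2 := by linarith
    refine le_of_mul_le_mul_right (le_of_eq_of_le ?_ h) (mul_pos h8 h6)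
    simp only [if_true, Bool.false_eq_true, if_false, show 1 - y ^ 2 = (1 - y) * (1 + y) by ring]
    field_simp
    ring

/-- The potential bounding the contribution of the levels from `K` on. -/
noncomputable def al : ℕ → Bool → ℝ
  | 0, s => if s then 76 / 5 else 26
  | 1, s => if s then 2763 / 1000 else 3627 / 1000
  | 2, s => if s then 389 / 250 else 89 / 50
  | 3, s => if s then 307 / 250 else 1311 / 1000
  | K + 4, s => if s then 1 + 3 * (1 / 2) ^ (K + 5) + 10 * ((1 / 2) ^ (K + 5)) ^ 2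
      else 1 + 4 * (1 / 2) ^ (K + 5) + 15 * ((1 / 2) ^ (K + 5)) ^ 2

theorem one_le_al (K : ℕ) (s : Bool) : 1 ≤ al K s := by
  obtain _ | _ | _ | _ | K := K <;> cases s <;> norm_num [al, add_assoc] <;> positivity

theorem sum_pos_le (s₀ : Bool) {K : ℕ} {T : Finset (List Lev)} (hT : ∀ L ∈ T, L.length = K) :
    ∑ L ∈ T, (2 : ℝ) ^ #(pos s₀ L) * (1 / 2) ^ wtL L ≤ al 0 s₀ := by
  have h0 : ∀ K s, 0 ≤ al K s := fun K s => zero_le_one.trans (one_le_al K s)
  have := sum_le_of_pot (W := fun L => 2 ^ #(pos s₀ L) * (1 / 2) ^ wtL L * al L.length (top s₀ L))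
    (fun L => by have := h0 L.length (top s₀ L); positivity) (fun L T => ?_) K T hT
  · exact (sum_le_sum fun L _ => le_mul_of_one_le_right (by positivity) (one_le_al _ _)).trans
      (by simpa [pos, wtL, top] using this)
  refine le_of_eq_of_le ?_ (mul_le_mul_of_nonneg_left (sum_wt_le L.length
    (c₀ := fun f => (if ¬ top s₀ L ∧ f then 2 else 1) * al (L.length + 1) f)
    (c₁ := fun f => (if ¬ top s₀ L then 2 else 1) * al (L.length + 1) f)
    (fun f => mul_nonneg (by positivity) (h0 _ _)) (fun f => mul_nonneg (by positivity) (h0 _ _))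
    rfl ?_ T) (by positivity))
  · rw [mul_sum]
    refine sum_congr rfl fun l _ => ?_
    have h1 : L.length ∉ pos s₀ L := fun h => (lt_of_mem_pos h).false
    rw [pos, wtL, top, List.length_cons, pow_add]
    by_cases h2 : top s₀ L <;> by_cases h3 : l.1 = 0 <;> cases l.2.1 <;>
      simp [h1, h2, h3, pow_succ] <;> ring
  · generalize L.length = K
    obtain _ | _ | _ | _ | K := K
    iterate 4 cases top s₀ L <;> norm_num [al]
    have h1 : (0 : ℝ) < (1 / 2) ^ (K + 5) := by positivity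
    have h2 : (1 / 2 : ℝ) ^ (K + 5) ≤ 1 / 32 := by
      rw [pow_add]; nlinarith [pow_le_one₀ (n := K) (a := (1 / 2 : ℝ)) (by norm_num) (by norm_num)]
    simp only [al, pow_succ _ (K + 5)]
    generalize (1 / 2 : ℝ) ^ (K + 5) = y at *
    have h3 : ∀ k, 0 < y ^ (k + 2) ∧ 32 * y ^ (k + 3) ≤ y ^ (k + 2) := fun k =>
      ⟨by positivity, by rw [pow_succ y (k + 2)]; nlinarith [pow_pos h1 (k + 2)]⟩
    have h4 := And.intro (h3 0) (And.intro (h3 1) (And.intro (h3 2) (And.intro (h3 3) (h3 4))))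
    cases top s₀ L <;> norm_num at h4 ⊢ <;> linarith

theorem top_eq_false {L : List Lev} (h : pos false L = ∅) : top false L = false := by
  induction L with
  | nil => rfl
  | cons l L ih =>
    rw [pos] at h
    split_ifs at h with h1
    · simp at h
    · simpa [ih h, top] using (show _ ∧ _ by simpa [ih h] using h1).2

theorem sum_empty_le {K : ℕ} {T : Finset (List Lev)} (hT : ∀ L ∈ T, L.length = K) :
    ∑ L ∈ T, (if pos false L = ∅ then 1 else 0) * (1 / 2 : ℝ) ^ wtL L ≤ 2 := by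
  have := sum_le_of_pot (W := fun L => (if pos false L = ∅ then 1 else 0) * (1 / 2 : ℝ) ^ wtL L *
    (1 + 4 * ((1 / 2) ^ (L.length + 1)) ^ 2)) (fun L => by positivity) (fun L T => ?_) K T hT
  · exact (sum_le_sum fun L _ => le_mul_of_one_le_right (by positivity)
      (le_add_of_nonneg_right (by positivity))).trans (this.trans (by norm_num [pos, wtL]))
  refine le_of_eq_of_le ?_ (mul_le_mul_of_nonneg_left (sum_wt_le L.length
    (c₀ := fun f => if f then 0 else 1 + ((1 / 2) ^ (L.length + 1)) ^ 2) (c₁ := 0)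
    (fun f => by positivity) (fun f => le_rfl) rfl ?_ T) (by positivity))
  · rw [mul_sum]
    refine sum_congr rfl fun l _ => ?_
    rw [pos, wtL, List.length_cons, pow_add]
    by_cases h2 : pos false L = ∅
    · by_cases h3 : l.1 = 0 <;> cases l.2.1 <;> simp [h2, h3, top_eq_false h2, pow_succ]
      ring
    · split_ifs <;> simp_all
  · have h2 : ((1 / 2 : ℝ) ^ (L.length + 1)) ^ 2 ≤ 1 / 4 := by
      rw [← pow_mul, add_mul, pow_add]
      nlinarith [pow_le_one₀ (n := L.length * 2) (a := (1 / 2 : ℝ)) (by norm_num) (by norm_num)]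
    have h1 : 0 ≤ ((1 / 2 : ℝ) ^ (L.length + 1)) ^ 2 := by positivity
    generalize ((1 / 2 : ℝ) ^ (L.length + 1)) ^ 2 = z at *
    simp
    nlinarith [mul_nonneg (mul_nonneg h1 (sub_nonneg.2 h2)) (sub_nonneg.2 h2), mul_nonneg h1 (sub_nonneg.2 h2)]

open Matrix Polynomial QuadraticMap

variable {F : Type*} [Field F] [Finite F]

theorem card_famD_pal_le (K i : ℕ) : (#(famD K (fun _ => monS (fun f : F[X] => Pal f ∧ ¬ pm F true ∣ f)
    (2 * i)) (2 * i)) : ℝ) ≤ (Nat.card F : ℝ) ^ i := by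
  refine (card_famD_le K _ (fun _ => (gfS_le_ser _ _).trans (ser_pal_not_dvd_le true)) _).trans ?_
  simp only [expand_comm _ 2, ← map_prod]
  rw [PowerSeries.coeff_expand, if_pos (dvd_mul_right _ _), Nat.mul_div_cancel_left _ two_pos]
  exact coeff_prod_hGL_le' (by exact_mod_cast Nat.card_pos) _ _

theorem card_le_of_types {α : Type*} [Finite α] {K N : ℕ} (x : α → Fin K → F[X]) (L : α → List Lev)
    {w : List Lev → ℝ} (h0 : ∀ L, 0 ≤ w L) (h1 : ∀ a, ∃ i, i + wtL (L a) = N ∧ x a ∈ famD K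
      (fun _ => monS (fun f : F[X] => Pal f ∧ ¬ pm F true ∣ f) (2 * i)) (2 * i))
    (h2 : ∀ a, (L a).length = K + 1) (h3 : ∀ x₀ L₀, Nat.card {a // x a = x₀ ∧ L a = L₀} ≤ w L₀) {c : ℝ}
    (h4 : ∀ T : Finset (List Lev), (∀ L ∈ T, L.length = K + 1) → ∑ L ∈ T, w L * (1 / 2) ^ wtL L ≤ c) :
    Nat.card α ≤ c * (Nat.card F : ℝ) ^ N := by
  classical
  have := Fintype.ofFinite α
  refine (natCard_le_sum (univ.image L) (L · = ·) (fun a => ⟨_, mem_image_of_mem _ (mem_univ a), rfl⟩)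
    (fun L => w L * (1 / 2) ^ wtL L * (Nat.card F : ℝ) ^ N) fun L₀ hL => ?_).trans (by
      rw [← sum_mul]
      exact mul_le_mul_of_nonneg_right (h4 _ (by simp [h2])) (by positivity))
  obtain ⟨a₀, -, rfl⟩ := mem_image.1 hL
  obtain ⟨i, rfl, -⟩ := h1 a₀
  refine (natCard_le_sum ?_ (fun a => (x a.1 = ·)) (fun a => ?_) (fun _ => w (L a₀)) fun x₀ _ =>
    le_trans (Nat.cast_le.2 (Nat.card_le_card_of_injective (fun a => ⟨a.1.1, a.2, a.1.2⟩)
      fun _ _ h => Subtype.ext (Subtype.ext (congrArg (·.1) h)))) (h3 x₀ _)).trans ?_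
  · exact famD K (fun _ => monS (fun f : F[X] => Pal f ∧ ¬ pm F true ∣ f) (2 * i)) (2 * i)
  · obtain ⟨j, hj, h5⟩ := h1 a.1
    rw [a.2, add_left_inj] at hj
    exact ⟨_, hj ▸ h5, rfl⟩
  · rw [sum_const, nsmul_eq_mul, mul_comm, mul_assoc, pow_add, mul_left_comm _ (_ ^ i), ← mul_pow]
    refine mul_le_mul_of_nonneg_left ((card_famD_pal_le K i).trans
      (le_mul_of_one_le_right (by positivity) (one_le_pow₀ ?_))) (h0 _)
    have : (2 : ℝ) ≤ Nat.card F := by exact_mod_cast Finite.one_lt_card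
    linarith

variable [CharP F 2] {n : Type} [Fintype n] [DecidableEq n] {N : ℕ} (hn : Fintype.card n = 2 * N)
  {Q : QuadraticForm F (n → F)} (hQ : (gr Q).det ≠ 0)
include hn hQ

theorem card_conjClasses_sp_le {Γ : Type*} [Group Γ] {ι : Γ →* Matrix n n F} {r : ℕ}
    (hΓ : IsoGrp ι (gr Q) r) : Nat.card (ConjClasses Γ) ≤ 76 / 5 * (Nat.card F : ℝ) ^ N := by
  have := Finite.of_injective _ hΓ.inj
  choose g hg using ConjClasses.mk_surjective (α := Γ)
  choose Q' h1 h2 using fun C => exists_inv_quad Q (g := toLin' (ι (g C))) (gr_inv.1 (hΓ.mem _))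
  have h3 : ∀ C, gr (Q' C) = gr Q := fun C => by
    simpa using (gr_inv (A := 1) (Q := Q' C) (Q' := Q)).2 (by simpa using h1 C)
  choose x L E h4 h5 h6 using fun C => exists_typ le_rfl (h3 C ▸ hQ) (h2 C)
  refine card_le_of_types x L (w := fun L => 2 ^ #(pos true L)) (fun _ => by positivity) (fun C => ?_)
    h4 (fun x₀ L₀ => ?_) fun T hT => sum_pos_le true hT
  · obtain ⟨i, h7, h8⟩ := (h6 C).mem
    exact ⟨i, by rw [wt_blocks] at h7; omega, h8⟩
  refine mod_cast natCard_le_two_pow _ (fun C => (E C.1).erase 0) ?_ fun C =>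
    (erase_subset_erase _ (h5 _)).trans ((erase_pos_subset _).trans (by rw [C.2.2]))
  rintro ⟨C, rfl, rfl⟩ ⟨C', h7, h8⟩ h
  obtain ⟨T, h9, h10, -⟩ := ((h6 C).exists_equiv (h7 ▸ h8 ▸ h6 C')).2
    (rel_blocks (full := False) _ (.inr ⟨id, h⟩))
  obtain ⟨t, ht⟩ := hΓ.sur (LinearMap.toMatrix' T.toLinearMap) (gr_inv.2 fun v w => by
    simpa [← h1 C', h10] using h1 C v w)
  refine Subtype.ext ((hg C).symm.trans (Eq.trans ?_ (hg C')))
  refine ConjClasses.mk_eq_mk_iff_isConj.2 (isConj_iff.2 ⟨t, mul_inv_eq_iff_eq_mul.2 (hΓ.inj ?_)⟩)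
  rw [map_mul, map_mul, ht]
  exact toLin'.injective (LinearMap.ext fun v => by simpa [← mulVec_mulVec] using h9 v)

theorem card_conjClasses_orth_le :
    Nat.card (ConjClasses (Cfsg.isometryGroup F ⇑Q)) ≤ 14 * (Nat.card F : ℝ) ^ N := by
  choose g hg using ConjClasses.mk_surjective (α := Cfsg.isometryGroup F ⇑Q)
  choose x L E h4 h5 h6 using fun C => exists_typ le_rfl hQ (Orth.mem_isometryGroup.1 (g C).2)
  refine card_le_of_types x L (w := fun L => (2 ^ #(pos false L) + if pos false L = ∅ then 1 else 0) / 2)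
    (fun _ => by positivity) (fun C => ?_) h4 (fun x₀ L₀ => ?_) fun T hT => ?_
  · obtain ⟨i, h7, h8⟩ := (h6 C).mem
    exact ⟨i, by rw [wt_blocks] at h7; omega, h8⟩
  · have h7 : Function.Injective fun C : {C // x C = x₀ ∧ L C = L₀} => E C.1 := by
      rintro ⟨C, rfl, rfl⟩ ⟨C', h7, h8⟩ h
      obtain ⟨T, h9, -, h10⟩ := ((h6 C).exists_equiv (h7 ▸ h8 ▸ h6 C')).2
        (rel_blocks (full := True) _ (.inl h))
      refine Subtype.ext ((hg C).symm.trans (Eq.trans ?_ (hg C')))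
      refine ConjClasses.mk_eq_mk_iff_isConj.2 (isConj_iff.2 ⟨⟨⟨LinearMap.toMatrix' T.toLinearMap,
        LinearMap.toMatrix' T.symm.toLinearMap, by simp [← LinearMap.toMatrix'_comp],
        by simp [← LinearMap.toMatrix'_comp]⟩, Orth.mem_isometryGroup.2 fun v => ?_⟩,
        mul_inv_eq_iff_eq_mul.2 (Subtype.ext (Units.ext ?_))⟩)
      · simpa using h10 trivial v
      · exact toLin'.injective (LinearMap.ext fun v => by simpa [← mulVec_mulVec] using h9 v)
    have h8 : ∀ C : {C // x C = x₀ ∧ L C = L₀}, E C.1 ⊆ pos false L₀ := fun C => (h5 _).trans (by rw [C.2.2])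
    rw [le_div_iff₀' two_pos]
    split_ifs with h
    · have := natCard_le_two_pow _ _ h7 h8
      rw [h] at this ⊢
      exact_mod_cast Nat.mul_le_mul_left 2 this
    · rw [add_zero]
      refine mod_cast two_mul_natCard_le_two_pow _ h7 h8 (nonempty_iff_ne_empty.2 h) ?_
      rintro ⟨C, rfl, rfl⟩ ⟨C', h9, h10⟩
      have := ((h6 C).exists_equiv (h9 ▸ h6 C')).1 rfl
      rw [psi_blocks (h5 C), psi_blocks (h5 C')] at this
      rw [← neg_one_pow_eq_one_iff_even (R := ℤ) (by norm_num),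
        ← neg_one_pow_eq_one_iff_even (R := ℤ) (by norm_num), this]
  · have h7 := sum_pos_le false hT
    have h8 := sum_empty_le hT
    simp only [div_mul_eq_mul_div, ← sum_div, add_mul, sum_add_distrib, al] at h7 h8 ⊢
    norm_num at h7 h8 ⊢
    linarith

end CfsgLib.Wall2
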