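import Cfsg.Agent.Lib.Wall2.Move

/-!
# Existence of block decompositions, their orders and Gauss sums
-/

set_option autoImplicit false

namespace CfsgLib.Wall2

open QuadraticAlgebra Submodule

variable {F P : Type*} [Field F] [CommRing P] [Algebra F P] {β : Base F P}

namespace Base

theorem l_top {i : ℕ} (hi : i + 1 = β.m) (p : P) : β.l (β.S ^ i * p) = β.ρ p := by
  obtain ⟨r, hr⟩ := β.dec p
  conv_lhs => rw [hr, mul_add, ← mul_assoc, ← pow_succ, hi, β.uni.pow, zero_mul, add_zero, mul_comm,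
    ← Algebra.smul_def, map_smul, β.l_pow, if_pos hi, smul_eq_mul, mul_one]

theorem eq_zero_of_l {p : P} {A : F → Prop} (hA : ¬ ∀ c, A c) (h : ∀ r, A (β.l (r * p))) :
    p = 0 := by
  by_contra h0
  obtain ⟨i, hi, u, hu, rfl⟩ := β.uni.eq_pow_mul h0
  obtain ⟨j, hj⟩ := Nat.exists_eq_add_of_lt hi
  obtain ⟨v, hv⟩ := hu.exists_right_inv
  refine hA fun c => ?_
  have := h (β.S ^ j * v * algebraMap F P c)
  rwa [show β.S ^ j * v * algebraMap F P c * (β.S ^ i * u) = β.S ^ (i + j) * algebraMap F P c by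
    linear_combination β.S ^ (i + j) * algebraMap F P c * hv, l_top hj.symm, AlgHom.commutes] at this

theorem eq_zero_of_l_im {k : β.O} {A : F → Prop} (hA : ¬ ∀ c, A c)
    (h : ∀ c : β.O, A (β.l (star c * k).im)) : k = 0 := by
  have h1 : k.im = 0 := eq_zero_of_l hA fun r => by simpa using h ⟨r, 0⟩
  exact QuadraticAlgebra.ext (eq_zero_of_l hA fun r => by simpa [h1] using h ⟨0, -r⟩) h1

variable [CharP P 2]

theorem norm_omega_pow (k : ℕ) : norm ((ω : β.O) ^ k) = β.S ^ k := by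
  rw [map_pow]; simp [norm_def, CharTwo.neg_eq]

theorem omega_pow_mul_star (k : ℕ) : (ω : β.O) ^ k * star (ω ^ k) = ⟨β.S ^ k, 0⟩ := by
  rw [← algebraMap_norm_eq_mul_star, norm_omega_pow]; rfl

theorem dvd_of_mul_eq_zero {a c k : ℕ} (h : a + 2 * c + k = 2 * β.m) {b : β.O}
    (h0 : star (ω ^ a) * ⟨β.S ^ c, 0⟩ * b = 0) : ∃ r, b = ω ^ k * r := by
  refine uniO.ann h ?_
  have h1 : (ω : β.O) = star ω * (1 + ω) := by ext <;> simp; grind
  rw [pow_add, omega_pow_two_mul, h1, mul_pow, ← h1, ← star_pow]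
  linear_combination (1 + ω) ^ a * (1 + ω) ^ c * h0

theorem card_span_even {i j : ℕ} (h : i + j = β.m) :
    Nat.card (Ideal.span {(⟨β.S ^ j, 0⟩ : β.O)}) = Nat.card F ^ (2 * i) := by
  rw [← β.uniO.card_span (i := 2 * j) (by omega), omega_pow_two_mul,
    Ideal.span_singleton_mul_right_unit (isUnit_one_add _)]

theorem omega_pow_odd (j : ℕ) : (ω : β.O) ^ (2 * j + 1) = ⟨0, β.S ^ j⟩ * (1 + ω) ^ j := by
  rw [pow_succ, omega_pow_two_mul, mul_right_comm]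
  congr 1
  ext <;> simp

theorem card_span_odd {i j : ℕ} (h : i + j + 1 = β.m) :
    Nat.card (Ideal.span {(⟨0, β.S ^ j⟩ : β.O)}) = Nat.card F ^ (2 * i + 1) := by
  rw [← β.uniO.card_span (i := 2 * j + 1) (by omega), omega_pow_odd,
    Ideal.span_singleton_mul_right_unit (isUnit_one_add _)]

end Base

/-- Half the dimension of a block. -/
def Blk.wt : Blk F → ℕ
  | (.V, i, _) => i + 1
  | (.E, i, _) => 2 * i + 2
  | (.D, i, _) => 2 * i + 1

namespace HM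

variable {V : Type*} [AddCommGroup V] [Module β.O V] (H : HM β V)

/-- The form is nondegenerate on `U`. -/
def Nondeg (U : Submodule β.O V) : Prop := ∀ v ∈ U, (∀ w ∈ U, H.h v w = 0) → v = 0

/-- The orthogonal complement. -/
def perp (W : Submodule β.O V) : Submodule β.O V where
  carrier := {v | ∀ w ∈ W, H.h v w = 0}
  add_mem' ha hb w hw := by simp [ha w hw, hb w hw]
  zero_mem' := by simp
  smul_mem' c a ha w hw := by simp [ha w hw]

variable {H} {U W : Submodule β.O V} {b : Blk F} {s : Multiset (Blk F)} {x y z : V}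

theorem Dec.lt (h : H.Dec s U) : ∀ b ∈ s, b.2.1 < β.m := by
  induction h with
  | zero => simp
  | @cons b _ _ _ h1 _ _ ih =>
    refine Multiset.forall_mem_cons.2 ⟨?_, ih⟩
    obtain ⟨_ | _ | _, i, e⟩ := b
    · obtain ⟨j, -, h, -⟩ := h1; exact (show i < _ by omega)
    · obtain ⟨-, j, -, -, h, -⟩ := h1; exact (show i < _ by omega)
    · obtain ⟨j, -, -, h, -⟩ := h1; exact (show i < _ by omega)

theorem mem_perp_pair {v : V} (h1 : H.h v x = 0) (h2 : H.h v y = 0) : v ∈ H.perp (span β.O {x, y}) :=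
  fun w hw => by
    obtain ⟨a, b, rfl⟩ := mem_span_pair.1 hw
    simp [h1, h2]

theorem Nondeg.of_sup (h : H.Nondeg (U ⊔ W)) (ho : H.Orth U W) : H.Nondeg U := fun v hv h' =>
  h v (mem_sup_left hv) fun w hw => by
    obtain ⟨a, ha, a', ha', rfl⟩ := mem_sup.1 hw
    simp [h' a ha, ho v hv a' ha']

variable [CharP P 2] {j : ℕ} {e : P}

theorem solve_V (h : H.n z = β.S ^ j * (1 + β.S * e)) (r : β.O) :
    ∃ w ∈ span β.O {z}, H.h w z = ⟨β.S ^ (j + 1), 0⟩ * r := by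
  obtain ⟨v, hv, -⟩ := Base.exists_inv (β := β) (w := 1 + β.S * e) (by simp)
  exact ⟨(r * ⟨v, 0⟩) • z, smul_mem _ _ (mem_span_singleton_self z), by ext <;> simp [h] <;> grind⟩

omit [CharP P 2] in
theorem solve_E (hx : H.n x = 0) (hy : H.n y = 0) (h : H.h x y = ⟨β.S ^ j, 0⟩) (r r' : β.O) :
    ∃ w ∈ span β.O {x, y}, H.h w x = ⟨β.S ^ j, 0⟩ * r ∧ H.h w y = ⟨β.S ^ j, 0⟩ * r' :=
  ⟨_, mem_span_pair.2 ⟨r', r, rfl⟩, by ext <;> simp [hx, H.symm x y, h, mul_comm],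
    by ext <;> simp [hy, h, mul_comm]⟩

theorem solve_D (hx : H.n x = β.S ^ j * e) (hy : H.n y = β.S ^ j) (h : H.h x y = ⟨0, β.S ^ j⟩)
    (r r' : β.O) :
    ∃ w ∈ span β.O {x, y}, H.h w x = ⟨0, β.S ^ j⟩ * r ∧ H.h w y = ⟨0, β.S ^ j⟩ * r' := by
  obtain ⟨v, hv⟩ := (Base.isUnit_O (β := β) (w := ⟨β.S, 1⟩ * ⟨β.S, 1⟩ * ⟨e, 0⟩ + ⟨1 + β.S, 1⟩)
    (by simp [norm_def])).exists_right_inv
  have h1 : H.h x x = ⟨0, β.S ^ j⟩ * (⟨β.S, 1⟩ * ⟨e, 0⟩) := by ext <;> simp [hx] <;> grind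
  have h2 : H.h y y = ⟨0, β.S ^ j⟩ * ⟨β.S, 1⟩ := by ext <;> simp [hy]; grind
  have h3 : H.h y x = ⟨0, β.S ^ j⟩ * ⟨1 + β.S, 1⟩ := by ext <;> simp [H.symm x y, h]; grind
  refine ⟨_, mem_span_pair.2 ⟨r' + ⟨β.S, 1⟩ * (v * (r + r' * ⟨β.S, 1⟩ * ⟨e, 0⟩)),
    v * (r + r' * ⟨β.S, 1⟩ * ⟨e, 0⟩), rfl⟩, ?_, ?_⟩ <;>
    simp only [add_left, smul_left, h, h1, h2, h3] <;> grind

omit [CharP P 2] in
theorem exists_dec_of_proj {s : Multiset (Blk F)} (h : H.Rep b W) (hW : W ≤ U)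
    (h1 : ∃ x ∈ W, ∃ y ∈ W, H.h x y ≠ 0) (h2 : ∀ v ∈ U, ∃ w ∈ W, v + w ∈ H.perp W)
    (hU : H.Nondeg U) : U ⊓ H.perp W < U ∧ H.Nondeg (U ⊓ H.perp W) ∧
      (H.Dec s (U ⊓ H.perp W) → H.Dec (b ::ₘ s) U) := by
  have h3 : U = U ⊓ H.perp W ⊔ W := le_antisymm (fun v hv => by
    obtain ⟨w, hw, h4⟩ := h2 v hv
    simpa using sub_mem (mem_sup_left (mem_inf.2 ⟨add_mem hv (hW hw), h4⟩))
      (mem_sup_right hw)) (sup_le inf_le_left hW)
  have h4 : H.Orth (U ⊓ H.perp W) W := fun u hu => hu.2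
  obtain ⟨x, hx, y, hy, h1⟩ := h1
  exact ⟨lt_of_le_of_ne inf_le_left fun h5 => h1 ((h5.ge (hW hx)).2 y hy),
    Nondeg.of_sup (h3 ▸ hU) h4, fun h5 => by
      have := Dec.cons h h5 h4.symm
      rwa [sup_comm, ← h3] at this⟩

variable [Finite P] [Finite F] [CharP F 2]

theorem exists_block (hU : ∃ x ∈ U, ∃ y ∈ U, H.h x y ≠ 0) : ∃ b W, H.Rep b W ∧ W ≤ U ∧
    (∃ x ∈ W, ∃ y ∈ W, H.h x y ≠ 0) ∧ ∀ v ∈ U, ∃ w ∈ W, v + w ∈ H.perp W := by
  classical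
  have h0 : ∃ k, k < 2 * β.m ∧ ∃ x ∈ U, ∃ y ∈ U, ∃ u, IsUnit u ∧ H.h x y = ω ^ k * u := by
    obtain ⟨x, hx, y, hy, h⟩ := hU
    obtain ⟨k, hk, h⟩ := β.uniO.eq_pow_mul h
    exact ⟨k, hk, x, hx, y, hy, h⟩
  obtain ⟨hk, x, hx, y, hy, u, hu, h⟩ := Nat.find_spec h0
  have h1 : ∀ x ∈ U, ∀ y ∈ U, ∃ r, H.h x y = ω ^ Nat.find h0 * r := fun x hx y hy =>
    (β.uniO.exists_pow_mul _ _).resolve_left fun ⟨i, hi, h⟩ =>
      Nat.find_min h0 hi ⟨hi.trans hk, x, hx, y, hy, h⟩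
  generalize Nat.find h0 = k at hk h h1
  have hs : ∀ {x y}, x ∈ U → y ∈ U → span β.O {x, y} ≤ U := fun hx hy =>
    span_le.2 (Set.insert_subset hx (Set.singleton_subset_iff.2 hy))
  have h2 : ∀ {x y : V} {k : β.O}, span β.O {x, y} ≤ U → k ≠ 0 → H.h x y = k →
      (∀ x ∈ U, ∀ y ∈ U, ∃ r, H.h x y = k * r) →
      (∀ r r', ∃ w ∈ span β.O {x, y}, H.h w x = k * r ∧ H.h w y = k * r') →
      (∃ x' ∈ span β.O {x, y}, ∃ y' ∈ span β.O {x, y}, H.h x' y' ≠ 0) ∧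
        ∀ v ∈ U, ∃ w ∈ span β.O {x, y}, v + w ∈ H.perp (span β.O {x, y}) :=
    fun {x y k} h0 h1 h2 h3 h4 => ⟨⟨x, subset_span (by simp), y, subset_span (by simp), h2 ▸ h1⟩,
      fun v hv => by
        obtain ⟨r, hr⟩ := h3 v hv x (h0 (subset_span (by simp)))
        obtain ⟨r', hr'⟩ := h3 v hv y (h0 (subset_span (by simp)))
        obtain ⟨w, hw, h5, h6⟩ := h4 r r'
        exact ⟨w, hw, mem_perp_pair (by simp [hr, h5, CharTwo.add_self_eq_zero])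
          (by simp [hr', h6, CharTwo.add_self_eq_zero])⟩⟩
  obtain ⟨j, rfl | rfl⟩ := k.even_or_odd'
  · simp only [Base.omega_pow_two_mul, mul_assoc] at h h1
    replace h1 : ∀ x ∈ U, ∀ y ∈ U, ∃ r, H.h x y = ⟨β.S ^ j, 0⟩ * r := fun x hx y hy =>
      (h1 x hx y hy).elim fun _ h => ⟨_, h⟩
    obtain ⟨i, hi⟩ := Nat.exists_eq_add_of_lt (show j < β.m by omega)
    have h3 : (⟨β.S ^ j, 0⟩ : β.O) ≠ 0 := fun h => β.uni.ne j (by omega) (congrArg re h)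
    by_cases h4 : ∀ x ∈ U, ∃ a, H.n x = β.S ^ j * a
    · obtain ⟨a, ha⟩ := h4 x hx
      obtain ⟨c, hc⟩ := h4 y hy
      have h5 := rep_E (i := i) (by omega) ha hc h ((Base.isUnit_one_add _).mul hu)
      obtain ⟨-, j', x', y', h6, h7, h8, h9, h10⟩ := id h5
      obtain rfl : j' = j := by omega
      exact ⟨_, _, h5, hs hx hy, h7 ▸ h2 (h7 ▸ hs hx hy) h3 h10 h1 (solve_E h8 h9 h10)⟩
    · obtain ⟨z, hz, h4⟩ := by simpa only [not_forall, exists_prop] using h4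
      obtain _ | j := j
      · exact absurd ⟨_, by rw [pow_zero, one_mul]⟩ h4
      obtain ⟨r, hr⟩ := h1 z hz z hz
      obtain ⟨a, ha⟩ := β.uni.cancel (i := j) (by omega) (by simpa using congrArg re hr)
      obtain ⟨d, hd⟩ := exists_sq (β.ρ a)⁻¹
      obtain ⟨c, hc⟩ := β.dec (algebraMap F P d * algebraMap F P d * a)
      have h5 : β.ρ a ≠ 0 := fun h5 => by
        obtain ⟨c, hc⟩ := β.dec a
        exact h4 ⟨c, by rw [ha, hc, h5]; simp [pow_succ, mul_assoc]⟩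
      have h6 : H.n ((⟨algebraMap F P d, 0⟩ : β.O) • z) = β.S ^ j * (1 + β.S * c) := by
        simp only [map_mul, AlgHom.commutes, Algebra.algebraMap_self, RingHom.id_apply, hd,
          inv_mul_cancel₀ h5, map_one] at hc
        simp [← hc, ha, norm_def]; ring
      have hz' := U.smul_mem (⟨algebraMap F P d, 0⟩ : β.O) hz
      generalize (⟨algebraMap F P d, 0⟩ : β.O) • z = z at h6 hz'
      refine ⟨_, _, rep_V (i := i) (by omega) h6 (as_self _), (span_singleton_le_iff_mem _ _).2 hz',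
        ?_, fun v hv => ?_⟩
      · obtain ⟨w, hw, h7⟩ := solve_V h6 1
        exact ⟨w, hw, z, mem_span_singleton_self z, by rwa [h7, mul_one]⟩
      · obtain ⟨r, hr⟩ := h1 v hv z hz'
        obtain ⟨w, hw, h7⟩ := solve_V h6 r
        have : H.h (v + w) z = 0 := by simp [hr, h7, CharTwo.add_self_eq_zero]
        exact ⟨w, hw, by simpa using mem_perp_pair this this⟩
  · simp only [Base.omega_pow_odd, mul_assoc] at h h1
    replace h1 : ∀ x ∈ U, ∀ y ∈ U, ∃ r, H.h x y = ⟨0, β.S ^ j⟩ * r := fun x hx y hy =>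
      (h1 x hx y hy).elim fun _ h => ⟨_, h⟩
    obtain ⟨i, hi⟩ := Nat.exists_eq_add_of_lt (show j < β.m by omega)
    have h4 : ∀ x ∈ U, ∃ a, H.n x = β.S ^ j * a := fun x hx => by
      obtain ⟨r, hr⟩ := h1 x hx x hx
      exact β.uni.cancel (b := r.im) (by omega) (by simpa [pow_succ'] using congrArg re hr)
    obtain ⟨x', d, h5, h6, h7, -⟩ := exists_scale h ((Base.isUnit_one_add _).mul hu)
    obtain ⟨a, ha⟩ := h4 x hx
    obtain ⟨c, hc⟩ := h4 y hy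
    have h5' := rep_D (i := i) (by omega) (a := d * a) (w := 1) (by rw [h7, ha]; ring) hc
      (by rw [h6, mul_one]) (by simp) (as_self _)
    obtain ⟨j', x', y', h6, h7, h8, h9, h10⟩ := id h5'
    obtain rfl : j' = j := by omega
    exact ⟨_, _, h5', h5 ▸ hs hx hy, h7 ▸ h2 (h7 ▸ h5 ▸ hs hx hy)
      (fun h => β.uni.ne j' (by omega) (congrArg im h)) h10 h1 (solve_D h8 h9 h10)⟩

variable [Finite V]

theorem exists_dec (hU : H.Nondeg U) : ∃ s, H.Dec s U := by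
  induction U using WellFoundedLT.induction with
  | ind U ih =>
    by_cases h : ∃ x ∈ U, ∃ y ∈ U, H.h x y ≠ 0
    · obtain ⟨b, W, h1, h2, h3, h4⟩ := exists_block h
      obtain ⟨h5, h6, -⟩ := exists_dec_of_proj (s := 0) h1 h2 h3 h4 hU
      obtain ⟨s, hs⟩ := ih _ h5 h6
      exact ⟨_, (exists_dec_of_proj h1 h2 h3 h4 hU).2.2 hs⟩
    · obtain rfl : U = ⊥ := eq_bot_iff.2 fun v hv => hU v hv fun w hw => by_contra fun h' =>
        h ⟨v, hv, w, hw, h'⟩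
      exact ⟨0, .zero⟩

end HM

end CfsgLib.Wall2
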