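import Cfsg.Agent.Lib.Wall2.Exists

/-!
# Invariants of block decompositions: order, Gauss sum, isomorphism type
-/

set_option autoImplicit false

namespace CfsgLib.Wall2.HM

open QuadraticAlgebra Submodule

variable {F P : Type*} [Field F] [CommRing P] [Algebra F P] {β : Base F P}
  {V : Type*} [AddCommGroup V] [Module β.O V] {H : HM β V}
  {U W : Submodule β.O V} {b : Blk F} {s : Multiset (Blk F)} {x y z : V} [CharP P 2]

omit [CharP P 2] in
theorem card_span_pair (hU : H.Nondeg (span β.O {x, y})) {k : β.O}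
    (h1 : ∀ u ∈ ({x, y} : Set V), ∀ v ∈ ({x, y} : Set V), H.h u v ∈ Ideal.span {k})
    (h2 : ∀ r r', ∃ w ∈ span β.O {x, y}, H.h w x = k * r ∧ H.h w y = k * r') :
    Nat.card (span β.O {x, y}) = Nat.card (Ideal.span {k}) ^ 2 := by
  have h3 : ∀ v ∈ ({x, y} : Set V), ∀ u : span β.O {x, y}, H.h u v ∈ Ideal.span {k} :=
    fun v hv ⟨u, hu⟩ => by
      obtain ⟨a, b, rfl⟩ := mem_span_pair.1 hu
      simpa using add_mem (Ideal.mul_mem_left _ a (h1 x (by simp) v hv))
        (Ideal.mul_mem_left _ b (h1 y (by simp) v hv))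
  rw [sq, ← Nat.card_prod]
  refine Nat.card_congr (Equiv.ofBijective (fun u => (⟨_, h3 x (by simp) u⟩, ⟨_, h3 y (by simp) u⟩))
    ⟨fun u v h => Subtype.ext (sub_eq_zero.1 (hU _ (sub_mem u.2 v.2) (mem_perp_pair ?_ ?_))),
      fun ⟨⟨r, hr⟩, r', hr'⟩ => ?_⟩)
  · rw [sub_eq_add_neg, ← neg_one_smul β.O, add_left, smul_left,
      show H.h u x = H.h v x from congrArg (·.1.1) h]; ring
  · rw [sub_eq_add_neg, ← neg_one_smul β.O, add_left, smul_left,
      show H.h u y = H.h v y from congrArg (·.2.1) h]; ring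
  · obtain ⟨r, rfl⟩ := Ideal.mem_span_singleton.1 hr
    obtain ⟨r', rfl⟩ := Ideal.mem_span_singleton.1 hr'
    obtain ⟨w, hw, h4, h5⟩ := h2 r r'
    exact ⟨⟨w, hw⟩, Prod.ext (Subtype.ext h4) (Subtype.ext h5)⟩

theorem Rep.card (h : H.Rep b U) (hU : H.Nondeg U) : Nat.card U = Nat.card F ^ (2 * b.wt) := by
  obtain ⟨_ | _ | _, i, e⟩ := b
  · obtain ⟨j, z, h1, rfl, h2⟩ := h
    rw [Blk.wt, ← Base.card_span_even (β := β) (j := j + 1) (by omega)]
    refine Nat.card_congr (Equiv.ofBijective (fun u => ⟨H.h u z, ?_⟩) ⟨fun u v h => Subtype.ext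
      (sub_eq_zero.1 (hU _ (sub_mem u.2 v.2) fun w hw => ?_)), fun ⟨r, hr⟩ => ?_⟩)
    · obtain ⟨a, ha⟩ := mem_span_singleton.1 u.2
      exact Ideal.mem_span_singleton.2 ⟨a * ⟨1 + β.S * algebraMap F P e, 0⟩, by
        ext <;> simp [← ha, h2] <;> ring⟩
    · obtain ⟨a, rfl⟩ := mem_span_singleton.1 hw
      rw [sub_eq_add_neg, ← neg_one_smul β.O, smul_right, add_left, smul_left,
        show H.h u z = H.h v z from congrArg Subtype.val h]; ring
    · obtain ⟨r, rfl⟩ := Ideal.mem_span_singleton.1 hr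
      obtain ⟨w, hw, h4⟩ := solve_V h2 r
      exact ⟨⟨w, hw⟩, Subtype.ext h4⟩
  · obtain ⟨-, j, x, y, h1, rfl, hx, hy, h⟩ := h
    rw [card_span_pair hU (by simp [hx, hy, h, H.symm x y, show (⟨0, 0⟩ : β.O) = 0 from rfl])
      (solve_E hx hy h), Base.card_span_even (i := i + 1) (by omega), ← pow_mul, Blk.wt]
    ring
  · obtain ⟨j, x, y, h1, rfl, hx, hy, h⟩ := h
    rw [card_span_pair hU _ (solve_D hx hy h), Base.card_span_odd h1, ← pow_mul, Blk.wt, mul_comm]
    simp only [Set.mem_insert_iff, Set.mem_singleton_iff, forall_eq_or_imp, forall_eq,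
      Ideal.mem_span_singleton]
    exact ⟨⟨⟨⟨β.S, 1⟩ * ⟨algebraMap F P e, 0⟩, by ext <;> simp [hx] <;> grind⟩, h ▸ dvd_rfl⟩,
      ⟨⟨1 + β.S, 1⟩, by ext <;> simp [H.symm x y, h]; grind⟩, ⟨β.S, 1⟩, by ext <;> simp [hy]; grind⟩

variable [Finite F] [CharP F 2] [Finite V]

variable (H) in
/-- The Gauss sum of the underlying quadratic form. -/
noncomputable def gam (U : Submodule β.O V) : ℤ := gauss fun v : U => β.l (H.n v)

omit [CharP P 2] in
theorem gam_pos {M : Submodule β.O V} {a : V} {e : F} (ha : a ∈ U) (h0 : β.l (H.n a) = e)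
    (h1 : ∀ m ∈ M, AS (β.l (H.n m) + β.l (H.h a m).im))
    (h2 : ∀ v ∈ U, (∀ m ∈ M, H.h v m = 0) → v ∈ M) (h3 : M ≤ U) : 0 < H.gam U * psi F e := by
  rw [gam, gauss_eq (W := U) (B := fun v => ⟨⟨fun w => β.l (H.h v w).im, by simp⟩, by simp⟩) (by simp)
    (by simp) (M.comap U.subtype).toAddSubgroup ⟨a, ha⟩ (fun m hm => h1 m hm) fun v hv =>
      h2 v v.2 fun m hm => Base.eq_zero_of_l_im (fun h => not_as_del (h _)) fun c => by
        simpa using hv ⟨c • m, h3 (M.smul_mem c hm)⟩ (M.smul_mem c hm), h0, mul_assoc, psi_mul_self,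
    mul_one]
  exact_mod_cast Nat.card_pos

theorem Rep.gam (h : H.Rep b U) : 0 < H.gam U * psi F b.2.2 := by
  obtain ⟨_ | _ | _, i, e⟩ := b
  · obtain ⟨j, z, h1, rfl, h2⟩ := h
    have h3 : H.n ((ω : β.O) ^ i • z) = β.S ^ (i + j) * (1 + β.S * algebraMap F P e) := by
      rw [n_smul, Base.norm_omega_pow, h2]; ring
    refine gam_pos (M := span β.O {(ω : β.O) • (ω : β.O) ^ i • z}) (a := (ω : β.O) ^ i • z)
      (smul_mem _ _ (mem_span_singleton_self z)) ?_ (fun m hm => ?_) (fun v hv h => ?_)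
      ((span_singleton_le_iff_mem _ _).2 (smul_mem _ _ (smul_mem _ _ (mem_span_singleton_self z))))
    · rw [h3, mul_add, map_add, mul_one, β.l_pow, if_neg (by omega), ← mul_assoc, ← pow_succ,
        Base.l_top h1]
      simp
    · obtain ⟨c, rfl⟩ := mem_span_singleton.1 hm
      generalize (ω : β.O) ^ i • z = z at h3
      rw [show H.n (c • (ω : β.O) • z) = β.S ^ (i + j + 1) * (norm c * (1 + β.S * algebraMap F P e))
        by simp [h3, norm_def]; grind, show (H.h z (c • (ω : β.O) • z)).im = β.S ^ (i + j + 1) *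
        ((c.re + β.S * c.im) * (1 + β.S * algebraMap F P e)) by simp [h3]; grind,
        Base.l_top h1, Base.l_top h1]
      exact ⟨β.ρ c.re, by simp [norm_def]⟩
    · obtain ⟨c, rfl⟩ := mem_span_singleton.1 hv
      obtain ⟨w, hw, -⟩ := Base.exists_inv (β := β) (w := 1 + β.S * algebraMap F P e) (by simp)
      rw [smul_smul, ← pow_succ'] at h ⊢
      obtain ⟨r, rfl⟩ := Base.dvd_of_mul_eq_zero (a := i + 1) (c := j + 1) (k := i + 1) (b := c)
        (by omega) (by
          have := h _ (mem_span_singleton_self _)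
          rw [smul_left, smul_right, self, h2] at this
          rw [show (⟨β.S ^ (j + 1), 0⟩ : β.O) = ⟨β.S * (β.S ^ j * (1 + β.S * algebraMap F P e)), 0⟩ *
            ⟨w, 0⟩ by ext <;> simp; grind]
          linear_combination ⟨w, 0⟩ * this)
      exact mem_span_singleton.2 ⟨r, by rw [smul_smul, mul_comm]⟩
  · obtain ⟨rfl, j, x, y, h1, rfl, hx, hy, h2⟩ := h
    refine gam_pos (M := span β.O {x, (ω : β.O) ^ (2 * i + 2) • y}) (zero_mem _) (by simp)
      (fun m hm => ?_) (fun v hv h => ?_) (span_le.2 (Set.insert_subset (subset_span (by simp))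
        (Set.singleton_subset_iff.2 (smul_mem _ _ (subset_span (by simp))))))
    · obtain ⟨a, c, rfl⟩ := mem_span_pair.1 hm
      have : star ((ω : β.O) ^ (2 * i + 2)) * ⟨β.S ^ j, 0⟩ = 0 := by
        rw [← star_eq_zero, star_mul, star_star, show 2 * i + 2 = 2 * (i + 1) from rfl,
          Base.omega_pow_two_mul, ← mul_assoc, show star (⟨β.S ^ j, 0⟩ : β.O) * ⟨β.S ^ (i + 1), 0⟩ =
            ⟨β.S ^ β.m, 0⟩ by rw [← h1]; ext <;> simp; ring, β.uni.pow]
        exact zero_mul _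
      rw [n_add, smul_left, smul_right, smul_right, h2, this]
      simpa [hx, hy] using as_zero (F := F)
    · obtain ⟨a, c, rfl⟩ := mem_span_pair.1 hv
      obtain ⟨r, rfl⟩ := Base.dvd_of_mul_eq_zero (a := 0) (c := j) (k := 2 * i + 2) (b := c)
        (by omega) (by
          have := h x (subset_span (by simp))
          rw [add_left, smul_left, smul_left, H.symm x y, h2] at this
          rw [← this]; ext <;> simp [hx, mul_comm])
      exact mem_span_pair.2 ⟨a, r, by rw [smul_smul, mul_comm]⟩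
  · obtain ⟨j, x, y, h1, rfl, hx, hy, h2⟩ := h
    have h3 : H.n ((ω : β.O) ^ i • x) = β.S ^ (i + j) * algebraMap F P e := by
      rw [n_smul, Base.norm_omega_pow, hx]; ring
    have h4 : H.n ((ω : β.O) ^ i • y) = β.S ^ (i + j) := by
      rw [n_smul, Base.norm_omega_pow, hy]; ring
    have h5 : H.h ((ω : β.O) ^ i • x) ((ω : β.O) ^ i • y) = ⟨0, β.S ^ (i + j)⟩ := by
      rw [smul_left, smul_right, ← mul_assoc, Base.omega_pow_mul_star, h2]
      ext <;> simp; ring
    refine gam_pos (M := span β.O {(ω : β.O) • (ω : β.O) ^ i • x, (ω : β.O) ^ i • y})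
      (a := (ω : β.O) ^ i • x) (smul_mem _ _ (subset_span (by simp)))
      (by rw [h3, Base.l_top h1]; simp) (fun m hm => ?_) (fun v hv h => ?_)
      (span_le.2 (Set.insert_subset (smul_mem _ _ (smul_mem _ _ (subset_span (by simp))))
        (Set.singleton_subset_iff.2 (smul_mem _ _ (subset_span (by simp))))))
    · obtain ⟨a, c, rfl⟩ := mem_span_pair.1 hm
      generalize (ω : β.O) ^ i • x = x at h3 h5
      generalize (ω : β.O) ^ i • y = y at h4 h5
      rw [show H.n (a • (ω : β.O) • x + c • y) = β.S ^ (i + j) * (norm c + β.S *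
          (norm a * algebraMap F P e + (a * star c * (1 + ω)).im)) by
        simp [h3, h4, h5, norm_def]; grind, show (H.h x (a • (ω : β.O) • x + c • y)).im =
          β.S ^ (i + j) * (c.re + β.S * (star a * star ω * (⟨algebraMap F P e, 0⟩ : β.O)).im) by
        simp [h3, h5]; grind, Base.l_top h1, Base.l_top h1]
      exact ⟨β.ρ c.re, by simp [norm_def]⟩
    · obtain ⟨a, c, rfl⟩ := mem_span_pair.1 hv
      rw [smul_smul, ← pow_succ'] at h ⊢
      have h6 := h _ (subset_span (Or.inl rfl))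
      have h7 := h _ (subset_span (Or.inr rfl))
      simp only [smul_right, add_left, smul_left, H.symm x y, h2, self, hx, hy] at h6 h7
      obtain ⟨r, hr⟩ := Base.dvd_of_mul_eq_zero (a := i + 2) (c := j) (k := i)
        (b := c + ω * a * ⟨algebraMap F P e, 0⟩) (by omega) (by
          rw [← h6, pow_succ, star_mul]
          generalize star ((ω : β.O) ^ (i + 1)) = u
          ext <;> simp <;> grind)
      obtain ⟨r', hr'⟩ := Base.dvd_of_mul_eq_zero (a := i + 1) (c := j) (k := i + 1)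
        (b := (1 + ω) * a + ω * c) (by omega) (by
          rw [← h7, pow_succ, star_mul]
          generalize star ((ω : β.O) ^ i) = u
          ext <;> simp <;> grind)
      obtain ⟨w, hw⟩ := (Base.isUnit_O (β := β) (w := 1 + ω + ω * ω * ⟨algebraMap F P e, 0⟩)
        (by simp [norm_def])).exists_right_inv
      have h8 : a = (r + r') * w * ω ^ (i + 1) := by grind
      exact mem_span_pair.2 ⟨(r + r') * w, r + (r + r') * w * ω * ω * ⟨algebraMap F P e, 0⟩, by
        rw [smul_smul, smul_smul, ← h8]; congr 2; grind⟩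

theorem Dec.card_gam (h : H.Dec s U) (hU : H.Nondeg U) :
    Nat.card U = Nat.card F ^ (2 * (s.map Blk.wt).sum) ∧
      0 < H.gam U * psi F (s.map fun b => b.2.2).sum := by
  induction h with
  | zero => simp [gam, gauss, finsum_unique, show ((default : (⊥ : Submodule β.O V)) : V) = 0 from rfl]
  | @cons b s U W h1 _ h3 ih =>
    obtain ⟨h4, h5⟩ := ih (Nondeg.of_sup (sup_comm U W ▸ hU) h3.symm)
    let e : U × W ≃ ↥(U ⊔ W) := Equiv.ofBijective (fun p => ⟨p.1 + p.2, add_mem_sup p.1.2 p.2.2⟩)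
      ⟨fun p q hpq => by
        have h6 : p.1.1 - q.1 = q.2 - p.2 := by
          rw [sub_eq_sub_iff_add_eq_add, add_comm q.2.1]; exact congrArg Subtype.val hpq
        have h7 := Nondeg.of_sup hU h3 _ (sub_mem p.1.2 q.1.2) fun w hw =>
          h3.symm _ (h6 ▸ sub_mem q.2.2 p.2.2) w hw
        exact Prod.ext (Subtype.ext (sub_eq_zero.1 h7)) (Subtype.ext (sub_eq_zero.1 (h6 ▸ h7)).symm),
      fun ⟨v, hv⟩ => by
        obtain ⟨a, ha, c, hc, rfl⟩ := mem_sup.1 hv
        exact ⟨(⟨a, ha⟩, ⟨c, hc⟩), rfl⟩⟩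
    simp only [Multiset.map_cons, Multiset.sum_cons, AddChar.map_add_eq_mul]
    refine ⟨by rw [← Nat.card_congr e, Nat.card_prod, h4, h1.card (hU.of_sup h3), mul_add, pow_add],
      ?_⟩
    rw [gam, ← gauss_congr e (Q := fun p => β.l (H.n p.1) + β.l (H.n p.2)) fun p => by
      change β.l (H.n (p.1 + p.2)) = _; simp [h3 _ p.1.2 _ p.2.2], gauss_prod (fun v : U => β.l (H.n v)) fun v : W => β.l (H.n v),
      mul_mul_mul_comm]
    exact mul_pos h1.gam h5

section Iso

variable {V' : Type*} [AddCommGroup V'] [Module β.O V'] {H' : HM β V'} {U' : Submodule β.O V'}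
  {b' : Blk F} {s' : Multiset (Blk F)} {full : Prop}

omit [Finite F] [CharP F 2] [Finite V]

variable (H H') in
/-- The orthogonal sum. -/
def prod : HM β (V × V') where
  h p q := H.h p.1 q.1 + H'.h p.2 q.2
  n p := H.n p.1 + H'.n p.2
  add_left p q r := by simp; ring
  smul_left a p q := by simp; ring
  symm p q := by rw [star_add, ← H.symm, ← H'.symm]
  self p := by ext <;> simp; ring
  n_add p q := by simp; ring
  n_smul a p := by simp; ring

variable (H H') in
/-- A correspondence preserving the form, and the norm if `full` holds. -/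
def Iso (full : Prop) (U : Submodule β.O V) (U' : Submodule β.O V') : Prop :=
  ∃ G : Submodule β.O (V × V'), G.map (LinearMap.fst _ _ _) = U ∧ G.map (LinearMap.snd _ _ _) = U' ∧
    (H.prod H').Orth G G ∧ (full → ∀ p ∈ G, (H.prod H').n p = 0)

/-- Blocks which agree up to a sign on the lowest level. -/
def BR (full : Prop) (b b' : Blk F) : Prop :=
  b.1 = b'.1 ∧ b.2.1 = b'.2.1 ∧ (b.2.2 = b'.2.2 ∨ ¬ full ∧ b.2.1 = 0)

theorem iso_span {x' y' : V'} (h1 : H.h x x = H'.h x' x') (h2 : H.h x y = H'.h x' y')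
    (h3 : H.h y y = H'.h y' y') (h4 : full → H.n x = H'.n x' ∧ H.n y = H'.n y') :
    H.Iso H' full (span β.O {x, y}) (span β.O {x', y'}) := by
  have h5 : (H.prod H').Orth (span β.O {(x, x'), (y, y')}) (span β.O {(x, x'), (y, y')}) :=
    orth_span (by simp [-self, prod, h1, h2, h3, H.symm x y, H'.symm x' y', CharTwo.add_self_eq_zero])
  refine ⟨_, by simp [map_span, Set.image_pair], by simp [map_span, Set.image_pair], h5,
    fun hf p hp => ?_⟩
  obtain ⟨a, c, rfl⟩ := mem_span_pair.1 hp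
  rw [n_add, h5 _ (smul_mem _ _ (subset_span (by simp))) _ (smul_mem _ _ (subset_span (by simp))),
    n_smul, n_smul]
  simp [prod, h4 hf, CharTwo.add_self_eq_zero]

theorem Rep.iso (h : H.Rep b U) (h' : H'.Rep b' U') (hb : BR full b b') : H.Iso H' full U U' := by
  obtain ⟨k, i, e⟩ := b
  obtain ⟨k', i', e'⟩ := b'
  simp only [BR] at hb
  obtain ⟨rfl, rfl, hb⟩ := hb
  obtain _ | _ | _ := k
  · obtain ⟨j, z, h1, rfl, h2⟩ := h
    obtain ⟨j', z', h3, rfl, h4⟩ := h'
    obtain rfl : j = j' := by omega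
    have h5 : H.h z z = H'.h z' z' := by
      obtain rfl | ⟨-, rfl⟩ := hb
      · simp [h2, h4]
      · have : β.S ^ (j + 2) = 0 := by rw [← β.uni.pow, ← h1, zero_add]
        simp [h2, h4]; grind
    simpa using iso_span h5 h5 h5 fun hf => by
      obtain rfl : e = e' := hb.resolve_right fun h => h.1 hf
      simp [h2, h4]
  · obtain ⟨-, j, x, y, h1, rfl, hx, hy, h2⟩ := h
    obtain ⟨-, j', x', y', h3, rfl, hx', hy', h4⟩ := h'
    obtain rfl : j = j' := by omega
    exact iso_span (by simp [*]) (by simp [*]) (by simp [*]) (by simp [*])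
  · obtain ⟨j, x, y, h1, rfl, hx, hy, h2⟩ := h
    obtain ⟨j', x', y', h3, rfl, hx', hy', h4⟩ := h'
    obtain rfl : j = j' := by omega
    refine iso_span ?_ (by simp [*]) (by simp [*]) fun hf => ?_
    · obtain rfl | ⟨-, rfl⟩ := hb
      · simp [*]
      · have : β.S ^ (j + 1) = 0 := by rw [← β.uni.pow, ← h1, zero_add]
        simp [hx, hx']; grind
    · obtain rfl : e = e' := hb.resolve_right fun h => h.1 hf
      simp [*]

theorem Dec.iso (hs : Multiset.Rel (BR full) s s') : ∀ {U U'}, H.Dec s U → H'.Dec s' U' →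
    H.Iso H' full U U' := by
  induction hs with
  | zero =>
    intro U U' h h'
    exact ⟨⊥, by simp [h.eq_bot], by simp [h'.eq_bot], fun u hu => by simp [mem_bot _ |>.1 hu],
      fun _ p hp => by simp [mem_bot _ |>.1 hp]⟩
  | cons hb _ ih =>
    intro U U' h h'
    obtain ⟨U₁, U₂, h1, h2, h3, rfl⟩ := dec_cons.1 h
    obtain ⟨W₁, W₂, h4, h5, h6, rfl⟩ := dec_cons.1 h'
    obtain ⟨G₁, rfl, rfl, h7, h8⟩ := h1.iso h4 hb
    obtain ⟨G₂, rfl, rfl, h9, h10⟩ := ih h2 h5
    have h11 : (H.prod H').Orth G₁ G₂ := fun p hp q hq => by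
      simp [prod, h3 p.1 ⟨p, hp, rfl⟩ q.1 ⟨q, hq, rfl⟩, h6 p.2 ⟨p, hp, rfl⟩ q.2 ⟨q, hq, rfl⟩]
    refine ⟨G₁ ⊔ G₂, map_sup _ _ _, map_sup _ _ _,
      (h7.sup_right h11).sup_left (h11.symm.sup_right h9), fun hf p hp => ?_⟩
    obtain ⟨a, ha, c, hc, rfl⟩ := mem_sup.1 hp
    rw [n_add, h8 hf a ha, h10 hf c hc, h11 a ha c hc]
    simp

theorem Iso.exists_equiv (h : H.Iso H' full ⊤ ⊤) (hV : H.Nondeg ⊤) (hV' : H'.Nondeg ⊤) :
    ∃ e : V ≃ₗ[β.O] V', (∀ v w, H'.h (e v) (e w) = H.h v w) ∧ (full → ∀ v, H'.n (e v) = H.n v) := by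
  obtain ⟨G, h1, h2, h3, h4⟩ := h
  have h5 : Function.Bijective ((LinearMap.fst β.O V V').comp G.subtype) :=
    ⟨(injective_iff_map_eq_zero _).2 fun p hp => Subtype.ext (Prod.ext hp (hV' _ trivial fun w hw => by
      obtain ⟨q, hq, rfl⟩ := h2.ge hw
      simpa [prod, show p.1.1 = 0 from hp] using h3 _ p.2 q hq)),
      fun v => by obtain ⟨q, hq, rfl⟩ := h1.ge (mem_top (x := v)); exact ⟨⟨q, hq⟩, rfl⟩⟩
  have h6 : Function.Bijective ((LinearMap.snd β.O V V').comp G.subtype) :=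
    ⟨(injective_iff_map_eq_zero _).2 fun p hp => Subtype.ext (Prod.ext (hV _ trivial fun w hw => by
      obtain ⟨q, hq, rfl⟩ := h1.ge hw
      simpa [prod, show p.1.2 = 0 from hp] using h3 _ p.2 q hq) hp),
      fun v => by obtain ⟨q, hq, rfl⟩ := h2.ge (mem_top (x := v)); exact ⟨⟨q, hq⟩, rfl⟩⟩
  refine ⟨(LinearEquiv.ofBijective _ h5).symm.trans (LinearEquiv.ofBijective _ h6),
    fun v w => ?_, fun hf v => ?_⟩
  · obtain ⟨p, rfl⟩ := (LinearEquiv.ofBijective _ h5).surjective v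
    obtain ⟨q, rfl⟩ := (LinearEquiv.ofBijective _ h5).surjective w
    simp only [LinearEquiv.trans_apply, LinearEquiv.symm_apply_apply]
    exact (CharTwo.add_eq_zero.1 (h3 _ p.2 _ q.2)).symm
  · obtain ⟨p, rfl⟩ := (LinearEquiv.ofBijective _ h5).surjective v
    simp only [LinearEquiv.trans_apply, LinearEquiv.symm_apply_apply]
    exact (CharTwo.add_eq_zero.1 (h4 hf _ p.2)).symm

end Iso

end CfsgLib.Wall2.HM
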