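import Cfsg.Agent.Lib.Wall2.Count

/-!
# Lower bounds for the class numbers of orthogonal groups in characteristic two
-/

set_option autoImplicit false

namespace CfsgLib.Wall2

open Polynomial AdjoinRoot QuadraticMap CfsgLib.MatConj Matrix

variable {F : Type*} [Field F] {p : F[X]} (hp : p.Monic) {m : ℕ} (hm : p.natDegree = m + 1)

/-- The top coefficient of the reduced representative. -/
noncomputable def tau (m : ℕ) : AdjoinRoot p →ₗ[F] F := lcoeff F m ∘ₗ modByMonicHom hp

include hm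

theorem tau_mk {f : F[X]} (hf : f.degree < (m + 1 : ℕ)) : tau hp m (mk p f) = f.coeff m := by
  rw [tau, LinearMap.comp_apply, modByMonicHom_mk, (modByMonic_eq_self_iff hp).2 (by
    rwa [degree_eq_natDegree hp.ne_zero, hm]), lcoeff_apply]

include hp in
theorem exists_mk (a : AdjoinRoot p) : ∃ f : F[X], f.degree < (m + 1 : ℕ) ∧ mk p f = a := by
  obtain ⟨f, rfl⟩ := mk_surjective a
  exact ⟨f %ₘ p, by simpa [degree_eq_natDegree hp.ne_zero, hm] using degree_modByMonic_lt f hp,
    mk_eq_mk.2 (by simp [modByMonic_eq_sub_mul_div f p])⟩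

theorem exists_mk_of_tau {k k' : ℕ} (hk : k + k' = m + 1) {x : AdjoinRoot p}
    (h : ∀ b : F[X], b.degree < k → tau hp m (x * mk p b) = 0) :
    ∃ f : F[X], f.degree < k' ∧ mk p f = x := by
  obtain ⟨f, hf, rfl⟩ := exists_mk hp hm x
  refine ⟨f, not_le.1 fun h1 => ?_, rfl⟩
  have h0 : f ≠ 0 := by rintro rfl; simp at h1
  rw [degree_eq_natDegree h0, Nat.cast_le] at h1
  rw [degree_eq_natDegree h0, Nat.cast_lt] at hf
  obtain ⟨j, rfl⟩ := Nat.exists_eq_add_of_le (Nat.lt_succ_iff.1 hf)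
  have := h (X ^ j) (by rw [degree_X_pow, Nat.cast_lt]; omega)
  rw [← map_mul, tau_mk hp hm (by
    rw [degree_mul, degree_X_pow, degree_eq_natDegree h0]; exact_mod_cast Nat.lt_succ_self _),
    coeff_mul_X_pow] at this
  exact leadingCoeff_ne_zero.2 h0 this

theorem tau_mul {a b : F[X]} {k k' : ℕ} (ha : a.degree < k) (hb : b.degree < k') (h : k + k' ≤ m + 1) :
    tau hp m (mk p a * mk p b) = 0 := by
  by_cases h0 : a = 0 ∨ b = 0
  · rcases h0 with rfl | rfl <;> simp
  rw [not_or] at h0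
  rw [degree_eq_natDegree h0.1, Nat.cast_lt] at ha
  rw [degree_eq_natDegree h0.2, Nat.cast_lt] at hb
  have := natDegree_mul_le (p := a) (q := b)
  rw [← map_mul, tau_mk hp hm (degree_le_natDegree.trans_lt (Nat.cast_lt.2 (by omega))),
    coeff_eq_zero_of_natDegree_lt (by omega)]

omit hm in
theorem root_mul_divX (f : F[X]) : root p * mk p f.divX + algebraMap F _ (f.coeff 0) = mk p f := by
  conv_rhs => rw [← X_mul_divX_add f, map_add, map_mul, mk_X, mk_C]
  rfl

theorem tau_divX_mul {b : F[X]} (hb : b.degree < (m + 1 : ℕ)) :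
    tau hp m (mk p p.divX * mk p b) = b.coeff 0 := by
  have h1 := root_mul_divX (p := p) p
  have h2 : ∀ f : F[X], f.degree ≤ (m + 1 : ℕ) → tau hp m (mk p f.divX) = f.coeff (m + 1) :=
    fun f hf => by
      rw [tau_mk hp hm ((degree_lt_iff_coeff_zero _ _).2 fun i hi => ?_), coeff_divX]
      exact coeff_divX.trans (coeff_eq_zero_of_degree_lt (hf.trans_lt (by exact_mod_cast by omega)))
  rw [mk_self] at h1
  rw [← root_mul_divX b, show mk p p.divX * (root p * mk p b.divX + algebraMap F _ (b.coeff 0)) =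
    b.coeff 0 • mk p p.divX - p.coeff 0 • mk p b.divX by
      rw [Algebra.smul_def, Algebra.smul_def]; linear_combination mk p b.divX * h1,
    map_sub, map_smul, map_smul, h2 _ hb.le, h2 _ (hm ▸ degree_le_natDegree),
    coeff_eq_zero_of_degree_lt hb, ← hm, hp.coeff_natDegree]
  simp

variable [CharP F 2] [Finite F]

theorem exists_lam {d : F} (hd : p.coeff 0 * p.coeff 0 * (d * d) = p.coeff 0) :
    ∃ l : AdjoinRoot p →ₗ[F] F, l 1 = d ∧
      ∀ b, l (root p * b) * l (root p * b) = tau hp m (root p * (b * b)) := by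
  have h0 : (2 : AdjoinRoot p) = 0 := by
    rw [← map_ofNat (algebraMap F _), CharTwo.two_eq_zero, map_zero]
  choose l hl using fun b => exists_sq (tau hp m (root p * (b * b)))
  have h1 : ∀ {a b : F}, a * a = b * b → a = b := fun h => by grind
  let l' : Module.Dual F (AdjoinRoot p) := ⟨⟨l, fun v w => h1 (by
      rw [hl, CharTwo.add_mul_self (l v), hl, hl, ← map_add]
      exact congrArg _ (by linear_combination root p * v * w * h0))⟩,
    fun c v => h1 (by rw [hl, RingHom.id_apply, smul_mul_smul_comm, smul_mul_smul_comm, hl,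
      mul_smul_comm, map_smul])⟩
  obtain ⟨μ, hμ⟩ : l' ∈ LinearMap.range (LinearMap.mulLeft F (root p)).dualMap := by
    rw [LinearMap.range_dualMap_eq_dualAnnihilator_ker, Submodule.mem_dualAnnihilator]
    intro v hv
    have := hl v
    rw [← mul_assoc, show root p * v = 0 from hv, zero_mul, map_zero] at this
    exact mul_self_eq_zero.1 this
  replace hμ : ∀ b, μ (root p * b) = l b := LinearMap.congr_fun hμ
  by_cases h : p.coeff 0 = 0
  · let ρ := liftAlgHom p (AlgHom.id F F) 0 (by simpa [← coeff_zero_eq_eval_zero])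
    exact ⟨μ + (d - μ 1) • ρ.toLinearMap, by simp, fun b => by simp [ρ, hμ, hl]⟩
  refine ⟨μ, h1 (mul_left_cancel₀ (mul_ne_zero h h) ?_), fun b => by rw [hμ, hl]⟩
  have h2 := root_mul_divX (p := p) p
  rw [mk_self, add_eq_zero_iff_eq_neg, Algebra.algebraMap_eq_smul_one, ← neg_smul] at h2
  have h3 := hl (mk p p.divX)
  have h4 := tau_divX_mul hp hm (b := 1) (by rw [degree_one]; exact_mod_cast m.succ_pos)
  rw [← hμ, ← mul_assoc, h2, smul_mul_assoc, map_smul, map_smul, one_mul, ← mul_one (mk p _),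
    ← map_one (mk p), h4] at h3
  simp only [smul_eq_mul, coeff_one_zero, map_one] at h3
  grind

include hp in
theorem exists_model {d : F} (hd : p.coeff 0 * p.coeff 0 * (d * d) = p.coeff 0) :
    ∃ (Q : QuadraticForm F (AdjoinRoot p × AdjoinRoot p))
      (g : (AdjoinRoot p × AdjoinRoot p) ≃ₗ[F] AdjoinRoot p × AdjoinRoot p),
      (∀ v, (∀ w, polar Q v w = 0) → v = 0) ∧ (∀ v, Q (g v) = Q v) ∧
      (∀ v, g v + g.symm v = root p • v) ∧ 0 < gauss Q * psi F (d * d * p.coeff 1) := by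
  have : Nontrivial (AdjoinRoot p) := AdjoinRoot.nontrivial p (by
    rw [degree_eq_natDegree hp.ne_zero, hm]; exact_mod_cast m.succ_ne_zero)
  have : CharP (AdjoinRoot p) 2 := charP_of_injective_algebraMap (algebraMap F _).injective 2
  have := (powerBasis' hp).finite
  have : Finite (AdjoinRoot p) := Module.finite_of_finite F
  obtain ⟨l, rfl, hl⟩ := exists_lam hp hm hd
  obtain ⟨Q, hQ⟩ : ∃ Q : QuadraticForm F (AdjoinRoot p × AdjoinRoot p),
      ∀ v, Q v = l v.1 * l v.1 + l v.2 * l v.2 + tau hp m (v.1 * v.2) :=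
    ⟨linMulLin (l ∘ₗ .fst F _ _) (l ∘ₗ .fst F _ _) + linMulLin (l ∘ₗ .snd F _ _) (l ∘ₗ .snd F _ _) +
      LinearMap.BilinMap.toQuadraticMap (((LinearMap.mul F _).compr₂ (tau hp m)).compl₁₂ (.fst F _ _)
        (.snd F _ _)), fun _ => rfl⟩
  have h1 : ∀ v w, polar Q v w = tau hp m (v.1 * w.2) + tau hp m (v.2 * w.1) := fun v w => by
    simp [polar, hQ, mul_add, add_mul, mul_comm w.1]; grind
  have h2 : ∀ f : F[X], f.degree < (m / 2 + 1 : ℕ) → l (mk p f) = f.coeff 0 * l 1 := fun f h2 => by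
    have h3 : f.divX.degree < (m / 2 : ℕ) := (degree_lt_iff_coeff_zero _ _).2 fun i hi =>
      coeff_divX.trans ((degree_lt_iff_coeff_zero _ _).1 h2 _ (by omega))
    have h4 := hl (mk p f.divX)
    rw [← mul_assoc _ _ (mk p _), ← mk_X, ← map_mul (mk p), tau_mul hp hm (k := m / 2 + 1)
      ((degree_lt_iff_coeff_zero _ _).2 fun i hi => ?_) h3 (by omega), mul_self_eq_zero] at h4
    · rw [← root_mul_divX, map_add, ← mk_X, ← map_mul, h4, zero_add, Algebra.algebraMap_eq_smul_one,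
        map_smul, smul_eq_mul]
    · obtain ⟨i, rfl⟩ := Nat.exists_eq_add_one.2 (show 0 < i by omega)
      exact (coeff_X_mul _ _).trans ((degree_lt_iff_coeff_zero _ _).1 h3 _ (by omega))
  refine ⟨Q, { toFun v := (v.2, v.1 + root p * v.2), invFun v := (v.2 + root p * v.1, v.1)
               map_add' _ _ := by ext <;> simp; ring
               map_smul' _ _ := by ext <;> simp
               left_inv _ := by simp [add_assoc, CharTwo.add_self_eq_zero]
               right_inv _ := by simp [add_assoc, CharTwo.add_self_eq_zero] },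
    fun v hv => ?_, fun v => ?_, fun v => by ext <;> simp <;> grind, ?_⟩
  · have h3 : ∀ x, (∀ b, tau hp m (x * b) = 0) → x = 0 := fun x hx => by
      obtain ⟨f, h3, rfl⟩ := exists_mk_of_tau hp hm (add_zero _) fun b _ => hx (mk p b)
      rw [degree_eq_bot.1 (Nat.WithBot.lt_zero_iff.1 h3), map_zero]
    exact Prod.ext (h3 _ fun b => by simpa [h1] using hv (0, b))
      (h3 _ fun b => by simpa [h1] using hv (b, 0))
  · have := hl v.2
    simp [hQ, mul_add, mul_left_comm v.2, mul_comm v.2 v.1]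
    grind
  let M := fun k => (degreeLT F k).map (mkₐ p).toLinearMap
  have h3 : ∀ {k x}, x ∈ M k ↔ ∃ f : F[X], f.degree < k ∧ mk p f = x := by simp [M, mem_degreeLT]
  rw [gauss_eq (B := fun v => (polarBilin Q v).toAddMonoidHom) (QuadraticMap.map_add Q) (by simp)
    ((M (m / 2 + 1)).prod (M ((m + 1) / 2))).toAddSubgroup (l 1 • (mk p p.divX, mk p p.divX))]
  · rw [QuadraticMap.map_smul, hQ, CharTwo.add_self_eq_zero, zero_add, tau_divX_mul hp hm (by
      rw [← hm, ← degree_eq_natDegree hp.ne_zero]; exact degree_divX_lt hp.ne_zero), coeff_divX,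
      smul_eq_mul, mul_assoc, psi_mul_self, mul_one]
    exact_mod_cast Nat.card_pos
  · rintro ⟨_, _⟩ ⟨h4, h5⟩
    obtain ⟨a, ha, rfl⟩ := h3.1 h4
    obtain ⟨b, hb, rfl⟩ := h3.1 h5
    have h6 := tau_mul hp hm ha hb (by omega)
    refine ⟨(a.coeff 0 + b.coeff 0) * l 1, ?_⟩
    simp only [hQ, h6, LinearMap.toAddMonoidHom_coe, polarBilin_apply_apply, h2 a ha,
      h2 b (hb.trans_le (by exact_mod_cast by omega))]
    rw [polar_smul_left, h1, smul_eq_mul, tau_divX_mul hp hm (ha.trans_le (by exact_mod_cast by omega)),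
      tau_divX_mul hp hm (hb.trans_le (by exact_mod_cast by omega))]
    grind
  · intro v hv
    refine ⟨h3.2 (exists_mk_of_tau hp hm (k := (m + 1) / 2) (by omega) fun b hb => ?_),
      h3.2 (exists_mk_of_tau hp hm (k := m / 2 + 1) (by omega) fun b hb => ?_)⟩ <;>
      refine eq_zero_of_as fun c => ?_
    · simpa [h1, -smul_mk] using hv (0, c • mk p b) ⟨zero_mem _, Submodule.smul_mem _ _ (h3.2 ⟨b, hb, rfl⟩)⟩
    · simpa [h1, -smul_mk] using hv (c • mk p b, 0) ⟨Submodule.smul_mem _ _ (h3.2 ⟨b, hb, rfl⟩), zero_mem _⟩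

omit hm in
theorem le_two_mul_card {ι : Type} [Fintype ι] [DecidableEq ι] {Q₀ : QuadraticForm F (ι → F)} {γ : ℤ}
    (h : ∀ p : F[X], p.Monic → p.natDegree = m + 2 → ∀ Q : QuadraticForm F (AdjoinRoot p × AdjoinRoot p),
      (∀ v, (∀ w, polar Q v w = 0) → v = 0) →
        (∃ e : (ι → F) ≃ₗ[F] _, ∀ x, Q (e x) = Q₀ x) ∨ gauss Q = γ) :
    Nat.card F ^ (m + 2) ≤ 2 * Nat.card (ConjClasses (Cfsg.isometryGroup F ⇑Q₀)) := by
  classical
  obtain ⟨c, hc⟩ : ∃ c, ¬ 0 < γ * psi F c := by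
    by_cases h : 0 < γ
    exacts [⟨del F, by simpa [psi_of_not not_as_del] using h.le⟩, ⟨0, by simpa using h⟩]
  let P : F[X] → Prop := fun p => ∃ d, p.coeff 0 * p.coeff 0 * (d * d) = p.coeff 0 ∧
    psi F (d * d * p.coeff 1) = psi F c
  have := finite_monic P (m + 2)
  have h1 : ∀ p : {p : F[X] // p.Monic ∧ p.natDegree = m + 2 ∧ P p}, ∃ g : Cfsg.isometryGroup F ⇑Q₀,
      ∀ f, aeval (toLin' (g.1.1 + g⁻¹.1.1)) f = 0 ↔ p.1 ∣ f := by
    rintro ⟨p, hp, hm, d, h1, h2⟩
    obtain ⟨Q, g, h3, h4, h5, h6⟩ := exists_model hp hm h1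
    obtain ⟨e, he⟩ := (h p hp hm Q h3).resolve_right fun h => hc (h ▸ h2 ▸ h6)
    let T := e.trans (g.trans e.symm)
    refine ⟨⟨⟨LinearMap.toMatrix' T.toLinearMap, LinearMap.toMatrix' T.symm.toLinearMap,
      by simp [← LinearMap.toMatrix'_comp], by simp [← LinearMap.toMatrix'_comp]⟩,
      Orth.mem_isometryGroup.2 fun v => by simp [T, ← he, h4]⟩, fun f => ?_⟩
    refine (Sim.aeval (T := Algebra.lsmul F F _ (root p)) ⟨e, fun v => by simp [T, h5]⟩
      f).eq_zero_iff.trans ?_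
    rw [aeval_algHom_apply, aeval_eq, ← mk_eq_zero]
    exact ⟨fun h => by simpa using LinearMap.congr_fun h (1, 0), fun h => by rw [h, map_zero]⟩
  choose g hg using h1
  refine le_trans ?_ (Nat.mul_le_mul_left 2 (Nat.card_le_card_of_injective
    (fun p => ConjClasses.mk (g p)) fun p p' h => ?_))
  swap
  · obtain ⟨t, ht⟩ := ConjClasses.mk_eq_mk_iff_isConj.1 h
    have h1 : IsConj ((g p).1.1 + (g p)⁻¹.1.1) ((g p').1.1 + (g p')⁻¹.1.1) :=
      ⟨t.1.1, .add_right (congrArg (fun x : Cfsg.isometryGroup F ⇑Q₀ => x.1.1) ht.eq)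
        (congrArg (fun x : Cfsg.isometryGroup F ⇑Q₀ => x.1.1) ht.inv_right.eq)⟩
    exact Subtype.ext (eq_of_monic_of_dvd_of_natDegree_le p'.2.1 p.2.1 ((hg p' _).1
      (((isConj_iff_sim.1 h1).aeval _).eq_zero_iff.1 ((hg p _).2 dvd_rfl)))
      (p.2.2.1.trans p'.2.2.1.symm).le)
  have h1 := card_monic_eq (F := F) (m + 2) fun _ => True
  rw [Nat.card_congr (Equiv.subtypeUnivEquiv fun _ => trivial), Nat.card_fun, Nat.card_fin] at h1
  rw [← h1, two_mul (Nat.card _), ← Nat.card_sum]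
  have h2 : ∀ (p : F[X]) (a : F), p.Monic → p.natDegree = m + 2 →
      (p + C a * X).Monic ∧ (p + C a * X).natDegree = m + 2 := fun p a hp hm =>
    have : (C a * X).natDegree < p.natDegree := by rw [hm]; compute_degree!
    ⟨hp.add_of_left (degree_lt_degree this), (natDegree_add_eq_left_of_natDegree_lt this).trans hm⟩
  refine Nat.card_le_card_of_injective (fun p => if h : P p.1 then .inl ⟨p.1, p.2.1, p.2.2.1, h⟩ else
    .inr ⟨p.1 + C (if p.1.coeff 0 = 0 then 1 else del F * p.1.coeff 0) * X, (h2 _ _ p.2.1 p.2.2.1).1,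
      (h2 _ _ p.2.1 p.2.2.1).2, ?_⟩) fun p p' h => Subtype.ext ?_
  · simp only [P, not_exists, not_and, coeff_add, coeff_C_mul, coeff_X_zero, mul_zero, add_zero,
      coeff_X_one, mul_one] at h ⊢
    split_ifs with h3
    · obtain ⟨d, hd⟩ := exists_sq (c / p.1.coeff 1)
      obtain ⟨d', rfl⟩ := exists_sq c
      have h4 : p.1.coeff 1 = 0 := not_not.1 fun h4 => h d (by simp [h3]) (by rw [hd, div_mul_cancel₀ _ h4])
      exact ⟨d', by simp [h3], by simp [h4]⟩
    · obtain ⟨d, hd⟩ := exists_sq (p.1.coeff 0)⁻¹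
      have h4 : p.1.coeff 0 * p.1.coeff 0 * (d * d) = p.1.coeff 0 := by rw [hd, mul_inv_cancel_right₀ h3]
      refine ⟨d, h4, ?_⟩
      have h5 := h d h4
      rw [mul_add, AddChar.map_add_eq_mul, mul_left_comm _ (del F), hd, inv_mul_cancel₀ h3, mul_one,
        psi_of_not not_as_del, ← hd]
      generalize d * d * _ = c' at *
      by_cases h13 : AS c <;> by_cases h14 : AS c' <;>
        simp [psi_eq_one.2, psi_of_not, h13, h14] at h5 ⊢
  · dsimp only at h
    by_cases h3 : P p.1 <;> by_cases h4 : P p'.1 <;> simp only [h3, h4, dif_pos, dif_neg,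
      not_false_eq_true, Sum.inl.injEq, Sum.inr.injEq, Subtype.mk.injEq, reduceCtorEq] at h
    · exact h
    · have h5 := congrArg (coeff · 0) h
      simp only [coeff_add, coeff_C_mul, coeff_X_zero, mul_zero, add_zero] at h5
      rwa [h5, add_left_inj] at h

end CfsgLib.Wall2
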