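import Cfsg.Agent.Lib.Wall2.Block

/-!
# Orthogonal decompositions into blocks and the relations between them
-/

set_option autoImplicit false

namespace CfsgLib.Wall2.HM

open QuadraticAlgebra Submodule

variable {F P : Type*} [Field F] [CommRing P] [Algebra F P] {β : Base F P}
  {V : Type*} [AddCommGroup V] [Module β.O V] (H : HM β V)

/-- Orthogonal submodules. -/
def Orth (U W : Submodule β.O V) : Prop := ∀ u ∈ U, ∀ w ∈ W, H.h u w = 0

/-- Orthogonal decompositions into blocks. -/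
inductive Dec : Multiset (Blk F) → Submodule β.O V → Prop
  | zero : Dec 0 ⊥
  | cons {b : Blk F} {s : Multiset (Blk F)} {U W : Submodule β.O V} :
      H.Rep b U → Dec s W → H.Orth U W → Dec (b ::ₘ s) (U ⊔ W)

/-- Every decomposition of type `s` can be changed to one of type `s'`. -/
def Mv (s s' : Multiset (Blk F)) : Prop := ∀ U, H.Dec s U → H.Dec s' U

variable {H} {U W U' W' : Submodule β.O V} {s s' r : Multiset (Blk F)} {b b' : Blk F}

theorem Orth.symm (h : H.Orth U W) : H.Orth W U := fun _ hw _ hu => H.symm_zero (h _ hu _ hw)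

theorem Orth.mono (h : H.Orth U W) (h1 : U' ≤ U) (h2 : W' ≤ W) : H.Orth U' W' :=
  fun _ hu _ hw => h _ (h1 hu) _ (h2 hw)

theorem Orth.sup_left (h : H.Orth U W) (h' : H.Orth U' W) : H.Orth (U ⊔ U') W := by
  intro u hu w hw
  obtain ⟨a, ha, a', ha', rfl⟩ := mem_sup.1 hu
  simp [h a ha w hw, h' a' ha' w hw]

theorem Orth.sup_right (h : H.Orth U W) (h' : H.Orth U W') : H.Orth U (W ⊔ W') :=
  (h.symm.sup_left h'.symm).symm

theorem orth_span_left {A : Set V} (h : ∀ x ∈ A, ∀ w ∈ W, H.h x w = 0) : H.Orth (span β.O A) W := by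
  intro u hu w hw
  induction hu using span_induction with
  | mem x hx => exact h x hx w hw
  | zero => simp
  | add x y _ _ hx hy => simp [hx, hy]
  | smul a x _ hx => simp [hx]

theorem orth_span {A B : Set V} (h : ∀ x ∈ A, ∀ y ∈ B, H.h x y = 0) :
    H.Orth (span β.O A) (span β.O B) :=
  orth_span_left fun x hx _ hw => H.symm_zero (orth_span_left (W := span β.O {x}) (fun y hy w hw => by
    obtain ⟨a, rfl⟩ := mem_span_singleton.1 hw
    simp [H.symm_zero (h x hx y hy)]) _ hw x (mem_span_singleton_self x))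

omit [Algebra F P] in
theorem sup_span_one {R : Type*} [Ring R] [Module R V] {U : Submodule R V} {u : V} (hu : u ∈ U)
    (x : V) : U ⊔ span R {x + u} = U ⊔ span R {x} :=
  le_antisymm (sup_le le_sup_left ((span_singleton_le_iff_mem _ _).2
    (add_mem (mem_sup_right (mem_span_singleton_self x)) (mem_sup_left hu))))
    (sup_le le_sup_left ((span_singleton_le_iff_mem _ _).2 (by
      simpa using sub_mem (mem_sup_right (mem_span_singleton_self (x + u))) (mem_sup_left hu))))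

omit [Algebra F P] in
theorem sup_span_two {R : Type*} [Ring R] [Module R V] {U : Submodule R V} {u w : V} (hu : u ∈ U)
    (hw : w ∈ U) (x y : V) : U ⊔ span R {x + u, y + w} = U ⊔ span R {x, y} := by
  rw [span_insert, span_insert, ← sup_assoc, sup_span_one hu, sup_right_comm, sup_span_one hw,
    sup_right_comm, sup_assoc]

theorem Dec.add (h : H.Dec s U) (h' : H.Dec s' W) (ho : H.Orth U W) : H.Dec (s + s') (U ⊔ W) := by
  induction h with
  | zero => simpa using h'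
  | cons h1 _ h3 ih =>
    rw [Multiset.cons_add, sup_assoc]
    exact .cons h1 (ih (ho.mono le_sup_right le_rfl)) (h3.sup_right (ho.mono le_sup_left le_rfl))

theorem Dec.of_add (h : H.Dec r U) : ∀ {s s'}, r = s + s' →
    ∃ U₁ U₂, H.Dec s U₁ ∧ H.Dec s' U₂ ∧ H.Orth U₁ U₂ ∧ U = U₁ ⊔ U₂ := by
  induction h with
  | zero =>
    intro s s' h
    obtain ⟨rfl, rfl⟩ := add_eq_zero.1 h.symm
    exact ⟨⊥, ⊥, .zero, .zero, fun u hu => by simp [mem_bot _ |>.1 hu], by simp⟩
  | @cons b r U W h1 _ h3 ih =>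
    have key : ∀ {s s'}, b ::ₘ r = s + s' → b ∈ s →
        ∃ U₁ U₂, H.Dec s U₁ ∧ H.Dec s' U₂ ∧ H.Orth U₁ U₂ ∧ U ⊔ W = U₁ ⊔ U₂ := fun h hb => by
      obtain ⟨s, rfl⟩ := Multiset.exists_cons_of_mem hb
      obtain ⟨U₁, U₂, h4, h5, h6, rfl⟩ := ih ((Multiset.cons_inj_right _).1
        (h.trans (Multiset.cons_add _ _ _)))
      exact ⟨_, _, .cons h1 h4 (h3.mono le_rfl le_sup_left), h5,
        (h3.mono le_rfl le_sup_right).sup_left h6, (sup_assoc _ _ _).symm⟩
    intro s s' h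
    obtain hb | hb := Multiset.mem_add.1 (h ▸ Multiset.mem_cons_self b r)
    · exact key h hb
    · obtain ⟨U₁, U₂, h4, h5, h6, h7⟩ := key (h.trans (add_comm _ _)) hb
      exact ⟨_, _, h5, h4, h6.symm, h7.trans (sup_comm _ _)⟩

theorem Dec.eq_bot (h : H.Dec 0 U) : U = ⊥ := by
  generalize hs : (0 : Multiset (Blk F)) = s at h
  cases h with
  | zero => rfl
  | cons => exact absurd hs.symm Multiset.cons_ne_zero

theorem dec_singleton : H.Dec {b} U ↔ H.Rep b U := by
  refine ⟨fun h => ?_, fun h => by simpa using Dec.cons h .zero fun u _ w hw => by simp [mem_bot _ |>.1 hw]⟩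
  generalize hs : ({b} : Multiset (Blk F)) = s at h
  cases h with
  | zero => exact absurd hs (Multiset.singleton_ne_zero _)
  | cons h1 h2 _ =>
    obtain ⟨rfl, rfl⟩ := Multiset.singleton_eq_cons_iff _ |>.1 hs
    simpa [h2.eq_bot] using h1

theorem dec_cons : H.Dec (b ::ₘ s) U ↔
    ∃ U₁ U₂, H.Rep b U₁ ∧ H.Dec s U₂ ∧ H.Orth U₁ U₂ ∧ U = U₁ ⊔ U₂ :=
  ⟨fun h => by simpa only [dec_singleton] using h.of_add (Multiset.singleton_add b s).symm,
    fun ⟨_, _, h1, h2, h3, h4⟩ => h4 ▸ .cons h1 h2 h3⟩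

theorem Mv.refl (s : Multiset (Blk F)) : H.Mv s s := fun _ h => h

theorem Mv.trans (h : H.Mv s s') (h' : H.Mv s' r) : H.Mv s r := fun U hU => h' U (h U hU)

theorem Mv.add {r' : Multiset (Blk F)} (h : H.Mv s s') (h' : H.Mv r r') : H.Mv (s + r) (s' + r') :=
  fun _ hU => by
    obtain ⟨U₁, U₂, h1, h2, h3, rfl⟩ := hU.of_add rfl
    exact (h _ h1).add (h' _ h2) h3

theorem mv_pair {c c' : Blk F} (h : ∀ U W, H.Rep b U → H.Rep c W → H.Orth U W →
    ∃ U' W', H.Rep b' U' ∧ H.Rep c' W' ∧ H.Orth U' W' ∧ U ⊔ W = U' ⊔ W') :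
    H.Mv {b, c} {b', c'} := fun U hU => by
  obtain ⟨U₁, U₂, h1, h2, h3, rfl⟩ := dec_cons.1 hU
  obtain ⟨U', W', h4, h5, h6, h7⟩ := h _ _ h1 (dec_singleton.1 h2) h3
  exact dec_cons.2 ⟨_, _, h4, dec_singleton.2 h5, h6, h7⟩

variable [CharP P 2]

theorem add_self (β : Base F P) [Module β.O V] (v : V) : v + v = 0 := by
  rw [← two_smul β.O, CharTwo.two_eq_zero, zero_smul]

theorem exists_proj {j : ℕ} {z x₁ x₂ y : V} {a c : P} {r₁ r₂ : β.O}
    (ho : H.Orth (span β.O {z}) (span β.O {x₁, x₂})) (hy : y ∈ span β.O {x₁, x₂})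
    (hz : H.n z = β.S ^ j * (1 + β.S * a)) (hn : H.n y = β.S ^ j * (β.S * c))
    (h1 : H.h x₁ y = ⟨β.S ^ j * β.S, 0⟩ * r₁) (h2 : H.h x₂ y = ⟨β.S ^ j * β.S, 0⟩ * r₂) :
    ∃ z' x₁' x₂' v, β.ρ v = 1 ∧ span β.O {z} ⊔ span β.O {x₁, x₂} = span β.O {z'} ⊔ span β.O {x₁', x₂'} ∧
      H.Orth (span β.O {z'}) (span β.O {x₁', x₂'}) ∧ H.n z' = β.S ^ j * (1 + β.S * (a + c)) ∧
      H.n x₁' = H.n x₁ + β.S ^ j * v * norm r₁ ∧ H.n x₂' = H.n x₂ + β.S ^ j * v * norm r₂ ∧
      H.h x₁' x₂' = H.h x₁ x₂ + ⟨β.S ^ j * β.S * v, 0⟩ * (r₁ * star r₂) ∧ (x₁ = x₂ → r₁ = r₂ → x₁' = x₂') := by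
  obtain ⟨v, hv, hv'⟩ := Base.exists_inv (β := β) (w := 1 + β.S * (a + c)) (by simp)
  have h3 := fun w hw => ho z (mem_span_singleton_self z) w hw
  have h4 : H.n (z + y) = β.S ^ j * (1 + β.S * (a + c)) := by simp [h3 y hy, hz, hn]; ring
  have h5 : H.h x₁ (z + y) = ⟨β.S ^ j * β.S, 0⟩ * r₁ := by
    simp [H.symm_zero (h3 x₁ (subset_span (by simp))), h1]
  have h6 : H.h x₂ (z + y) = ⟨β.S ^ j * β.S, 0⟩ * r₂ := by
    simp [H.symm_zero (h3 x₂ (subset_span (by simp))), h2]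
  have h7 : span β.O {z} ⊔ span β.O {x₁, x₂} = span β.O {z + y} ⊔ span β.O {x₁, x₂} := by
    rw [sup_comm, ← sup_span_one hy, sup_comm]
  generalize z + y = z' at h4 h5 h6 h7
  have h8 : ∀ x r, H.h x z' = ⟨β.S ^ j * β.S, 0⟩ * r → H.h z' (x + (r * ⟨v, 0⟩) • z') = 0 ∧
      H.n (x + (r * ⟨v, 0⟩) • z') = H.n x + β.S ^ j * v * norm r := fun x r h => by
    refine ⟨H.symm_zero ?_, ?_⟩
    · ext <;> simp [h, h4] <;> grind
    · simp [h, h4, norm_def]; grind
  refine ⟨z', x₁ + (r₁ * ⟨v, 0⟩) • z', x₂ + (r₂ * ⟨v, 0⟩) • z', v, hv', h7.trans ?_,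
    orth_span (by simp only [Set.mem_singleton_iff, Set.mem_insert_iff]; rintro _ rfl _ (rfl | rfl)
                  exacts [(h8 _ _ h5).1, (h8 _ _ h6).1]),
    h4, (h8 _ _ h5).2, (h8 _ _ h6).2, ?_, by rintro rfl rfl; rfl⟩
  · exact (sup_span_two (smul_mem _ _ (mem_span_singleton_self _))
      (smul_mem _ _ (mem_span_singleton_self _)) _ _).symm
  · rw [H.add_left, H.smul_left, (h8 _ _ h6).1]
    ext <;> simp [h5] <;> grind

variable [Finite P] [Finite F] [CharP F 2] {i : ℕ} {e e' : F}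

theorem mv_VV (c : F) : H.Mv {(.V, i, e), (.V, i, e')} {(.V, i, e + c), (.V, i, e' + c)} :=
  mv_pair <| by
    rintro _ _ ⟨j, z, h1, rfl, h2⟩ ⟨j', x, h3, rfl, h4⟩ ho
    obtain rfl : j' = j := by omega
    obtain ⟨d, rfl⟩ := exists_sq c
    have h0 : H.h x ((⟨0, algebraMap F P d⟩ : β.O) • x) = ⟨β.S ^ j' * β.S, 0⟩ *
        (⟨β.S, 1⟩ * ⟨algebraMap F P d * (1 + β.S * algebraMap F P e'), 0⟩) := by
      ext <;> simp [h4] <;> grind
    obtain ⟨z', x', _, v, hv, h5, h6, h7, h8, -, -, h9⟩ := exists_proj (by simpa using ho)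
      (smul_mem _ _ (subset_span (by simp))) h2
      (c := algebraMap F P (d * d) * (1 + β.S * algebraMap F P e')) (by simp [h4, norm_def]; grind)
      h0 h0
    obtain rfl := h9 rfl rfl
    exact ⟨_, _, rep_V h1 h7 (by simpa using as_self _), rep_V h1 (b := algebraMap F P e' +
      v * algebraMap F P (d * d) * (1 + β.S * algebraMap F P e') ^ 2)
      (by rw [h8, h4]; simp [norm_def]; grind) (by simpa [hv] using as_self _),
      by simpa using h6, by simpa using h5⟩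

theorem mv_VV' (c : F) : H.Mv {(.V, i + 1, e), (.V, i, e')} {(.V, i + 1, e + c), (.V, i, e' + c)} :=
  mv_pair <| by
    rintro _ _ ⟨j, z, h1, rfl, h2⟩ ⟨j', x, h3, rfl, h4⟩ ho
    obtain rfl : j' = j + 1 := by omega
    obtain ⟨d, rfl⟩ := exists_sq c
    have h0 : H.h x ((⟨algebraMap F P d, 0⟩ : β.O) • x) = ⟨β.S ^ j * β.S, 0⟩ *
        ⟨algebraMap F P d * β.S * (1 + β.S * algebraMap F P e'), 0⟩ := by
      ext <;> simp [h4]; grind
    obtain ⟨z', x', _, v, hv, h5, h6, h7, h8, -, -, h9⟩ := exists_proj (by simpa using ho)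
      (smul_mem _ _ (subset_span (by simp))) h2
      (c := algebraMap F P (d * d) * (1 + β.S * algebraMap F P e')) (by simp [h4, norm_def]; grind)
      h0 h0
    obtain rfl := h9 rfl rfl
    exact ⟨_, _, rep_V h1 h7 (by simpa using as_self _), rep_V h3 (b := algebraMap F P e' +
      v * algebraMap F P (d * d) * (1 + β.S * algebraMap F P e') ^ 2)
      (by rw [h8, h4]; simp [norm_def]; grind) (by simpa [hv] using as_self _),
      by simpa using h6, by simpa using h5⟩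

theorem mv_VD (c : F) : H.Mv {(.V, i, e), (.D, i, e')} {(.V, i, e + c), (.D, i, e' + c)} :=
  mv_pair <| by
    rintro _ _ ⟨j, z, h1, rfl, h2⟩ ⟨j', x, y, h3, rfl, hx, hy, h4⟩ ho
    obtain rfl : j' = j + 1 := by omega
    obtain ⟨d, rfl⟩ := exists_sq c
    obtain ⟨z', x', y', v, hv, h5, h6, h7, h8, h9, h10, -⟩ := exists_proj
      (y := (⟨algebraMap F P d, 0⟩ : β.O) • y) ho (smul_mem _ _ (subset_span (by simp))) h2
      (c := algebraMap F P (d * d)) (by simp [hy, norm_def]; grind)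
      (r₁ := ⟨0, algebraMap F P d⟩) (r₂ := ⟨algebraMap F P d * β.S, 0⟩)
      (by ext <;> simp [h4]; grind) (by ext <;> simp [hy]; grind)
    exact ⟨_, _, rep_V h1 h7 (by simpa using as_self _), rep_D h3
      (a := algebraMap F P e' + v * algebraMap F P (d * d))
      (c := 1 + β.S * v * algebraMap F P (d * d)) (w := ⟨1 + β.S * v * algebraMap F P (d * d), 0⟩)
      (by rw [h8, hx]; simp [norm_def]; grind) (by rw [h9, hy]; simp [norm_def]; grind)
      (by rw [h10, h4]; ext <;> simp; grind) (by simp [norm_def])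
      (by simpa [hv] using as_self _), h6, h5⟩

theorem mv_VD' (c : F) : H.Mv {(.V, i, e), (.D, i + 1, e')} {(.V, i, e + c), (.D, i + 1, e' + c)} :=
  mv_pair <| by
    rintro _ _ ⟨j, z, h1, rfl, h2⟩ ⟨j', x, y, h3, rfl, hx, hy, h4⟩ ho
    obtain rfl : j' = j := by omega
    obtain ⟨d, rfl⟩ := exists_sq c
    obtain ⟨z', x', y', v, hv, h5, h6, h7, h8, h9, h10, -⟩ := exists_proj
      (y := (⟨0, algebraMap F P d⟩ : β.O) • y) ho (smul_mem _ _ (subset_span (by simp))) h2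
      (c := algebraMap F P (d * d)) (by simp [hy, norm_def]; grind)
      (r₁ := ⟨algebraMap F P d, 0⟩) (r₂ := ⟨algebraMap F P d * β.S, algebraMap F P d⟩)
      (by ext <;> simp [h4]; grind) (by ext <;> simp [hy] <;> grind)
    exact ⟨_, _, rep_V h1 h7 (by simpa using as_self _), rep_D h3
      (a := algebraMap F P e' + v * algebraMap F P (d * d))
      (c := 1 + β.S * v * algebraMap F P (d * d)) (w := ⟨1 + β.S * v * algebraMap F P (d * d), 0⟩)
      (by rw [h8, hx]; simp [norm_def]; grind) (by rw [h9, hy]; simp [norm_def]; grind)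
      (by rw [h10, h4]; ext <;> simp <;> grind) (by simp [norm_def])
      (by simpa [hv] using as_self _), h6, h5⟩

theorem mv_DD : H.Mv {(.D, i, e), (.D, i, e')} {(.D, i, 0), (.D, i, e' + e)} :=
  mv_pair <| by
    rintro _ _ ⟨j, x, y, h1, rfl, hx, hy, h2⟩ ⟨j', x', y', h3, rfl, hx', hy', h4⟩ ho
    obtain rfl : j' = j := by omega
    have h5 : ∀ u ∈ ({x, y} : Set V), ∀ w ∈ ({x', y'} : Set V), H.h u w = 0 ∧ H.h w u = 0 :=
      fun u hu w hw => ⟨ho _ (subset_span hu) _ (subset_span hw),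
        ho.symm _ (subset_span hw) _ (subset_span hu)⟩
    simp only [Set.mem_insert_iff, Set.mem_singleton_iff, forall_eq_or_imp, forall_eq] at h5
    have h6 := H.symm x y
    have h7 := H.symm x' y'
    refine ⟨_, _, rep_D (x := x) (y := y + y') (c := 0) (w := 1) h1 hx (by simp [*]; grind)
      (by simp [*]) (by simp) (by simpa using as_zero),
      rep_D (x := x' + (x + (⟨0, algebraMap F P e⟩ : β.O) • (y + y')))
        (y := y' + ((⟨β.S, 1⟩ : β.O) • x + (⟨β.S * algebraMap F P e, 0⟩ : β.O) • (y + y')))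
        (a := algebraMap F P (e' + e)) (c := 1 + β.S * algebraMap F P e)
        (w := ⟨1 + β.S * algebraMap F P e, 0⟩) h1 (by simp [*, norm_def]; grind)
        (by simp [*, norm_def]; grind) (by ext <;> simp [*] <;> grind) (by simp [norm_def])
        (by simpa using as_self _), orth_span ?_, ?_⟩
    · simp only [Set.mem_insert_iff, Set.mem_singleton_iff, forall_eq_or_imp, forall_eq]
      refine ⟨⟨?_, ?_⟩, ?_, ?_⟩ <;> ext <;> simp [*] <;> grind
    · rw [sup_span_two (mem_span_pair.2 ⟨1, _, by rw [one_smul]⟩) (mem_span_pair.2 ⟨_, _, rfl⟩),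
        sup_comm, ← sup_span_two (zero_mem _) (subset_span (by simp : y' ∈ _)), add_zero, sup_comm]

omit [Finite P] [Finite F] [CharP F 2] in
theorem mv_VE : H.Mv {(.V, i, e), (.E, i, e')} {(.V, i, e), (.V, i, e), (.V, i, e)} := by
  intro U hU
  obtain ⟨_, _, ⟨j, x, h1, rfl, hx⟩, h2, ho, rfl⟩ := dec_cons.1 hU
  obtain ⟨-, j', y, z, h3, rfl, hy, hz, h4⟩ := dec_singleton.1 h2
  obtain rfl : j' = j + 1 := by omega
  have h5 : ∀ w ∈ ({y, z} : Set V), H.h x w = 0 ∧ H.h w x = 0 := fun w hw =>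
    ⟨ho _ (mem_span_singleton_self x) _ (subset_span hw),
      ho.symm _ (subset_span hw) _ (mem_span_singleton_self x)⟩
  simp only [Set.mem_insert_iff, Set.mem_singleton_iff, forall_eq_or_imp, forall_eq] at h5
  have h6 := H.symm y z
  have hw : IsUnit (⟨1 + β.S * algebraMap F P e, 0⟩ : β.O) := Base.isUnit_O (by simp [norm_def])
  generalize hw' : (⟨1 + β.S * algebraMap F P e, 0⟩ : β.O) = w at hw
  refine dec_cons.2 ⟨_, _, ⟨j, x + y, h1, rfl, by simp [*]⟩, dec_cons.2 ⟨_, _,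
    ⟨j, x + w • z, h1, rfl, by simp [*]⟩, dec_singleton.2
      ⟨j, x + y + w • z, h1, rfl, by subst hw'; simp [*]⟩, orth_span ?_, rfl⟩,
    Orth.sup_right (orth_span ?_) (orth_span ?_), ?_⟩
  iterate 3
    rintro _ rfl _ rfl
    subst hw'
    ext <;> simp [*] <;> grind
  rw [Set.pair_comm y, ← span_smul_left hw, ← span_insert, ← span_insert, ← span_insert]
  refine span_eq_span ?_ ?_ <;>
    simp only [Set.insert_subset_iff, Set.singleton_subset_iff, SetLike.mem_coe, mem_span_triple]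
  · exact ⟨⟨1, 1, -1, by module⟩, ⟨-1, 0, 1, by module⟩, 0, -1, 1, by module⟩
  · exact ⟨⟨1, 0, 1, by module⟩, ⟨1, 1, 0, by module⟩, 1, 1, 1, by module⟩

end CfsgLib.Wall2.HM
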