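import Cfsg.Agent.Lib.Wall2.Inv

/-!
# Normal forms of block decompositions
-/

set_option autoImplicit false

namespace CfsgLib.Wall2

open Multiset

/-- The unsigned data on one level. -/
abbrev Lev : Type := ℕ × Bool × ℕ

/-- The parity type of the top level. -/
def top (s₀ : Bool) : List Lev → Bool
  | [] => s₀
  | l :: _ => l.2.1

/-- The levels carrying a sign. -/
def pos (s₀ : Bool) : List Lev → Finset ℕ
  | [] => ∅
  | l :: L => if ¬ top s₀ L ∧ (l.1 ≠ 0 ∨ l.2.1) then insert L.length (pos s₀ L) else pos s₀ L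

/-- Half the dimension of a level. -/
def Lev.wt (i : ℕ) (l : Lev) : ℕ :=
  l.1 * (2 * i + 1) + if l.2.1 then (l.2.2 + 1) * (i + 1) else l.2.2 * (2 * i + 2)

/-- Half the total dimension. -/
def wtL : List Lev → ℕ
  | [] => 0
  | l :: L => l.wt L.length + wtL L

theorem lt_of_mem_pos {s₀ : Bool} {L : List Lev} {i : ℕ} (h : i ∈ pos s₀ L) : i < L.length := by
  induction L with
  | nil => simp [pos] at h
  | cons l L ih =>
    rw [pos] at h
    split_ifs at h
    · exact (Finset.mem_insert.1 h).elim (· ▸ Nat.lt_succ_self _) fun h => (ih h).trans (by simp)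
    · exact (ih h).trans (by simp)

theorem erase_pos_subset (L : List Lev) : (pos false L).erase 0 ⊆ pos true L := by
  induction L with
  | nil => simp [pos]
  | cons l L ih =>
    obtain _ | ⟨l', L⟩ := L
    · simp only [pos, List.length_nil]
      split_ifs <;> simp
    · rw [pos, pos.eq_2 true, show top true (l' :: L) = top false (l' :: L) from rfl]
      split_ifs
      · rw [Finset.erase_insert_of_ne (by simp)]
        exact Finset.insert_subset_insert _ ih
      · exact ih

variable {F : Type*} [Field F]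

/-- The blocks on one level without signs. -/
def lev₀ (i a : ℕ) (f : Bool) (b : ℕ) : Multiset (Blk F) :=
  replicate a (.D, i, 0) + if f then replicate (b + 1) (.V, i, 0) else replicate b (.E, i, 0)

/-- The blocks on one level with sign `e`. -/
def lev (i : ℕ) : Lev → F → Multiset (Blk F)
  | (a + 1, f, b), e => (.D, i, e) ::ₘ lev₀ i a f b
  | (0, true, b), e => (.V, i, e) ::ₘ replicate b (.V, i, 0)
  | (0, false, b), _ => replicate b (.E, i, 0)

theorem lev_zero (i a : ℕ) (f : Bool) (b : ℕ) : lev i (a, f, b) (0 : F) = lev₀ i a f b := by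
  obtain _ | a := a
  · cases f <;> simp [lev, lev₀]
  · simp [lev, lev₀]

theorem wt_lev (i : ℕ) (l : Lev) (e : F) : ((lev i l e).map Blk.wt).sum = l.wt i := by
  obtain ⟨_ | a, _ | _, b⟩ := l <;> simp [lev, lev₀, Lev.wt, Blk.wt] <;> ring

theorem sign_lev (i : ℕ) (l : Lev) (e : F) :
    ((lev i l e).map fun b => b.2.2).sum = if l.1 ≠ 0 ∨ l.2.1 then e else 0 := by
  obtain ⟨_ | a, _ | _, b⟩ := l <;> simp [lev, lev₀]

theorem rel_lev {full : Prop} {i : ℕ} (l : Lev) {e e' : F} (h : e = e' ∨ ¬ full ∧ i = 0) :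
    Rel (HM.BR full) (lev i l e) (lev i l e') := by
  have h0 : ∀ s : Multiset (Blk F), Rel (HM.BR full) s s := fun s =>
    rel_refl_of_refl_on fun _ _ => ⟨rfl, rfl, .inl rfl⟩
  obtain ⟨_ | a, _ | _, b⟩ := l
  · exact h0 _
  all_goals
    simp only [lev]
    exact .cons ⟨rfl, rfl, h⟩ (h0 _)

/-- Forgetting the sign. -/
def er (b : Blk F) : Blk F := (b.1, b.2.1, 0)

theorem exists_counts {i : ℕ} {T : Multiset (Blk F)} (h : ∀ b ∈ T, b.2.1 = i) : ∃ a v c : ℕ,
    T.map er = replicate a (.D, i, 0) + (replicate v (.V, i, 0) + replicate c (.E, i, 0)) ∧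
      (v ≠ 0 ↔ ∃ e, (.V, i, e) ∈ T) ∧ (a ≠ 0 → ∃ e, (.D, i, e) ∈ T) := by
  induction T using Multiset.induction with
  | empty => exact ⟨0, 0, 0, by simp⟩
  | cons b T ih =>
    obtain ⟨a, v, c, h1, h2, h3⟩ := ih fun b hb => h b (mem_cons_of_mem hb)
    obtain ⟨k, _, e⟩ := b
    obtain rfl := h _ (mem_cons_self _ _)
    obtain _ | _ | _ := k
    · exact ⟨a, v + 1, c, by simp [h1, er], by simp, by simpa using h3⟩
    · exact ⟨a, v, c + 1, by simp [h1, er], by simpa using h2, by simpa using h3⟩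
    · exact ⟨a + 1, v, c, by simp [h1, er], by simpa using h2, by simp⟩

variable [Finite F] [CharP F 2]

variable (F) in
/-- The normal form with unsigned data `L` and signs on the levels in `E`. -/
noncomputable def blocks : List Lev → Finset ℕ → Multiset (Blk F)
  | [], _ => 0
  | l :: L, E => lev L.length l (if L.length ∈ E then del F else 0) + blocks L E

theorem blocks_congr {L : List Lev} {E E' : Finset ℕ} (h : ∀ i < L.length, i ∈ E ↔ i ∈ E') :
    blocks F (L) E = blocks F L E' := by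
  induction L with
  | nil => rfl
  | cons l L ih =>
    simp only [blocks, h L.length (by simp), ih fun i hi => h i (hi.trans (by simp))]

theorem wt_blocks (L : List Lev) (E : Finset ℕ) : ((blocks F L E).map Blk.wt).sum = wtL L := by
  induction L with
  | nil => rfl
  | cons l L ih => simp [blocks, wtL, wt_lev, ih]

theorem psi_blocks {L : List Lev} {E : Finset ℕ} (h : E ⊆ pos false L) :
    psi F ((blocks F L E).map fun b => b.2.2).sum = (-1) ^ E.card := by
  induction L generalizing E with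
  | nil => simp [blocks, Finset.subset_empty.1 h]
  | cons l L ih =>
    have h1 : E.erase L.length ⊆ pos false L := fun i hi => by
      have := h (Finset.mem_of_mem_erase hi)
      rw [pos] at this
      split_ifs at this
      exacts [(Finset.mem_insert.1 this).resolve_left (Finset.ne_of_mem_erase hi), this]
    rw [blocks, map_add, sum_add, AddChar.map_add_eq_mul, blocks_congr (E' := E.erase L.length)
      fun i hi => by simp [hi.ne], ih h1, sign_lev]
    by_cases h2 : L.length ∈ E
    · have := h h2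
      rw [pos] at this
      split_ifs at this with h3
      · rw [if_pos h3.2, if_pos h2, psi_of_not not_as_del, ← Finset.card_erase_add_one h2, pow_succ']
      · exact absurd (lt_of_mem_pos this) (lt_irrefl _)
    · simp [h2]

theorem rel_blocks {full : Prop} (L : List Lev) {E E' : Finset ℕ}
    (h : E = E' ∨ ¬ full ∧ E.erase 0 = E'.erase 0) :
    Rel (HM.BR full) (blocks F L E) (blocks F L E') := by
  induction L with
  | nil => exact .zero
  | cons l L ih =>
    refine (rel_lev l ?_).add ih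
    obtain rfl | ⟨h1, h2⟩ := h
    · exact .inl rfl
    · refine or_iff_not_imp_right.2 fun h3 => ?_
      have := Finset.ext_iff.1 h2 L.length
      simp only [Finset.mem_erase, and_congr_right_iff] at this
      simp only [this fun h => h3 ⟨h1, h⟩]

namespace HM

variable {P : Type*} [CommRing P] [Algebra F P] {β : Base F P} {V : Type*} [AddCommGroup V]
  [Module β.O V] {H : HM β V} [CharP P 2] [Finite P] {i : ℕ} {e e' : F}

section

omit [Finite F] [CharP F 2] [CharP P 2] [Finite P]

variable {s s' T : Multiset (Blk F)} {b b' c c' : Blk F}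

theorem Mv.cons (b : Blk F) (h : H.Mv s s') : H.Mv (b ::ₘ s) (b ::ₘ s') := by
  simpa using (Mv.refl {b}).add h

theorem Mv.pair (h : H.Mv {b, c} s) (T : Multiset (Blk F)) : H.Mv (b ::ₘ c ::ₘ T) (s + T) := by
  simpa using h.add (.refl T)

theorem mv_E : H.Mv ((.E, i, e) ::ₘ T) ((.E, i, 0) ::ₘ T) := fun _ h => by
  obtain ⟨_, _, h1, -⟩ := dec_cons.1 h
  exact h1.1 ▸ h

theorem mv_collect {c : Kind × ℕ} (h : ∀ b ∈ T, b.1 = .E ∨
    ∀ e, ∃ e', H.Mv {b, (c.1, c.2, e)} {er b, (c.1, c.2, e')}) (e : F) :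
    ∃ e', H.Mv ((c.1, c.2, e) ::ₘ T) ((c.1, c.2, e') ::ₘ T.map er) := by
  induction T using Multiset.induction generalizing e with
  | empty => exact ⟨e, .refl _⟩
  | cons b T ih =>
    obtain ⟨e₁, h1⟩ : ∃ e', H.Mv {b, (c.1, c.2, e)} {er b, (c.1, c.2, e')} :=
      (h b (mem_cons_self _ _)).elim (fun h => ⟨e, by
        obtain ⟨_, i, e⟩ := b
        obtain rfl := h
        exact mv_E⟩) fun h => h e
    obtain ⟨e₂, h2⟩ := ih (fun b hb => h b (mem_cons_of_mem hb)) e₁
    refine ⟨e₂, ?_⟩
    rw [map_cons, cons_swap, cons_swap _ (er b)]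
    exact (h1.pair T).trans (by simpa using h2.cons (er b))

end

theorem mv_VE_replicate (c : ℕ) : H.Mv ((.V, i, e) ::ₘ replicate c (.E, i, 0))
    ((.V, i, e) ::ₘ replicate (2 * c) (.V, i, 0)) := by
  induction c with
  | zero => exact .refl _
  | succ c ih =>
    have h1 : H.Mv {(.V, i, e), (.E, i, 0)} {(.V, i, e), (.V, i, 0), (.V, i, 0)} :=
      mv_VE.trans (CharTwo.add_self_eq_zero e ▸ (mv_VV e).cons _)
    rw [replicate_succ]
    refine (h1.pair _).trans ?_
    simpa [mul_add, replicate_succ, cons_swap (Kind.V, i, e)] using (ih.cons (.V, i, 0)).cons (.V, i, 0)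

theorem exists_lev₀ {T : Multiset (Blk F)} (h : ∀ b ∈ T, b.2.1 = i) : ∃ a f b,
    H.Mv (T.map er) (lev₀ i a f b) ∧ (f ↔ ∃ e, (.V, i, e) ∈ T) := by
  obtain ⟨a, v, c, h1, h2, -⟩ := exists_counts h
  obtain _ | v := v
  · exact ⟨a, false, c, by simpa [h1, lev₀] using .refl _, by simpa using h2⟩
  · refine ⟨a, true, v + 2 * c, ?_, by simpa using h2⟩
    have := (Mv.refl (replicate a (Kind.D, i, (0 : F)) + replicate v (.V, i, 0))).add
      (mv_VE_replicate (H := H) (i := i) (e := 0) c)
    simpa [h1, lev₀, replicate_add, add_assoc] using this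

theorem exists_lev {A : Multiset (Blk F)} (h : ∀ b ∈ A, b.2.1 = i) {U : Submodule β.O V}
    (hU : H.Dec A U) : ∃ (l : Lev) (p : Prop) (_ : Decidable p), (p → l.1 ≠ 0 ∨ l.2.1) ∧
      H.Dec (lev i l (if p then del F else 0)) U ∧ (l.2.1 ↔ ∃ e, (.V, i, e) ∈ A) := by
  have key : ∀ {k : Kind} {e : F} {R}, H.Dec ((k, i, e) ::ₘ R) U →
      ∃ (p : Prop) (_ : Decidable p), H.Dec ((k, i, if p then del F else 0) ::ₘ R) U := fun h => by
    obtain ⟨U₁, U₂, h1, h2, h3, rfl⟩ := dec_cons.1 h
    exact (Rep.sign (b := (_, i)) h1).elim (fun h => ⟨False, inferInstance, .cons h h2 h3⟩)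
      fun h => ⟨True, inferInstance, .cons h h2 h3⟩
  by_cases hD : ∃ e, (.D, i, e) ∈ A
  · obtain ⟨e, he⟩ := hD
    obtain ⟨T, rfl⟩ := exists_cons_of_mem he
    have h' := fun b hb => h b (mem_cons_of_mem hb)
    obtain ⟨e', h1⟩ := mv_collect (H := H) (c := (.D, i)) (T := T) (fun ⟨k, j, e⟩ hb => by
      obtain rfl : j = i := h' _ hb
      obtain _ | _ | _ := k
      · exact .inr fun e' => ⟨e' + e, by
          rw [er, ← CharTwo.add_self_eq_zero e]; exact mv_VD e⟩
      · exact .inl rfl
      · exact .inr fun e' => ⟨_, mv_DD⟩) e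
    obtain ⟨a, f, b, h2, h3⟩ := exists_lev₀ (H := H) h'
    obtain ⟨p, _, h4⟩ := key (h1.trans (h2.cons _) U hU)
    exact ⟨(a + 1, f, b), p, _, fun _ => .inl a.succ_ne_zero, h4, by simpa using h3⟩
  by_cases hV : ∃ e, (.V, i, e) ∈ A
  · obtain ⟨e, he⟩ := id hV
    obtain ⟨T, rfl⟩ := exists_cons_of_mem he
    have h' := fun b hb => h b (mem_cons_of_mem hb)
    obtain ⟨e', h1⟩ := mv_collect (H := H) (c := (.V, i)) (T := T) (fun ⟨k, j, e⟩ hb => by
      obtain rfl : j = i := h' _ hb
      obtain _ | _ | _ := k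
      · exact .inr fun e' => ⟨e' + e, by
          rw [er, ← CharTwo.add_self_eq_zero e]; exact mv_VV e⟩
      · exact .inl rfl
      · exact absurd ⟨e, mem_cons_of_mem hb⟩ hD) e
    obtain ⟨a, v, c, h2, -, h3⟩ := exists_counts h'
    obtain rfl : a = 0 := by_contra fun h => hD ((h3 h).imp fun _ => mem_cons_of_mem)
    have h4 := ((Mv.refl (replicate v (.V, i, 0))).add (mv_VE_replicate (e := e') c)) U
      (by simpa [h2] using h1 U hU)
    obtain ⟨p, _, h5⟩ := key (R := replicate (v + 2 * c) (.V, i, 0))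
      (by simpa [← replicate_add] using h4)
    exact ⟨(0, true, _), p, _, fun _ => .inr rfl, h5, iff_of_true rfl hV⟩
  · obtain ⟨a, v, c, h2, h3, h4⟩ := exists_counts h
    obtain rfl : a = 0 := by_contra fun h => hD (h4 h)
    obtain rfl : v = 0 := by_contra fun h => hV (h3.1 h)
    refine ⟨(0, false, c), False, inferInstance, False.elim, ?_, by simpa using hV⟩
    have h5 : ∀ T : Multiset (Blk F), (∀ b ∈ T, b.1 = .E) → H.Mv T (T.map er) := fun T => by
      induction T using Multiset.induction with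
      | empty => exact fun _ => .refl _
      | cons b T ih =>
        intro hb
        obtain ⟨_, j, e⟩ := b
        obtain rfl := hb _ (mem_cons_self _ _)
        rw [map_cons]
        exact mv_E.trans ((ih fun b h => hb b (mem_cons_of_mem h)).cons _)
    simpa [h2, lev] using h5 A (fun ⟨k, j, e⟩ hb => by
      obtain rfl : j = i := h _ hb
      obtain _ | _ | _ := k
      exacts [absurd ⟨e, hb⟩ hV, rfl, absurd ⟨e, hb⟩ hD]) U hU

theorem exists_normal (K : ℕ) : ∀ {s : Multiset (Blk F)} {U : Submodule β.O V}, H.Dec s U →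
    (∀ b ∈ s, b.2.1 < K) → ∃ L E, L.length = K ∧ E ⊆ pos false L ∧ H.Dec (blocks F L E) U ∧
      (top false L ↔ ∃ i e, i + 1 = K ∧ (.V, i, e) ∈ s) := by
  classical
  induction K with
  | zero =>
    intro s U h hs
    obtain rfl : s = 0 := eq_zero_of_forall_notMem fun b hb => Nat.not_lt_zero _ (hs b hb)
    exact ⟨[], ∅, rfl, by simp, h, by simp [top]⟩
  | succ K ih =>
    intro s U h hs
    obtain ⟨A, R, rfl, hA, hR⟩ : ∃ A R, s = A + R ∧ (∀ b ∈ A, b.2.1 = K) ∧ ∀ b ∈ R, b.2.1 < K :=
      ⟨_, _, (filter_add_not (fun b => b.2.1 = K) s).symm, fun b hb => (mem_filter.1 hb).2,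
        fun b hb => lt_of_le_of_ne (Nat.le_of_lt_succ (hs b (mem_filter.1 hb).1)) (mem_filter.1 hb).2⟩
    have hV : (∃ e, (Kind.V, K, e) ∈ A) ↔ ∃ i e, i + 1 = K + 1 ∧ (.V, i, e) ∈ A + R :=
      ⟨fun ⟨e, h⟩ => ⟨K, e, rfl, mem_add.2 (.inl h)⟩, fun ⟨i, e, h1, h2⟩ => by
        obtain rfl : i = K := by omega
        exact ⟨e, (mem_add.1 h2).resolve_right fun h => lt_irrefl _ (hR _ h)⟩⟩
    by_cases hl : ∃ i e, i + 1 = K ∧ (Kind.V, i, e) ∈ R
    · obtain ⟨i, e, rfl, he⟩ := hl
      obtain ⟨R, rfl⟩ := exists_cons_of_mem he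
      obtain ⟨e', h1⟩ := mv_collect (H := H) (c := (.V, i)) (T := A) (fun ⟨k, j, e⟩ hb => by
        obtain rfl : j = i + 1 := hA _ hb
        obtain _ | _ | _ := k
        · exact .inr fun e' => ⟨e' + e, by
          rw [er, ← CharTwo.add_self_eq_zero e]; exact mv_VV' e⟩
        · exact .inl rfl
        · exact .inr fun e' => ⟨e' + e, by
            rw [pair_comm, pair_comm (er _), er, ← CharTwo.add_self_eq_zero e]; exact mv_VD' e⟩) e
      obtain ⟨a, f, b, h2, h3⟩ := exists_lev₀ (H := H) hA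
      obtain ⟨U₁, U₂, h4, h5, h6, rfl⟩ := (((h1.trans (h2.cons _)).add (.refl R)) U
        (by simpa using h)).of_add ((cons_add _ _ _).trans (add_cons _ _ _).symm)
      obtain ⟨L, E, h7, h8, h9, h10⟩ := ih h5 (by simpa using hR)
      have h11 : top false L := h10.2 ⟨i, e', rfl, by simp⟩
      refine ⟨(a, f, b) :: L, E, by simp [h7], by simpa [pos, h11] using h8, ?_, h3.trans hV⟩
      rw [blocks, if_neg fun h => lt_irrefl _ (lt_of_mem_pos (h8 h)), lev_zero, h7]
      exact h4.add h9 h6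
    · obtain ⟨U₁, U₂, h4, h5, h6, rfl⟩ := h.of_add rfl
      obtain ⟨L, E, rfl, h8, h9, h10⟩ := ih h5 hR
      obtain ⟨l, p, _, h1, h2, h3⟩ := exists_lev hA h4
      have h11 : L.length ∉ E := fun h => lt_irrefl _ (lt_of_mem_pos (h8 h))
      refine ⟨l :: L, if p then insert L.length E else E, rfl, ?_, ?_, h3.trans hV⟩
      · rw [pos]
        split_ifs with h12 h13 h13
        exacts [Finset.insert_subset_insert _ h8, absurd ⟨mt h10.1 hl, h1 h12⟩ h13,
          h8.trans (Finset.subset_insert _ _), h8]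
      · rw [blocks, blocks_congr (E' := E) fun i hi => by split_ifs <;> simp [hi.ne]]
        convert h2.add h9 h6 using 4
        split_ifs <;> simp [*]

end HM

end CfsgLib.Wall2
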