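import Mathlib

/-!
# Uniserial rings and Artin–Schreier equations in characteristic two
-/

set_option autoImplicit false

namespace CfsgLib.Wall2

/-- A commutative algebra whose ideals are the powers of `π`, of length `m`. -/
structure Uni (F : Type*) {R : Type*} [Field F] [CommRing R] [Algebra F R] (π : R) (m : ℕ) :
    Prop where
  pow : π ^ m = 0
  ne : ∀ i < m, π ^ i ≠ 0
  dec : ∀ a, ∃ (c : F) (r : R), a = algebraMap F R c + π * r

namespace Uni

variable {F R : Type*} [Field F] [CommRing R] [Algebra F R] {π : R} {m : ℕ} (h : Uni F π m)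
include h

theorem nil (r : R) : IsNilpotent (π * r) := (Commute.all _ _).isNilpotent_mul_right ⟨m, h.pow⟩

theorem isUnit_add {a : R} (ha : IsUnit a) (r : R) : IsUnit (a + π * r) :=
  (h.nil r).isUnit_add_left_of_commute ha (Commute.all _ _)

theorem unit_or (a : R) : IsUnit a ∨ ∃ r, a = π * r := by
  obtain ⟨c, r, rfl⟩ := h.dec a
  by_cases hc : c = 0
  · exact Or.inr ⟨r, by simp [hc]⟩
  · exact Or.inl (h.isUnit_add ((IsUnit.mk0 c hc).map _) r)

theorem exists_pow_mul (a : R) (k : ℕ) :
    (∃ i < k, ∃ u, IsUnit u ∧ a = π ^ i * u) ∨ ∃ r, a = π ^ k * r := by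
  induction k with
  | zero => exact Or.inr ⟨a, by simp⟩
  | succ k ih =>
    obtain ⟨i, hi, h'⟩ | ⟨r, rfl⟩ := ih
    · exact Or.inl ⟨i, by omega, h'⟩
    · obtain hr | ⟨r, rfl⟩ := h.unit_or r
      · exact Or.inl ⟨k, by omega, r, hr, rfl⟩
      · exact Or.inr ⟨r, by ring⟩

theorem eq_pow_mul {a : R} (ha : a ≠ 0) : ∃ i < m, ∃ u, IsUnit u ∧ a = π ^ i * u :=
  (h.exists_pow_mul a m).resolve_right fun ⟨r, hr⟩ => ha (by rw [hr, h.pow, zero_mul])

theorem ann {i j : ℕ} (hij : i + j = m) {a : R} (ha : π ^ i * a = 0) : ∃ r, a = π ^ j * r :=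
  (h.exists_pow_mul a j).resolve_left fun ⟨k, hk, u, hu, h'⟩ => h.ne (i + k) (by omega)
    (hu.mul_left_eq_zero.1 (by rw [pow_add, mul_assoc, ← h', ha]))

theorem cancel {i : ℕ} (hi : i < m) {a b : R} (ha : π * a = π ^ (i + 1) * b) :
    ∃ r, a = π ^ i * r := by
  obtain ⟨j, rfl⟩ := Nat.exists_eq_add_of_lt hi
  obtain ⟨r, hr⟩ := h.ann (i := 1) (j := i + j) (by omega) (a := a - π ^ i * b)
    (by linear_combination ha)
  exact ⟨b + π ^ j * r, by linear_combination hr⟩

theorem card_span {j : ℕ} : ∀ {i : ℕ}, i + j = m →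
    Nat.card (Ideal.span {π ^ i}) = Nat.card F ^ j := by
  induction j with
  | zero => rintro i rfl; simp [show π ^ i = 0 from h.pow]
  | succ j ih =>
    intro i hi
    rw [pow_succ', ← ih (i := i + 1) (by omega), ← Nat.card_prod]
    refine (Nat.card_congr (Equiv.ofBijective (fun x => ⟨algebraMap F R x.1 * π ^ i + x.2.1,
      add_mem (Ideal.mem_span_singleton'.2 ⟨_, rfl⟩) (Ideal.span_singleton_le_span_singleton.2
        (pow_dvd_pow π i.le_succ) x.2.2)⟩) ⟨fun ⟨c, b, hb⟩ ⟨c', b', hb'⟩ hc => ?_, fun ⟨a, ha⟩ => ?_⟩)).symm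
    · obtain ⟨r, rfl⟩ := Ideal.mem_span_singleton'.1 hb
      obtain ⟨r', rfl⟩ := Ideal.mem_span_singleton'.1 hb'
      have h1 := congrArg Subtype.val hc
      obtain rfl : c = c' := by
        by_contra h2
        refine h.ne i (by omega) ((h.isUnit_add ((IsUnit.mk0 _ (sub_ne_zero.2 h2)).map
          (algebraMap F R)) (r - r')).mul_left_eq_zero.1 ?_)
        rw [map_sub]
        linear_combination h1
      simpa using h1
    · obtain ⟨r, rfl⟩ := Ideal.mem_span_singleton'.1 ha
      obtain ⟨c, r, rfl⟩ := h.dec r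
      exact ⟨⟨c, r * π ^ (i + 1), Ideal.mem_span_singleton'.2 ⟨_, rfl⟩⟩, Subtype.ext (by ring)⟩

theorem exists_quad [Finite R] (a g : R) : ∃ q, q + π * g * (q * q) = a :=
  (Finite.injective_iff_surjective (f := fun q => q + π * g * (q * q))).1 (fun q q' hq =>
    sub_eq_zero.1 ((h.isUnit_add isUnit_one (g * (q + q'))).mul_left_eq_zero.1
      (by linear_combination hq))) a

end Uni

/-- Solvability of the Artin–Schreier equation. -/
def AS {R : Type*} [CommRing R] (a : R) : Prop := ∃ d, d * d + d = a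

section Field

variable {F : Type*} [Field F] [CharP F 2]

theorem AS.add {a b : F} (ha : AS a) (hb : AS b) : AS (a + b) := by
  obtain ⟨c, rfl⟩ := ha
  obtain ⟨d, rfl⟩ := hb
  exact ⟨c + d, by linear_combination c * d * CharTwo.two_eq_zero (R := F)⟩

omit [CharP F 2] in
theorem as_zero : AS (0 : F) := ⟨0, by simp⟩

theorem as_self (a : F) : AS (a + a) := by rw [CharTwo.add_self_eq_zero]; exact as_zero

variable [Finite F]

theorem exists_sq (c : F) : ∃ d, d * d = c :=
  (FiniteField.isSquare_of_char_two (ringChar.eq F 2) c).imp fun _ => Eq.symm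

theorem as_add_iff (a b : F) : AS (a + b) ↔ (AS a ↔ AS b) := by
  let f : F →+ F := ⟨⟨fun d => d * d + d, by simp⟩, fun c d => by
    linear_combination c * d * CharTwo.two_eq_zero (R := F)⟩
  refine AddSubgroup.add_mem_iff_of_index_two (H := f.range) ?_
  rw [AddSubgroup.index_range, show (f.ker : Type _) = ({0, 1} : Set F) from congrArg
    (fun s : Set F => (s : Type _)) (Set.ext fun d => ?_), Nat.card_coe_set_eq, Set.ncard_pair zero_ne_one]
  change d * d + d = 0 ↔ d = 0 ∨ d = 1
  rw [← mul_add_one, mul_eq_zero, CharTwo.add_eq_zero]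

variable (F) in
theorem exists_not_as : ∃ δ : F, ¬ AS δ := by
  by_contra! h
  exact zero_ne_one (Finite.injective_iff_surjective.2 h (a₁ := (0 : F)) (a₂ := 1)
    (by simp [CharTwo.add_self_eq_zero]))

variable (F) in
/-- An element which is not of the form `d ^ 2 + d`. -/
noncomputable def del : F := (exists_not_as F).choose

theorem not_as_del : ¬ AS (del F) := (exists_not_as F).choose_spec

theorem as_or (c : F) : AS c ∨ AS (del F + c) := by
  rw [as_add_iff]; have := not_as_del (F := F); tauto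

open Classical in
variable (F) in
/-- The sign character with kernel the elements `d ^ 2 + d`. -/
noncomputable def psi : AddChar F ℤ where
  toFun c := if AS c then 1 else -1
  map_zero_eq_one' := if_pos as_zero
  map_add_eq_mul' a b := by
    rw [as_add_iff]; by_cases ha : AS a <;> by_cases hb : AS b <;> simp [ha, hb]

theorem psi_eq_one {c : F} : psi F c = 1 ↔ AS c := by
  by_cases h : AS c <;> simp [psi, h]

theorem psi_of_not {c : F} (h : ¬ AS c) : psi F c = -1 := by simp [psi, h]

theorem psi_mul_self (c : F) : psi F c * psi F c = 1 := by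
  rw [← AddChar.map_add_eq_mul, psi_eq_one.2 (as_self c)]

theorem eq_zero_of_as {c : F} (h : ∀ d, AS (d * c)) : c = 0 := by
  by_contra h0
  exact not_as_del (by simpa [h0] using h (del F * c⁻¹))

/-- The Gauss sum of a function. -/
noncomputable def gauss {W : Type*} (Q : W → F) : ℤ := ∑ᶠ v, psi F (Q v)

theorem gauss_congr {W W' : Type*} (e : W ≃ W') {Q : W → F} {Q' : W' → F} (h : ∀ v, Q' (e v) = Q v) :
    gauss Q = gauss Q' := by
  simp only [gauss, ← h]
  exact finsum_comp_equiv e (f := fun v => psi F (Q' v))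

theorem gauss_prod {W W' : Type*} [Finite W] [Finite W'] (Q : W → F) (Q' : W' → F) :
    gauss (fun v : W × W' => Q v.1 + Q' v.2) = gauss Q * gauss Q' := by
  have := Fintype.ofFinite W
  have := Fintype.ofFinite W'
  simp only [gauss, finsum_eq_sum_of_fintype, AddChar.map_add_eq_mul, Fintype.sum_prod_type,
    Fintype.sum_mul_sum]

theorem gauss_eq {W : Type*} [AddCommGroup W] [Finite W] {Q : W → F} {B : W → W →+ F}
    (hQ : ∀ v w, Q (v + w) = Q v + Q w + B v w) (hB : ∀ v v' w, B (v + v') w = B v w + B v' w)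
    (M : AddSubgroup W) (a : W) (h1 : ∀ m ∈ M, AS (Q m + B a m))
    (h2 : ∀ v, (∀ m ∈ M, AS (B v m)) → v ∈ M) : gauss Q = Nat.card M * psi F (Q a) := by
  classical
  have := Fintype.ofFinite W
  have h3 : ∀ v, (∀ m ∈ M, AS (B v m)) ↔ v ∈ M := fun v => ⟨h2 v, fun hv m hm => by
    have := ((h1 _ (add_mem hv hm)).add (h1 v hv)).add (h1 m hm)
    rw [hQ, map_add] at this
    convert this using 1
    linear_combination -(Q v + Q m + B a v + B a m) * CharTwo.two_eq_zero (R := F)⟩
  have h4 : ∀ v, ∑ m : M, psi F (B v m) = if v ∈ M then Fintype.card M else 0 := fun v => by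
    rw [show ∑ m : M, psi F (B v m) = ∑ m : M, (psi F).compAddMonoidHom
      ((B v).comp M.subtype) m from rfl, AddChar.sum_eq_ite]
    rw [← h3]
    simp [DFunLike.ext_iff, psi_eq_one]
  have h5 : ∀ m : M, ∑ v, psi F (Q (a + v)) = ∑ v, psi F (Q (a + v)) * psi F (B v m) := fun m => by
    rw [← Equiv.sum_comp (Equiv.addRight m.1)]
    refine Finset.sum_congr rfl fun v _ => ?_
    rw [Equiv.coe_addRight, ← add_assoc, hQ _ m, hB, ← mul_one (_ * _), ← psi_eq_one.2 (h1 m m.2),
      ← AddChar.map_add_eq_mul, ← AddChar.map_add_eq_mul]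
    congr 1; ring
  have h6 := Finset.sum_congr (s₁ := Finset.univ) rfl fun m _ => h5 m
  rw [Finset.sum_comm (f := fun m : M => fun v => _ * _)] at h6
  simp only [← Finset.mul_sum, h4, Finset.sum_const, Finset.card_univ, nsmul_eq_mul, Nat.cast_ite,
    mul_ite, Nat.cast_zero, mul_zero, ← Finset.sum_filter] at h6
  rw [Finset.sum_congr (s₁ := Finset.univ.filter _) rfl
    (g := fun _ => psi F (Q a) * Fintype.card M) fun v hv => by
      rw [hQ, add_assoc, AddChar.map_add_eq_mul, psi_eq_one.2 (h1 v (by simpa using hv)), mul_one],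
    Finset.sum_const, ← Fintype.card_subtype, nsmul_eq_mul] at h6
  rw [gauss, finsum_eq_sum_of_fintype, ← Equiv.sum_comp (Equiv.addLeft a), Nat.card_eq_fintype_card]
  exact mul_left_cancel₀ (Nat.cast_ne_zero.2 Fintype.card_ne_zero) (h6.trans (by ring))

theorem gauss_mul_self {W : Type*} [AddCommGroup W] [Finite W] {Q : W → F} {B : W → W →+ F}
    (hQ : ∀ v w, Q (v + w) = Q v + Q w + B v w) (hB : ∀ v w, B v w = B w v) (h0 : Q 0 = 0)
    (h2 : ∀ v, (∀ w, AS (B v w)) → v = 0) : gauss Q * gauss Q = Nat.card W := by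
  classical
  have := Fintype.ofFinite W
  have h4 : ∀ v, ∑ w, psi F (B v w) = if v = 0 then Fintype.card W else 0 := fun v => by
    rw [show ∑ w, psi F (B v w) = ∑ w, (psi F).compAddMonoidHom (B v) w from rfl, AddChar.sum_eq_ite]
    have : (∀ w, AS (B v w)) ↔ v = 0 := ⟨h2 v, fun h w => by rw [hB, h, map_zero]; exact as_zero⟩
    simp [← this, DFunLike.ext_iff, psi_eq_one]
  have h5 : ∀ v, psi F (Q v) * ∑ w, psi F (Q w) = ∑ w, psi F (Q w) * psi F (B w v) := fun v => by
    rw [← Equiv.sum_comp (Equiv.addLeft v), Finset.mul_sum]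
    refine Finset.sum_congr rfl fun w _ => ?_
    rw [Equiv.coe_addLeft, hQ, add_assoc, AddChar.map_add_eq_mul, ← mul_assoc, psi_mul_self,
      one_mul, AddChar.map_add_eq_mul, hB]
  rw [gauss, finsum_eq_sum_of_fintype, Finset.sum_mul, Finset.sum_congr rfl fun v _ => h5 v,
    Finset.sum_comm]
  simp [← Finset.mul_sum, h4, h0]

end Field

end CfsgLib.Wall2
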