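import Cfsg.Agent.Lib.Wall2.Normal

/-!
# The Hermitian module of a unipotent isometry of a quadratic form in characteristic two
-/

set_option autoImplicit false

namespace CfsgLib.Wall2

open QuadraticAlgebra QuadraticMap Module

variable {F P : Type*} [Field F] [CommRing P] [Algebra F P] {β : Base F P}

namespace Base

theorem induction {M : P → Prop} (h0 : M 0) (h : ∀ c r, M r → M (algebraMap F P c + β.S * r))
    (p : P) : M p := by
  have : ∀ k p, ∃ p' r, M p' ∧ p = p' + β.S ^ k * r := fun k => by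
    induction k with
    | zero => exact fun p => ⟨0, p, h0, by simp⟩
    | succ k ih =>
      intro p
      obtain ⟨c, r, rfl⟩ := β.uni.dec p
      obtain ⟨p', r', h1, rfl⟩ := ih r
      exact ⟨_, r', h c _ h1, by ring⟩
  obtain ⟨p', r, h1, rfl⟩ := this β.m p
  simpa [β.uni.pow] using h1

theorem ext_l {p p' : P} (h : ∀ r, β.l (r * p) = β.l (r * p')) : p = p' :=
  sub_eq_zero.1 (eq_zero_of_l (β := β) (A := (· = 0)) (fun h => one_ne_zero (h 1)) fun r => by
    rw [mul_sub, map_sub, h, sub_self])

theorem ext_S {k : ℕ} (hk : k + 1 = β.m) {p p' : P} (h : β.l p = β.l p') (h' : β.S * p = β.S * p') :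
    p = p' := by
  obtain ⟨r, hr⟩ := β.uni.ann (i := 1) (j := k) (by omega) (a := p - p') (by linear_combination h')
  obtain ⟨r', hr'⟩ := β.dec r
  have := congrArg β.l hr
  rw [map_sub, h, sub_self, l_top hk] at this
  rw [← sub_eq_zero, hr, hr', ← this, map_zero, zero_add, ← mul_assoc, ← pow_succ, hk, β.uni.pow,
    zero_mul]

theorem exists_rep [Finite P] (f : P →ₗ[F] F) : ∃ p, ∀ r, β.l (r * p) = f r := by
  obtain ⟨p, hp⟩ := (LinearMap.injective_iff_surjective_of_finrank_eq_finrank
    (f := ((LinearMap.mul F P).compr₂ β.l).flip) Subspace.dual_finrank_eq.symm).1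
    (fun p p' h => ext_l (β := β) fun r => LinearMap.congr_fun h r) f
  exact ⟨p, LinearMap.congr_fun hp⟩

end Base

variable {V : Type*} [AddCommGroup V] [Module F V] [CharP F 2] [CharP P 2] [Finite P]

theorem exists_hm {k : ℕ} (hk : k + 1 = β.m) {Q : QuadraticForm F V} (φ : P →ₐ[F] End F V)
    {N : End F V} (h0 : φ (β.S ^ k) = 0) (hc : Commute N (φ β.S))
    (h1 : N * N = φ β.S + φ β.S * N)
    (h2 : ∀ x y, polar Q (N x) y = polar Q x (N y) + polar Q x (φ β.S y))
    (h3 : ∀ x, Q (N x) = polar Q (N x) x) (h4 : ∀ x y, polar Q (φ β.S x) y = polar Q x (φ β.S y)) :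
    ∃ (_ : Module β.O V) (H : HM β V), (∀ (c : F) (v : V), (⟨algebraMap F P c, 0⟩ : β.O) • v = c • v) ∧
      (∀ v, (ω : β.O) • v = N v) ∧ (∀ v, β.l (H.n v) = Q v) ∧ ∀ v w, β.l (H.h v w).im = polar Q v w := by
  let : Module P V := Module.compHom V φ.toRingHom
  have hs : ∀ (p : P) (v : V), p • v = φ p v := fun _ _ => rfl
  have : IsScalarTower F P V := ⟨fun a c v => by simp [hs]⟩
  simp only [← hs] at h2 h4
  have hN : ∀ (p : P) v, N (p • v) = p • N v := fun p => by
    induction p using Base.induction (β := β) with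
    | h0 => simp
    | h c r ih =>
      intro v
      rw [add_smul, add_smul, mul_smul, mul_smul, map_add, ← ih, algebraMap_smul, algebraMap_smul,
        map_smul]
      exact congrArg _ (LinearMap.congr_fun hc.eq _)
  have hNN : ∀ v, N (N v) = β.S • v + β.S • N v := LinearMap.congr_fun h1
  let N' : End P V := ⟨⟨N, N.map_add⟩, hN⟩
  let ψ : β.O →ₐ[P] End P V := QuadraticAlgebra.lift ⟨N', LinearMap.ext hNN⟩
  let : Module β.O V := Module.compHom V ψ.toRingHom
  have hs' : ∀ (a : β.O) (v : V), a • v = a.re • v + a.im • N v := fun _ _ => rfl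
  have h5 : ∀ (r : P) x y, polar Q (r • x) y = polar Q x (r • y) := fun r => by
    induction r using Base.induction (β := β) with
    | h0 => simp
    | h c r ih => simp [add_smul, mul_smul, h4, ih, smul_comm r]
  have h6 : ∀ x, polar Q x x = 0 := fun x => by simp [polar_self, CharTwo.two_eq_zero]
  have h7 : ∀ (r : P) x, polar Q (r • x) x = 0 ∧ polar Q (r • β.S • x) x = 0 := fun r => by
    induction r using Base.induction (β := β) with
    | h0 => simp
    | h c r ih =>
      intro x
      have := h2 x x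
      rw [polar_comm Q x, left_eq_add, polar_comm] at this
      simp only [add_smul, mul_smul, algebraMap_smul, polar_add_left, polar_smul_left, h6, this,
        smul_comm β.S r, (ih x).2, smul_zero, add_zero, true_and, zero_add]
      rw [← smul_comm, h4, (ih _).1]
  choose b hb using fun x y => Base.exists_rep (β := β)
    ((polarBilin Q y).comp ((LinearMap.toSpanSingleton P V x).restrictScalars F))
  replace hb : ∀ x y r, β.l (r * b x y) = polar Q (r • x) y := fun x y r =>
    (hb x y r).trans (polar_comm _ _ _)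
  have b1 : ∀ x x' y, b (x + x') y = b x y + b x' y := fun x x' y => Base.ext_l (β := β) fun r => by
    simp [mul_add, hb]
  have b2 : ∀ (p : P) x y, b (p • x) y = p * b x y := fun p x y => Base.ext_l (β := β) fun r => by
    rw [← mul_assoc, hb, hb, mul_smul]
  have b3 : ∀ x y, b x y = b y x := fun x y => Base.ext_l (β := β) fun r => by
    rw [hb, hb, h5, polar_comm]
  have b4 : ∀ x, b x x = 0 := fun x => Base.ext_l (β := β) fun r => by simp [hb, (h7 r x).1]
  have b5 : ∀ x y, b (N y) x = b (N x) y + β.S * b x y := fun x y => Base.ext_l (β := β) fun r => by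
    rw [mul_add, map_add, ← mul_assoc, hb, hb, hb, ← hN, h2, h5 r (N x), h5 _ x, polar_comm Q (N x),
      mul_comm, mul_smul, ← h4, polar_comm Q x]
  have b6 : ∀ x y y', b x (y + y') = b x y + b x y' := fun x y y' => by rw [b3, b1, b3 y, b3 y']
  have b7 : ∀ (p : P) x y, b x (p • y) = p * b x y := fun p x y => by rw [b3, b2, b3]
  have hn : ∀ x, ∃ p, β.l p = Q x ∧ β.S * p = b (N x) x := fun x => by
    obtain ⟨p, hp⟩ := β.uni.ann (i := k) (j := 1) hk (a := b (N x) x) (by
      rw [← b2, hs, h0, LinearMap.zero_apply, ← zero_smul P x, b2, zero_mul])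
    refine ⟨p + β.S ^ k * algebraMap F P (Q x - β.l p), by simp [Base.l_top hk], ?_⟩
    rw [mul_add, ← mul_assoc, ← pow_succ', hk, β.uni.pow, hp]; simp
  choose n n1 n2 using hn
  have b8 : ∀ x y, β.l (b x y) = polar Q x y := fun x y => by simpa using hb x y 1
  have n3 : ∀ x, n (N x) = β.S * n x := fun x => Base.ext_S hk (by rw [n1, n2, b8, h3])
    (by rw [n2, n2, hNN, b1, b2, b2, b4, b3]; simp)
  have n4 : ∀ x, n (β.S • x) = β.S ^ 2 * n x := fun x => Base.ext_S hk (by
    have : β.S • x = N (N x + β.S • x) := by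
      rw [map_add, hNN, hN, add_assoc, ← two_smul F, CharTwo.two_eq_zero, zero_smul, add_zero]
    rw [n1, pow_two, mul_assoc, n2, hb, this, h3, ← this, polar_add_right, h6, add_zero, h4, polar_comm])
    (by rw [n2, hN, b2, b7, ← n2]; ring)
  have n5 : ∀ (p : P) x, Q (p • x) = β.l (p * p * n x) := fun p => by
    induction p using Base.induction (β := β) with
    | h0 => simp
    | h c r ih =>
      intro x
      rw [add_smul, mul_comm β.S, mul_smul, QuadraticMap.map_add Q, ih, n4, algebraMap_smul, polar_smul_left,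
        polar_comm, (h7 r x).2, QuadraticMap.map_smul, ← n1, ← map_smul, smul_zero, add_zero,
        ← map_add, Algebra.smul_def, map_mul]
      congr 1; grind
  refine ⟨_, ⟨fun x y => ⟨b (N x) y + β.S * b x y, b x y⟩, n, fun x y z => ?_, fun a x y => ?_,
    fun x y => ?_, fun x => by simp [n2, b4], fun x y => Base.ext_S hk ?_ ?_,
    fun a x => Base.ext_S hk ?_ ?_⟩, fun c v => by simp [hs'], fun v => by simp [hs'], n1, b8⟩
  · ext <;> simp [b1]; ring
  · ext <;> simp [hs', b1, b2, hN, hNN] <;> grind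
  · ext <;> simp [b5 x y, b3 y x, CharTwo.neg_eq]
  · simp [n1, b8, QuadraticMap.map_add Q]
  · simp only [n2, mul_add, map_add, b1, b6, b5 x y]; grind
  · rw [n1, hs', QuadraticMap.map_add Q, n5, n5, n3, ← b8, b2, b7, b3, ← n2, ← map_add, ← map_add, norm_def]
    congr 1; grind
  · simp only [n2, hs', map_add, hN, hNN, b1, b2, b6, b7, b4, b3 x (N x), norm_def, mul_left_comm β.S]
    rw [← n2]; grind

open Polynomial in
/-- The truncated polynomial ring of length `k + 1`. -/
abbrev Trunc (F : Type*) [Field F] (k : ℕ) : Type _ := AdjoinRoot (X ^ (k + 1) : F[X])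

open Polynomial in
/-- The standard data on the truncated polynomial ring. -/
noncomputable def base (F : Type*) [Field F] (k : ℕ) : Base F (Trunc F k) :=
  have h1 : AdjoinRoot.root (X ^ (k + 1) : F[X]) ^ (k + 1) = 0 := by
    simpa using AdjoinRoot.eval₂_root (X ^ (k + 1) : F[X])
  let pb := AdjoinRoot.powerBasis' (monic_X_pow (R := F) (k + 1))
  have h2 : pb.dim = k + 1 := natDegree_X_pow _
  { S := AdjoinRoot.root _
    m := k + 1
    ρ := AdjoinRoot.liftAlgHom _ (AlgHom.id F F) 0 (by simp)
    l := pb.basis.coord ⟨k, by omega⟩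
    uni := ⟨h1, fun i hi => (pb.basis_eq_pow ⟨i, by omega⟩ ▸ pb.basis.ne_zero ⟨i, by omega⟩ :),
      fun a => by
        obtain ⟨p, rfl⟩ := AdjoinRoot.mk_surjective a
        refine ⟨p.coeff 0, AdjoinRoot.mk _ p.divX, ?_⟩
        conv_lhs => rw [← X_mul_divX_add p, map_add, map_mul, AdjoinRoot.mk_X, AdjoinRoot.mk_C]
        exact add_comm _ _⟩
    l_pow := fun i => by
      by_cases hi : i < k + 1
      · have := pb.basis_eq_pow ⟨i, by omega⟩
        rw [show AdjoinRoot.root _ ^ i = pb.basis ⟨i, by omega⟩ from this.symm]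
        rw [Basis.coord_apply, Basis.repr_self]
        simp [Finsupp.single_apply]
      · rw [pow_eq_zero_of_le (by omega) h1, map_zero, if_neg (by omega)] }

open Polynomial in
instance {k : ℕ} [Finite F] : Finite (Trunc F k) :=
  have := (AdjoinRoot.powerBasis' (monic_X_pow (R := F) (k + 1))).finite
  Module.finite_of_finite F

instance {k : ℕ} : CharP (Trunc F k) 2 :=
  have : Nontrivial (Trunc F k) := ⟨_, _, (base F k).uni.ne 0 k.succ_pos⟩
  charP_of_injective_algebraMap (algebraMap F _).injective 2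

/-- The isometry `u` of `Q` has a block decomposition of type `s`. -/
def HasType (k : ℕ) (Q : QuadraticForm F V) (u : End F V) (s : Multiset (Blk F)) : Prop :=
  ∃ (_ : Module (base F k).O V) (H : HM (base F k) V),
    (∀ (c : F) (v : V), (⟨algebraMap F _ c, 0⟩ : (base F k).O) • v = c • v) ∧
    (∀ v, (ω : (base F k).O) • v = u v + v) ∧ (∀ v, (base F k).l (H.n v) = Q v) ∧
    (∀ v w, (base F k).l (H.h v w).im = polar Q v w) ∧ H.Nondeg ⊤ ∧ H.Dec s ⊤

variable [Finite F] {k : ℕ} {Q : QuadraticForm F V} {u : End F V} {s : Multiset (Blk F)}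

open Polynomial in
theorem exists_hasType [Finite V] (hQ : ∀ v, (∀ w, polar Q v w = 0) → v = 0)
    (hu : ∀ v, Q (u v) = Q v) (h : (u - 1) ^ k = 0) :
    ∃ L E, L.length = k + 1 ∧ E ⊆ pos false L ∧ HasType k Q u (blocks F L E) := by
  have : CharP (End F V) 2 ∨ Subsingleton (End F V) := by
    rcases subsingleton_or_nontrivial (End F V) with h | h
    exacts [.inr h, .inl (charP_of_injective_algebraMap (algebraMap F _).injective 2)]
  have h2 : (2 : End F V) = 0 := by
    rw [← map_ofNat (algebraMap F (End F V)), CharTwo.two_eq_zero, map_zero]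
  obtain ⟨u', h3, h4⟩ : ∃ u', u * u' = 1 ∧ u' * u = 1 := isUnit_iff_exists.1 (by
    simpa using IsNilpotent.isUnit_add_one ⟨k, h⟩)
  have h5 : u + u' = u' * (u - 1) ^ 2 := by
    rw [pow_two, mul_sub, mul_one, sub_mul, one_mul, mul_sub, mul_sub, mul_sub, ← mul_assoc, h4]
    linear_combination (norm := (simp only [← one_add_one_eq_two]; noncomm_ring)) h2
  have h6 : (u + u') ^ k = 0 := by
    rw [h5, Commute.mul_pow (((Commute.symm (h3.trans h4.symm)).sub_right (.one_right _)).pow_right _),
      ← pow_mul, mul_comm 2, pow_mul, h]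
    simp
  let pb := AdjoinRoot.powerBasis' (monic_X_pow (R := F) (k + 1))
  let φ := pb.lift (u + u') (by
    rw [show minpoly F pb.gen = X ^ (k + 1) by
      simpa [pb] using AdjoinRoot.minpoly_root (monic_X_pow (R := F) (k + 1)).ne_zero]
    simp [pow_succ, h6])
  have h7 : φ (base F k).S = u + u' := pb.lift_gen _ _
  have h8 : ∀ v w, polar Q (u v) (u w) = polar Q v w := fun v w => by simp [polar, ← map_add, hu]
  have h9 : ∀ v, u (u' v) = v := LinearMap.congr_fun h3
  have h10 : ∀ v w, polar Q (u v) w = polar Q v (u' w) := fun v w => by rw [← h8 v, h9]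
  have h11 : ∀ v w, polar Q (u' v) w = polar Q v (u w) := fun v w => by rw [← h8, h9]
  obtain ⟨_, H, h12, h13, h14, h15⟩ := exists_hm (β := base F k) rfl (Q := Q) φ (N := u + 1)
    (by rw [map_pow, h7, h6]) (h7 ▸ ((Commute.refl u).add_right (h3.trans h4.symm)).add_left
      (.one_left _)) (by rw [h7]; linear_combination (norm := noncomm_ring) -h4 - u' * h2)
    (fun x y => by simp [h7, h10]; grind) (fun x => by simp [QuadraticMap.map_add Q, hu, polar_self]; grind)
    fun x y => by simp [h7, h10, h11, add_comm]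
  have h16 : H.Nondeg ⊤ := fun v _ hv => hQ v fun w => by simp [← h15, hv w trivial]
  obtain ⟨s, hs⟩ := HM.exists_dec h16
  obtain ⟨L, E, h17, h18, h19, -⟩ := HM.exists_normal _ hs hs.lt
  exact ⟨L, E, h17, h18, _, H, h12, h13, h14, h15, h16, h19⟩

theorem HasType.card_gauss [Finite V] (h : HasType k Q u s) :
    Nat.card V = Nat.card F ^ (2 * (s.map Blk.wt).sum) ∧
      0 < gauss Q * psi F (s.map fun b => b.2.2).sum := by
  obtain ⟨_, H, -, -, h1, -, h2, h3⟩ := h
  have := h3.card_gam h2
  have h4 : H.gam ⊤ = gauss Q := gauss_congr Submodule.topEquiv.toEquiv fun v => (h1 _).symm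
  rwa [Nat.card_congr Submodule.topEquiv.toEquiv, h4] at this

omit [Finite F] in
theorem HasType.exists_equiv {V' : Type*} [AddCommGroup V'] [Module F V'] {Q' : QuadraticForm F V'}
    {u' : End F V'} {s' : Multiset (Blk F)} {full : Prop} (h : HasType k Q u s)
    (h' : HasType k Q' u' s') (hs : Multiset.Rel (HM.BR full) s s') :
    ∃ e : V ≃ₗ[F] V', (∀ v, e (u v) = u' (e v)) ∧ (∀ v w, polar Q' (e v) (e w) = polar Q v w) ∧
      (full → ∀ v, Q' (e v) = Q v) := by
  obtain ⟨_, H, h1, h2, h3, h4, h5, h6⟩ := h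
  obtain ⟨_, H', h1', h2', h3', h4', h5', h6'⟩ := h'
  obtain ⟨e, h7, h8⟩ := (HM.Dec.iso hs h6 h6').exists_equiv h5 h5'
  exact ⟨{ e.toAddEquiv with map_smul' := fun c v => by simp [← h1, ← h1'] },
    fun v => by simpa [h2, h2'] using e.map_smul ω v, fun v w => by simp [← h4, ← h4', ← h7],
    fun hf v => by simp [← h3, ← h3', ← h8 hf]⟩

end CfsgLib.Wall2
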